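import Cfsg.Agent.CV.Defs
import Cfsg.Agent.H18.Four
import Cfsg.Agent.H49.SylowOf

/-! Bases of `V` and transvections in `K = 2^3 . L3(2)`. -/

set_option autoImplicit false

namespace Cfsg.Agent.H31.HV

open Subgroup Cfsg.Agent.H49 Cfsg.Agent.CV

variable {G : Type*} [Group G] {V K : Subgroup G} {a b c a' b' c' k t r : G}

theorem ncard_orb (H : Subgroup G) (v : G) :
    {y | ∃ k ∈ H, k * v * k⁻¹ = y}.ncard = (𝒞[v]).relIndex H := by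
  let _ : MulAction H G := MulAction.compHom G (MulAut.conj.comp H.subtype)
  have h1 : MulAction.stabilizer H v = (𝒞[v]).subgroupOf H := by
    ext k
    rw [mem_subgroupOf, mem_cent1]
    exact mul_inv_eq_iff_eq_mul
  rw [relIndex, ← h1, MulAction.index_stabilizer]
  congr 1
  ext y
  exact ⟨fun ⟨k, hk, e⟩ => ⟨⟨k, hk⟩, e⟩, fun ⟨k, e⟩ => ⟨k, k.2, e⟩⟩

/-- An ordered basis of `V`. -/
structure Bas (V : Subgroup G) (a b c : G) : Prop where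
  ha : a ∈ V
  hb : b ∈ V
  hc : c ∈ V
  a1 : a ≠ 1
  b1 : b ≠ 1
  ba : b ≠ a
  c1 : c ≠ 1
  ca : c ≠ a
  cb : c ≠ b
  cab : c ≠ a * b

theorem inv_eq (h : Hol V K) (ha : a ∈ V) : a⁻¹ = a := inv_eq_of_mul_eq_one_right (h.sq a ha)

theorem comm (h : Hol V K) (ha : a ∈ V) (hb : b ∈ V) : a * b = b * a := by
  rw [← inv_eq h (mul_mem ha hb), mul_inv_rev, inv_eq h ha, inv_eq h hb]

theorem cmem (h : Hol V K) (hk : k ∈ K) (ha : a ∈ V) : k * a * k⁻¹ ∈ V :=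
  conj_mem_of_norm h.norm hk ha

theorem cmul (k a b : G) : k * (a * b) * k⁻¹ = k * a * k⁻¹ * (k * b * k⁻¹) := by group

theorem cinj (h : k * a * k⁻¹ = k * b * k⁻¹) : a = b := mul_left_cancel (mul_right_cancel h)

theorem Bas.conj (h : Hol V K) (B : Bas V a b c) (hk : k ∈ K) :
    Bas V (k * a * k⁻¹) (k * b * k⁻¹) (k * c * k⁻¹) :=
  ⟨cmem h hk B.ha, cmem h hk B.hb, cmem h hk B.hc, fun e => B.a1 (by simpa using e),
    fun e => B.b1 (by simpa using e), fun e => B.ba (cinj e), fun e => B.c1 (by simpa using e),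
    fun e => B.ca (cinj e), fun e => B.cb (cinj e), fun e => B.cab (cinj (by rw [e, cmul]))⟩

/-- the four-group spanned by the first two vectors -/
def Bas.U (h : Hol V K) (B : Bas V a b c) : Subgroup G :=
  H18.four a b (h.sq a B.ha) (h.sq b B.hb) (comm h B.ha B.hb)

theorem Bas.U_le (h : Hol V K) (B : Bas V a b c) : B.U h ≤ V := H18.four_le B.ha B.hb

theorem Bas.card_U (h : Hol V K) (B : Bas V a b c) : Nat.card (B.U h) = 4 :=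
  H18.card_four _ _ _ B.a1 B.b1 B.ba.symm

theorem Bas.mem_U (h : Hol V K) (B : Bas V a b c) {v : G} :
    v ∈ B.U h ↔ v = 1 ∨ v = a ∨ v = b ∨ v = a * b := Iff.rfl

theorem Bas.span (h : Hol V K) (B : Bas V a b c) {v : G} (hv : v ∈ V) :
    v ∈ B.U h ∨ ∃ u ∈ B.U h, v = u * c := by
  have h1 := card_mul_relIndex (B.U_le h)
  rw [B.card_U h, h.cardV] at h1
  have h2 : ((B.U h).subgroupOf V).index = 2 := by
    have : (B.U h).relIndex V = 2 := by omega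
    exact this
  have hc : (⟨c, B.hc⟩ : V) ∉ (B.U h).subgroupOf V := by
    rw [mem_subgroupOf, B.mem_U h]
    rintro (e | e | e | e)
    exacts [B.c1 e, B.ca e, B.cb e, B.cab e]
  by_cases h3 : (⟨v, hv⟩ : V) ∈ (B.U h).subgroupOf V
  · exact Or.inl h3
  · have h4 := (mul_mem_iff_of_index_two h2 (a := ⟨v, hv⟩) (b := ⟨c, B.hc⟩)).2
      (iff_of_false h3 hc)
    exact Or.inr ⟨v * c, h4, by rw [mul_assoc, h.sq c B.hc, mul_one]⟩

theorem Bas.fix_U (h : Hol V K) (B : Bas V a b c) (h1 : k * a * k⁻¹ = a) (h2 : k * b * k⁻¹ = b)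
    {u : G} (hu : u ∈ B.U h) : k * u * k⁻¹ = u := by
  rcases (B.mem_U h).1 hu with e | e | e | e <;> rw [e]
  · simp
  · exact h1
  · exact h2
  · rw [cmul, h1, h2]

theorem Bas.mem_of_fix (h : Hol V K) (B : Bas V a b c) (hk : k ∈ K) (h1 : k * a * k⁻¹ = a)
    (h2 : k * b * k⁻¹ = b) (h3 : k * c * k⁻¹ = c) : k ∈ V := by
  refine h.cent k hk fun v hv => mul_inv_eq_iff_eq_mul.1 ?_
  rcases B.span h hv with hu | ⟨u, hu, rfl⟩
  · exact B.fix_U h h1 h2 hu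
  · rw [cmul, B.fix_U h h1 h2 hu, h3]

/-- elements acting equally on a basis differ by an element of `V` -/
theorem Bas.same (h : Hol V K) (B : Bas V a b c) (ht : t ∈ K) (hr : r ∈ K)
    (h1 : r * a * r⁻¹ = t * a * t⁻¹) (h2 : r * b * r⁻¹ = t * b * t⁻¹)
    (h3 : r * c * r⁻¹ = t * c * t⁻¹) : ∃ v ∈ V, r = t * v := by
  have key : ∀ y : G, r * y * r⁻¹ = t * y * t⁻¹ → t⁻¹ * r * y * (t⁻¹ * r)⁻¹ = y := fun y e => by
    calc t⁻¹ * r * y * (t⁻¹ * r)⁻¹ = t⁻¹ * (r * y * r⁻¹) * t := by group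
      _ = y := by rw [e]; group
  exact ⟨t⁻¹ * r, B.mem_of_fix h (mul_mem (inv_mem ht) hr) (key a h1) (key b h2) (key c h3),
    by group⟩

variable [Finite G]

theorem exists_third (h : Hol V K) (ha : a ∈ V) (hb : b ∈ V) (a1 : a ≠ 1) (b1 : b ≠ 1)
    (ba : b ≠ a) : ∃ c, Bas V a b c := by
  have h1 := H18.card_four (h.sq a ha) (h.sq b hb) (comm h ha hb) a1 b1 ba.symm
  have h2 : ¬ V ≤ H18.four a b (h.sq a ha) (h.sq b hb) (comm h ha hb) := fun e => by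
    have := card_le_of_le e
    rw [h1, h.cardV] at this
    omega
  obtain ⟨c, hc, h3⟩ := SetLike.not_le_iff_exists.1 h2
  rw [H18.mem_four] at h3
  push Not at h3
  exact ⟨c, ha, hb, hc, a1, b1, ba, h3.1, h3.2.1, h3.2.2.1, h3.2.2.2⟩

theorem exists_bas (h : Hol V K) (ha : a ∈ V) (a1 : a ≠ 1) : ∃ b c, Bas V a b c := by
  obtain ⟨b, hb, b1, ba⟩ := H18.exists_ne_one_ne (T := V) (by rw [h.cardV]; omega) a
  exact ⟨b, exists_third h ha hb a1 b1 ba⟩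

theorem orb3_sub (h : Hol V K) (B : Bas V a b c) {H : Subgroup G} (hH : H ≤ K ⊓ 𝒞[a] ⊓ 𝒞[b]) :
    {y | ∃ k ∈ H, k * c * k⁻¹ = y} ⊆ (V : Set G) \ (B.U h) := by
  rintro _ ⟨k, hk, rfl⟩
  obtain ⟨⟨h1, h2⟩, h3⟩ := hH hk
  have h4 : k * a * k⁻¹ = a := mul_inv_eq_iff_eq_mul.2 (mem_cent1.1 h2)
  have h5 : k * b * k⁻¹ = b := mul_inv_eq_iff_eq_mul.2 (mem_cent1.1 h3)
  have B' := B.conj h h1
  rw [h4, h5] at B'
  refine ⟨B'.hc, ?_⟩
  rintro (e | e | e | e)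
  exacts [B'.c1 e, B'.ca e, B'.cb e, B'.cab e]

theorem ncard_diff_U (h : Hol V K) (B : Bas V a b c) : ((V : Set G) \ (B.U h)).ncard = 4 := by
  rw [Set.ncard_sdiff (B.U_le h)]
  have h1 : (V : Set G).ncard = 8 := h.cardV
  have h2 : (B.U h : Set G).ncard = 4 := B.card_U h
  rw [h1, h2]

theorem Bas.orbits (h : Hol V K) (B : Bas V a b c) :
    {y | ∃ k ∈ K, k * a * k⁻¹ = y} = (V : Set G) \ {1} ∧
      {y | ∃ k ∈ K ⊓ 𝒞[a], k * b * k⁻¹ = y} = (V : Set G) \ {1, a} ∧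
      {y | ∃ k ∈ K ⊓ 𝒞[a] ⊓ 𝒞[b], k * c * k⁻¹ = y} = (V : Set G) \ (B.U h) := by
  have hV : (V : Set G).ncard = 8 := h.cardV
  have s1 : {y | ∃ k ∈ K, k * a * k⁻¹ = y} ⊆ (V : Set G) \ {1} := by
    rintro _ ⟨k, hk, rfl⟩
    exact ⟨(B.conj h hk).ha, (B.conj h hk).a1⟩
  have s2 : {y | ∃ k ∈ K ⊓ 𝒞[a], k * b * k⁻¹ = y} ⊆ (V : Set G) \ {1, a} := by
    rintro _ ⟨k, ⟨h1, h2⟩, rfl⟩
    have B' := B.conj h h1
    rw [mul_inv_eq_iff_eq_mul.2 (mem_cent1.1 h2)] at B'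
    refine ⟨B'.hb, ?_⟩
    rintro (e | e)
    exacts [B'.b1 e, B'.ba e]
  have s3 := orb3_sub h B le_rfl
  have c1 : ((V : Set G) \ {1}).ncard = 7 := by
    rw [Set.ncard_sdiff (Set.singleton_subset_iff.2 V.one_mem), hV, Set.ncard_singleton]
  have c2 : ((V : Set G) \ {1, a}).ncard = 6 := by
    rw [Set.ncard_sdiff (Set.pair_subset V.one_mem B.ha), hV, Set.ncard_pair B.a1.symm]
  have c3 := ncard_diff_U h B
  have l1 := Set.ncard_le_ncard s1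
  have l2 := Set.ncard_le_ncard s2
  have l3 := Set.ncard_le_ncard s3
  have e1 := ncard_orb K a
  have e2 := ncard_orb (K ⊓ 𝒞[a]) b
  have e3 := ncard_orb (K ⊓ 𝒞[a] ⊓ 𝒞[b]) c
  have p1 := card_inf_mul_relIndex (𝒞[a]) K
  have p2 := card_inf_mul_relIndex (𝒞[b]) (K ⊓ 𝒞[a])
  have p3 := card_inf_mul_relIndex (𝒞[c]) (K ⊓ 𝒞[a] ⊓ 𝒞[b])
  have p4 : Nat.card ↥(𝒞[c] ⊓ (K ⊓ 𝒞[a] ⊓ 𝒞[b])) ≤ 8 := by
    rw [← h.cardV]
    refine card_le_of_le fun k ⟨h1, ⟨h2, h3⟩, h4⟩ => B.mem_of_fix h h2 ?_ ?_ ?_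
    exacts [mul_inv_eq_iff_eq_mul.2 (mem_cent1.1 h3), mul_inv_eq_iff_eq_mul.2 (mem_cent1.1 h4),
      mul_inv_eq_iff_eq_mul.2 (mem_cent1.1 h1)]
  rw [inf_comm] at p1 p2
  rw [h.cardK, ← p2, ← p3, ← e1, ← e2, ← e3] at p1
  rw [c1] at l1
  rw [c2] at l2
  rw [c3] at l3
  generalize Nat.card ↥(𝒞[c] ⊓ (K ⊓ 𝒞[a] ⊓ 𝒞[b])) = n at p1 p4
  have key : ∀ n x y z : ℕ, n ≤ 8 → x ≤ 4 → y ≤ 6 → z ≤ 7 → n * x * y * z = 1344 →
      x = 4 ∧ y = 6 ∧ z = 7 := by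
    intro n x y z h1 h2 h3 h4 h5
    interval_cases x <;> interval_cases y <;> interval_cases z <;> omega
  obtain ⟨q3, q2, q1⟩ := key _ _ _ _ p4 l3 l2 l1 p1
  exact ⟨Set.eq_of_subset_of_ncard_le s1 (by rw [c1, q1]),
    Set.eq_of_subset_of_ncard_le s2 (by rw [c2, q2]),
    Set.eq_of_subset_of_ncard_le s3 (by rw [c3, q3])⟩

/-- `K` is transitive on the ordered bases -/
theorem Bas.trans (h : Hol V K) (B : Bas V a b c) (B' : Bas V a' b' c') :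
    ∃ k ∈ K, k * a * k⁻¹ = a' ∧ k * b * k⁻¹ = b' ∧ k * c * k⁻¹ = c' := by
  obtain ⟨k1, h1, e1⟩ : a' ∈ {y | ∃ k ∈ K, k * a * k⁻¹ = y} := by
    rw [(B.orbits h).1]
    exact ⟨B'.ha, B'.a1⟩
  have B1 := B.conj h h1
  rw [e1] at B1
  obtain ⟨k2, ⟨h2, h2'⟩, e2⟩ : b' ∈ {y | ∃ k ∈ K ⊓ 𝒞[a'], k * (k1 * b * k1⁻¹) * k⁻¹ = y} := by
    rw [(B1.orbits h).2.1]
    refine ⟨B'.hb, ?_⟩
    rintro (e | e)
    exacts [B'.b1 e, B'.ba e]
  have f2 : k2 * a' * k2⁻¹ = a' := mul_inv_eq_iff_eq_mul.2 (mem_cent1.1 h2')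
  have B2 := B1.conj h h2
  rw [e2, f2] at B2
  obtain ⟨k3, ⟨⟨h3, h3'⟩, h3''⟩, e3⟩ : c' ∈ {y | ∃ k ∈ K ⊓ 𝒞[a'] ⊓ 𝒞[b'],
      k * (k2 * (k1 * c * k1⁻¹) * k2⁻¹) * k⁻¹ = y} := by
    rw [(B2.orbits h).2.2]
    refine ⟨B'.hc, ?_⟩
    rintro (e | e | e | e)
    exacts [B'.c1 e, B'.ca e, B'.cb e, B'.cab e]
  have f3 : k3 * a' * k3⁻¹ = a' := mul_inv_eq_iff_eq_mul.2 (mem_cent1.1 h3')
  have g3 : k3 * b' * k3⁻¹ = b' := mul_inv_eq_iff_eq_mul.2 (mem_cent1.1 h3'')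
  refine ⟨k3 * k2 * k1, mul_mem (mul_mem h3 h2) h1, ?_, ?_, ?_⟩
  · rw [← f3, ← f2, ← e1]; group
  · rw [← g3, ← e2]; group
  · rw [← e3]; group

/-- `t` acts on `V` as the transvection `w ↦ z w` fixing `z` and `v`. -/
structure Tv (V K : Subgroup G) (t z v w : G) : Prop where
  bas : Bas V z v w
  mem : t ∈ K
  sq : t * t = 1
  hz : t * z * t⁻¹ = z
  hv : t * v * t⁻¹ = v
  hw : t * w * t⁻¹ = z * w

theorem exists_tv (h : Hol V K) (ht : t ∈ K) (hV : t ∉ V) (sq : t * t = 1) :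
    ∃ z v w, Tv V K t z v w := by
  have ti : t⁻¹ = t := inv_eq_of_mul_eq_one_right sq
  have fx : ∀ y ∈ V, t * (t * y * t⁻¹ * y) * t⁻¹ = t * y * t⁻¹ * y := fun y hy => by
    rw [cmul, comm h (cmem h ht hy) hy]
    congr 1
    calc t * (t * y * t⁻¹) * t⁻¹ = (t * t) * y * (t * t)⁻¹ := by group
      _ = y := by rw [sq]; group
  have cw : ∀ y ∈ V, t * y * t⁻¹ = t * y * t⁻¹ * y * y := fun y hy => by
    rw [mul_assoc _ y y, h.sq y hy, mul_one]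
  obtain ⟨w, hw, h1⟩ : ∃ w ∈ V, ¬ Commute t w := by
    by_contra hc
    push Not at hc
    exact hV (h.cent t ht hc)
  have h2 : t * w * t⁻¹ ≠ w := fun e => h1 (mul_inv_eq_iff_eq_mul.1 e)
  have hz : t * w * t⁻¹ * w ∈ V := mul_mem (cmem h ht hw) hw
  have z1 : t * w * t⁻¹ * w ≠ 1 := fun e => h2 (by rw [cw w hw, e, one_mul])
  have fz := fx w hw
  have e0 := cw w hw
  generalize t * w * t⁻¹ * w = z at hz z1 fz e0
  have fin : ∀ v ∈ V, v ≠ 1 → v ≠ z → t * v * t⁻¹ = v → ∃ z v w, Tv V K t z v w :=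
    fun v hv v1 vz fv => ⟨z, v, w, ⟨hz, hv, hw, z1, v1, vz, fun e => h2 (by rw [e]; simp),
      fun e => h2 (by rw [e, fz]), fun e => h2 (by rw [e, fv]),
      fun e => h2 (by rw [e, cmul, fz, fv])⟩, ht, sq, fz, fv, e0⟩
  obtain ⟨b, B⟩ := exists_third h hz hw z1 (fun e => h2 (by rw [e]; simp))
    fun e => h2 (by rw [e, fz])
  by_cases c1 : t * b * t⁻¹ * b = 1
  · exact fin b B.hc B.c1 B.ca (by rw [cw b B.hc, c1, one_mul])
  by_cases c2 : t * b * t⁻¹ * b = z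
  · refine fin (b * w) (mul_mem B.hc hw) (fun e => B.cb ?_) (fun e => B.cab ?_) ?_
    · rw [eq_inv_of_mul_eq_one_left e, inv_eq h hw]
    · rw [← e, mul_assoc, h.sq w hw, mul_one]
    · rw [cmul, cw b B.hc, c2, e0, comm h hz B.hc, mul_assoc, ← mul_assoc z, h.sq z hz, one_mul]
  · exact fin _ (mul_mem (cmem h ht B.hc) B.hc) c1 c2 (fx b B.hc)

/-- a conjugate of `t` realises any transvection -/
theorem Tv.move (h : Hol V K) {z v w : G} (T : Tv V K t z v w) (B : Bas V a b c) :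
    ∃ k ∈ K, Tv V K (k * t * k⁻¹) a b c := by
  obtain ⟨k, hk, e1, e2, e3⟩ := T.bas.trans h B
  have key : ∀ y : G, k * t * k⁻¹ * (k * y * k⁻¹) * (k * t * k⁻¹)⁻¹ = k * (t * y * t⁻¹) * k⁻¹ :=
    fun y => by group
  refine ⟨k, hk, B, mul_mem (mul_mem hk T.mem) (inv_mem hk), ?_, ?_, ?_, ?_⟩
  · rw [← cmul, T.sq]; simp
  · rw [← e1, key, T.hz]
  · rw [← e2, key, T.hv]
  · rw [← e3, key, T.hw, cmul, e1]

omit [Finite G] in
theorem Tv.act (h : Hol V K) {z v w y : G} (T : Tv V K t z v w) (hy : y ∈ V) :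
    (t * y * t⁻¹ = y ∧ (y = 1 ∨ y = z ∨ y = v ∨ y = z * v)) ∨ t * y * t⁻¹ = z * y := by
  rcases T.bas.span h hy with hu | ⟨u, hu, rfl⟩
  · exact Or.inl ⟨T.bas.fix_U h T.hz T.hv hu, hu⟩
  · right
    rw [cmul, T.bas.fix_U h T.hz T.hv hu, T.hw, ← mul_assoc, ← mul_assoc,
      comm h (T.bas.U_le h hu) T.bas.ha]

omit [Finite G] in
theorem Tv.fix (h : Hol V K) {z v w y : G} (T : Tv V K t z v w) (hy : y ∈ V)
    (e : t * y * t⁻¹ = y) : y = 1 ∨ y = z ∨ y = v ∨ y = z * v := by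
  rcases T.act h hy with h1 | h1
  · exact h1.2
  · rw [e] at h1
    exact absurd (by simpa using h1) T.bas.a1

end Cfsg.Agent.H31.HV
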