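import Cfsg.Agent.S4213
import Mathlib.GroupTheory.IsSubnormal
import Mathlib.GroupTheory.SchurZassenhaus

/-! Solutions of `x ^ n = 1` in a coset of a normal subgroup; Zemlin's reduction of the Frobenius
conjecture to simple groups. -/

set_option autoImplicit false

namespace Cfsg.Agent.H31

open Subgroup

universe u

variable {G : Type*} [Group G] [Finite G]

/-- The number of solutions of `x ^ n = 1`. -/
noncomputable abbrev sn (G : Type*) [Group G] (n : ℕ) : ℕ := Nat.card {x : G // x ^ n = 1}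

theorem sn_pos (n : ℕ) : 0 < sn G n := Nat.card_pos_iff.2 ⟨⟨⟨1, one_pow _⟩⟩, inferInstance⟩

theorem gcd_le_sn (n : ℕ) : n.gcd (Nat.card G) ≤ sn G n :=
  Nat.le_of_dvd (sn_pos n) (H81.gcd_dvd_card_pow_eq_one n)

theorem card_root_zpowers {w c : G} (k : ℕ) (hc : ∃ τ ∈ zpowers w, τ ^ k = c) :
    Nat.card {τ : G // τ ∈ zpowers w ∧ τ ^ k = c} = (orderOf w).gcd k := by
  obtain ⟨σ, hσ, rfl⟩ := hc
  letI : CommGroup (zpowers w) := IsCyclic.commGroup
  rw [← Nat.card_zpowers, ← IsCyclic.card_powMonoidHom_ker]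
  have hc : ∀ {τ : G}, τ ∈ zpowers w → Commute σ τ := fun h =>
    congrArg Subtype.val (mul_comm (⟨σ, hσ⟩ : zpowers w) ⟨_, h⟩)
  exact Nat.card_congr ⟨fun τ => ⟨⟨σ⁻¹ * τ, mul_mem (inv_mem hσ) τ.2.1⟩, Subtype.ext (by
      change (σ⁻¹ * τ) ^ k = 1
      rw [(hc τ.2.1).inv_left.mul_pow, τ.2.2, inv_pow, inv_mul_cancel])⟩,
    fun τ => ⟨σ * τ.1, mul_mem hσ τ.1.2, by
      rw [(hc τ.1.2).mul_pow, show (τ.1 : G) ^ k = 1 from congrArg Subtype.val τ.2, mul_one]⟩,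
    fun τ => Subtype.ext (by simp), fun τ => Subtype.ext (Subtype.ext (by simp))⟩

section coset

variable (N : Subgroup G) [N.Normal]

/-- The number of solutions of `x ^ n = 1` in a coset. -/
noncomputable abbrev cn (n : ℕ) (z : G ⧸ N) : ℕ :=
  Nat.card {x : {x : G // x ^ n = 1} // (x.1 : G ⧸ N) = z}

theorem cn_pow_le {n k : ℕ} (h0 : n ≠ 0) (hk : k.Coprime n) (z : G ⧸ N) : cn N n z ≤ cn N n (z ^ k) := by
  refine Nat.card_le_card_of_injective (fun x => ⟨⟨x.1.1 ^ k, by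
    rw [← pow_mul, mul_comm, pow_mul, x.1.2, one_pow]⟩, by rw [QuotientGroup.mk_pow, x.2]⟩)
    fun x y e => Subtype.ext (Subtype.ext ?_)
  have e1 : x.1.1 ^ k = y.1.1 ^ k := congrArg (fun t => t.1.1) e
  obtain ⟨m, -, hm⟩ : ∃ m < n, k * m ≡ 1 [MOD n] := Nat.exists_mul_mod_eq_of_coprime 1 hk h0
  rw [← pow_one x.1.1, ← pow_one y.1.1, ← pow_eq_pow_of_modEq hm x.1.2, ← pow_eq_pow_of_modEq hm y.1.2,
    pow_mul, pow_mul, e1]

theorem cn_pow {n k : ℕ} (h0 : n ≠ 0) (hk : k.Coprime n) {z : G ⧸ N} (hz : z ^ n = 1) :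
    cn N n (z ^ k) = cn N n z := by
  obtain ⟨m, -, hm⟩ : ∃ m < n, k * m ≡ 1 [MOD n] := Nat.exists_mul_mod_eq_of_coprime 1 hk h0
  refine le_antisymm ?_ (cn_pow_le N h0 hk z)
  have := cn_pow_le N h0 (Nat.coprime_of_mul_modEq_one k (mul_comm k m ▸ hm)) (z ^ k)
  rwa [← pow_mul, pow_eq_pow_of_modEq hm hz, pow_one] at this

theorem gcd_dvd_cn (r s : ℕ) {z w : G ⧸ N} (hw : w ∈ zpowers z) :
    r.gcd (orderOf w * Nat.card N) ∣
      Nat.card {x : {x : G // x ^ (r * s) = 1} // (x.1 : G ⧸ N) ∈ zpowers w ∧ (x.1 : G ⧸ N) ^ r = z ^ r} := by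
  have := H81.gcd_dvd_card_pow_mem (G := (zpowers w).comap (QuotientGroup.mk' N)) r
    (fun y => (y : G) ^ s = 1 ∧ ((y : G) : G ⧸ N) = z ^ r) (fun x y h hx => by
      obtain ⟨c, rfl⟩ := isConj_iff.1 h
      refine ⟨by rw [coe_mul, coe_mul, coe_inv, conj_pow, hx.1]; group, ?_⟩
      obtain ⟨i, hi⟩ := zpowers_le.2 hw c.2
      rw [coe_mul, coe_mul, coe_inv, QuotientGroup.mk_mul, QuotientGroup.mk_mul, QuotientGroup.mk_inv,
        hx.2, show ((c : G) : G ⧸ N) = z ^ i from hi.symm]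
      group)
  rw [H1.card_comap_mk', Nat.card_zpowers] at this
  convert this using 1
  exact Nat.card_congr ⟨fun x => ⟨⟨x.1.1, x.2.1⟩, by
      rw [coe_pow, ← pow_mul]; exact ⟨x.1.2, x.2.2⟩⟩,
    fun x => ⟨⟨x.1.1, by have := x.2.1; rwa [coe_pow, ← pow_mul] at this⟩, x.1.2, x.2.2⟩,
    fun _ => rfl, fun _ => rfl⟩

theorem pow_dvd_cn {p a b s : ℕ} (hp : p.Prime) (hs : ¬ p ∣ s) (hb : p ^ b ∣ Nat.card N) {z : G ⧸ N}
    (hz : p ^ b * orderOf z ∣ p ^ a * s) : p ^ b ∣ cn N (p ^ a * s) z := by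
  have co : (p ^ a).Coprime s := ((Nat.Prime.coprime_iff_not_dvd hp).2 hs).pow_left a
  have hz1 : z ^ (p ^ a * s) = 1 := orderOf_dvd_iff_pow_eq_one.1 ((Dvd.intro_left _ rfl).trans hz)
  obtain ⟨j, m, hm, e⟩ := Nat.exists_eq_pow_mul_and_not_dvd (orderOf_pos z).ne' p hp.ne_one
  have hj : p ^ b * p ^ j ∣ p ^ a := by
    rw [e, ← mul_assoc, ← pow_add] at hz
    rw [← pow_add]
    exact (((Nat.Prime.coprime_iff_not_dvd hp).2 hs).pow_left _).dvd_of_dvd_mul_right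
      ((Dvd.intro _ rfl).trans hz)
  have cm : ∀ i, (p ^ i).Coprime m := fun i => ((Nat.Prime.coprime_iff_not_dvd hp).2 hm).pow_left i
  have hg : ∀ i ≤ j, (p ^ i * m).gcd (p ^ a) = p ^ i := fun i hi => by
    rw [(cm a).symm.gcd_mul_right_cancel]
    exact Nat.gcd_eq_left ((pow_dvd_pow p hi).trans ((Dvd.intro_left _ rfl).trans hj))
  have hd : ∀ i ≤ j, p ^ b * p ^ i ∣ (p ^ a).gcd (p ^ i * m * Nat.card N) := fun i hi =>
    Nat.dvd_gcd ((mul_dvd_mul_left _ (pow_dvd_pow p hi)).trans hj)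
      (mul_comm (p ^ b) _ ▸ mul_dvd_mul (Dvd.intro _ rfl) hb)
  have key : ∀ τ : G ⧸ N, τ ∈ zpowers z → τ ^ p ^ a = z ^ p ^ a → (j = 0 ∨ τ ∉ zpowers (z ^ p)) →
      cn N (p ^ a * s) τ = cn N (p ^ a * s) z := by
    intro τ h1 h2 h3
    obtain ⟨i, rfl⟩ := (mem_powers_iff_mem_zpowers.2 h1 : τ ∈ Submonoid.powers z)
    beta_reduce at h2 h3 ⊢
    rcases h3 with rfl | h3
    · rw [pow_zero, one_mul] at e
      rw [← pow_mul, pow_eq_pow_iff_modEq, e] at h2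
      have h4 := Nat.ModEq.cancel_right_of_coprime (cm a).symm (h2.trans (by rw [one_mul]))
      rw [pow_eq_pow_of_modEq h4 (e ▸ pow_orderOf_eq_one z), pow_one]
    obtain ⟨k, k1, k2⟩ := Nat.chineseRemainder co i 1
    have hi : ¬ p ∣ i := fun ⟨c, hc⟩ => h3 (by rw [hc, pow_mul]; exact npow_mem_zpowers _ _)
    rw [← cn_pow N (k := k) (mul_ne_zero (pow_pos hp.pos a).ne' fun e : s = 0 => hs (e ▸ dvd_zero p))
      (Nat.Coprime.mul_right ?_ ?_) hz1]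
    · congr 1
      rw [← pow_mul, pow_eq_pow_iff_modEq, e] at h2
      rw [pow_eq_pow_iff_modEq, e, ← Nat.modEq_and_modEq_iff_modEq_mul (cm j)]
      refine ⟨k1.symm.of_dvd ((Dvd.intro_left _ rfl).trans hj), ?_⟩
      have h4 := Nat.ModEq.cancel_right_of_coprime (cm a).symm
        ((h2.of_dvd (Dvd.intro_left _ rfl)).trans (by rw [one_mul]))
      refine h4.trans (k2.symm.of_dvd ((cm a).symm.dvd_of_dvd_mul_left ?_))
      exact (Dvd.intro_left _ e.symm).trans ((Dvd.intro_left _ rfl).trans hz)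
    · rw [Nat.Coprime, k1.gcd_eq]
      exact ((Nat.Prime.coprime_iff_not_dvd hp).2 hi).symm.pow_right a
    · rw [Nat.Coprime, k2.gcd_eq, Nat.gcd_one_left]
  have c0 := card_root_zpowers (p ^ a) ⟨z, mem_zpowers z, rfl⟩
  have d0 := gcd_dvd_cn N (p ^ a) s (mem_zpowers z)
  rw [e, hg j le_rfl] at c0
  rw [e] at d0
  rcases j with _ | j
  · rw [H81.card_preimage_eq_mul (fun τ : G ⧸ N => τ ∈ zpowers z ∧ τ ^ p ^ a = z ^ p ^ a)
      (fun x : {x : G // x ^ (p ^ a * s) = 1} => (x.1 : G ⧸ N)) _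
      fun τ h => key τ h.1 h.2 (Or.inl rfl), c0] at d0
    simpa using (hd 0 le_rfl).trans d0
  have o1 : orderOf (z ^ p) = p ^ j * m := by
    rw [orderOf_pow_of_dvd hp.ne_zero (e ▸ (dvd_pow_self p j.succ_ne_zero).mul_right m), e, pow_succ',
      mul_assoc, Nat.mul_div_cancel_left _ hp.pos]
  have l1 : zpowers (z ^ p) ≤ zpowers z := zpowers_le.2 (npow_mem_zpowers z p)
  have c1 := card_root_zpowers (w := z ^ p) (c := z ^ p ^ a) (p ^ a) (by
    obtain ⟨k, k1, k2⟩ := Nat.chineseRemainder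
      ((Nat.Prime.coprime_iff_not_dvd hp).2 hs) 0 1
    obtain ⟨c, rfl⟩ := Nat.modEq_zero_iff_dvd.1 k1
    refine ⟨z ^ (p * c), by rw [pow_mul]; exact npow_mem_zpowers _ _, ?_⟩
    rw [← pow_mul]
    exact pow_eq_pow_of_modEq (by simpa [mul_comm] using k2.mul_left' (p ^ a)) hz1)
  have d1 := gcd_dvd_cn N (p ^ a) s (l1 (mem_zpowers _))
  rw [o1, hg j j.le_succ] at c1
  rw [o1] at d1
  have s1 := H81.card_add_card_not (fun τ : G ⧸ N => τ ∈ zpowers z ∧ τ ^ p ^ a = z ^ p ^ a)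
    fun τ => τ ∈ zpowers (z ^ p)
  have s2 := H81.card_add_card_not (fun x : {x : G // x ^ (p ^ a * s) = 1} =>
    (x.1 : G ⧸ N) ∈ zpowers z ∧ (x.1 : G ⧸ N) ^ p ^ a = z ^ p ^ a) fun x => (x.1 : G ⧸ N) ∈ zpowers (z ^ p)
  have i1 : ∀ τ : G ⧸ N, (τ ∈ zpowers z ∧ τ ^ p ^ a = z ^ p ^ a) ∧ τ ∈ zpowers (z ^ p) ↔
      τ ∈ zpowers (z ^ p) ∧ τ ^ p ^ a = z ^ p ^ a := fun τ => ⟨fun h => ⟨h.2, h.1.2⟩, fun h => ⟨⟨l1 h.1, h.2⟩, h.1⟩⟩
  simp only [i1] at s1 s2
  rw [H81.card_preimage_eq_mul (fun τ : G ⧸ N => (τ ∈ zpowers z ∧ τ ^ p ^ a = z ^ p ^ a) ∧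
      τ ∉ zpowers (z ^ p)) (fun x : {x : G // x ^ (p ^ a * s) = 1} => (x.1 : G ⧸ N)) _
      fun τ h => key τ h.1.1 h.1.2 (Or.inr h.2)] at s2
  rw [c0, c1] at s1
  have h5 := (Nat.dvd_add_right ((hd j j.le_succ).trans d1)).1
    (s2 ▸ ((mul_dvd_mul_left _ (pow_dvd_pow p j.le_succ)).trans (hd _ le_rfl)).trans d0)
  rw [Nat.eq_sub_of_add_eq' s1, pow_succ, ← Nat.mul_sub_one, mul_comm, mul_assoc] at h5
  exact (Nat.Coprime.pow_left b ((Nat.coprime_self_sub_right hp.pos).2 (by simp))).dvd_of_dvd_mul_left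
    (Nat.dvd_of_mul_dvd_mul_left (pow_pos hp.pos j) h5)

theorem le_cn {d u v : ℕ} (hd : 0 < d) (hu : 0 < u) (hv : Nat.card N = d * v) (huv : u.Coprime v)
    {z : G ⧸ N} (hz : z ^ u = 1) : d ≤ cn N (d * u) z := by
  have hz' := orderOf_dvd_of_pow_eq_one hz
  refine Nat.le_of_dvd ?_ ((Nat.dvd_iff_prime_pow_dvd_dvd _ _).2 fun p b hp hb => ?_)
  · obtain ⟨g, rfl⟩ := QuotientGroup.mk'_surjective N z
    obtain ⟨x, -, h1, h2⟩ := H82.exists_pi_lift (QuotientGroup.mk' N) (· ∣ u) g fun r _ h => h.trans hz'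
    refine Nat.card_pos_iff.2 ⟨⟨⟨x, ?_⟩, h1⟩, inferInstance⟩
    have h3 : x ^ u ∈ N := (QuotientGroup.eq_one_iff _).1 (by
      rw [QuotientGroup.mk_pow]; exact (congrArg (· ^ u) h1).trans hz)
    have h4 := N.orderOf_dvd_natCard h3
    rw [mul_comm, pow_mul, ← orderOf_dvd_iff_pow_eq_one]
    refine Nat.Coprime.dvd_of_dvd_mul_right (Nat.coprime_of_dvd fun r hr h5 h6 => ?_) (hv ▸ h4)
    exact hr.ne_one (Nat.eq_one_of_dvd_coprimes huv (h2 r hr (h5.trans (orderOf_pow_dvd u))) h6)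
  · obtain ⟨a, s, hs, e⟩ := Nat.exists_eq_pow_mul_and_not_dvd (mul_pos hd hu).ne' p hp.ne_one
    rw [e]
    exact pow_dvd_cn N hp hs (hb.trans (Dvd.intro _ hv.symm)) (e ▸ mul_dvd_mul hb hz')

theorem sn_split {n : ℕ} (hn : n ∣ Nat.card G) (h : sn G n = n) :
    ∃ d u v, n = d * u ∧ Nat.card N = d * v ∧ u.Coprime v ∧ u ∣ Nat.card (G ⧸ N) ∧ sn N d = d ∧
      sn (G ⧸ N) u = u := by
  classical
  have hn0 : 0 < n := Nat.pos_of_dvd_of_pos hn Nat.card_pos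
  obtain ⟨d, u, v, rfl, hv, huv⟩ : ∃ d u v, n = d * u ∧ Nat.card N = d * v ∧ u.Coprime v :=
    ⟨_, n / n.gcd (Nat.card N), Nat.card N / n.gcd (Nat.card N),
      (Nat.mul_div_cancel' (Nat.gcd_dvd_left _ _)).symm,
      (Nat.mul_div_cancel' (Nat.gcd_dvd_right _ _)).symm,
      Nat.coprime_div_gcd_div_gcd (Nat.gcd_pos_of_pos_left _ hn0)⟩
  have hd0 : 0 < d := Nat.pos_of_mul_pos_right hn0
  have hu0 : 0 < u := Nat.pos_of_mul_pos_left hn0
  have hu : u ∣ Nat.card (G ⧸ N) := by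
    rw [card_eq_card_quotient_mul_card_subgroup N, hv, mul_comm, mul_comm d v, ← mul_assoc] at hn
    exact huv.dvd_of_dvd_mul_right (Nat.dvd_of_mul_dvd_mul_right hd0 hn)
  have h1 := Nat.le_of_dvd (sn_pos u) (H81.dvd_card_pow_eq_one hu)
  have h2 := Nat.le_of_dvd (sn_pos d) (H81.dvd_card_pow_eq_one (G := N) ⟨v, hv⟩)
  have h3 : sn N d ≤ cn N (d * u) 1 := Nat.card_le_card_of_injective
    (fun x => ⟨⟨x.1, by rw [pow_mul, ← coe_pow, x.2, coe_one, one_pow]⟩,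
      (QuotientGroup.eq_one_iff _).2 x.1.2⟩) fun x y e => Subtype.ext (Subtype.ext (congrArg (·.1.1) e))
  have := Fintype.ofFinite G
  have := Fintype.ofFinite (G ⧸ N)
  let T := Finset.univ.filter fun z : G ⧸ N => z ^ u = 1
  have hT : T.card = sn (G ⧸ N) u := by rw [sn, Nat.card_eq_fintype_card, Fintype.card_subtype]
  have h4 : ∑ z ∈ T, cn N (d * u) z ≤ d * u := by
    refine (Finset.sum_le_univ_sum_of_nonneg fun _ => Nat.zero_le _).trans (le_of_eq_of_le ?_ h.le)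
    rw [← Nat.card_sigma]
    exact Nat.card_congr (Equiv.sigmaFiberEquiv _)
  rw [← Finset.add_sum_erase T _ (a := 1) (by simp [T])] at h4
  have h5 := Finset.card_nsmul_le_sum (T.erase 1) (cn N (d * u)) d fun z hz =>
    le_cn N hd0 hu0 hv huv (Finset.mem_filter.1 (Finset.mem_of_mem_erase hz)).2
  rw [Finset.card_erase_of_mem (by simp [T]), hT, smul_eq_mul] at h5
  obtain ⟨s, hs⟩ := Nat.exists_eq_add_of_le h1
  obtain ⟨u, rfl⟩ := Nat.exists_eq_add_of_lt hu0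
  rw [hs, show 0 + u + 1 + s - 1 = u + s by omega] at h5
  refine ⟨d, _, v, rfl, hv, huv, hu, by nlinarith, ?_⟩
  rw [hs, show s = 0 by nlinarith, add_zero]

end coset

/-- The Frobenius conjecture for a simple group. -/
def NoFr (G : Type*) [Group G] : Prop := ∀ n, n ∣ Nat.card G → sn G n = n → n = 1 ∨ n = Nat.card G

omit [Finite G] in
theorem NoFr.of_equiv {H : Type*} [Group H] (e : G ≃* H) (h : NoFr H) : NoFr G := fun n h1 h2 => by
  rw [Nat.card_congr e.toEquiv] at h1 ⊢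
  refine h n h1 (Eq.trans (Nat.card_congr (e.toEquiv.subtypeEquiv fun x => ?_)).symm h2)
  rw [MulEquiv.toEquiv_eq_coe, MulEquiv.coe_toEquiv, ← map_pow, map_eq_one_iff _ e.injective]

/-- The Frobenius conjecture holds for the composition factors. -/
def SF (G : Type u) [Group G] : Prop := ∀ H : Subgroup G, H.IsSubnormal →
  ∀ (S : Type u) [Group S] (f : H →* S), Function.Surjective f → IsSimpleGroup S → NoFr S

theorem SF.sub {G : Type u} [Group G] (h : SF G) (N : Subgroup G) [hN : N.Normal] : SF N :=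
  fun H hH S _ f hf hS => h (H.map N.subtype) (hH.trans' hN.isSubnormal) S
    (f.comp (H.equivMapOfInjective _ N.subtype_injective).symm.toMonoidHom)
    (hf.comp (MulEquiv.surjective _)) hS

theorem SF.quot {G : Type u} [Group G] (h : SF G) (N : Subgroup G) [N.Normal] : SF (G ⧸ N) :=
  fun H hH S _ f hf hS => h (H.comap (QuotientGroup.mk' N)) (hH.comap _) S
    (f.comp ((QuotientGroup.mk' N).subgroupComap H))
    (hf.comp (MonoidHom.subgroupComap_surjective_of_surjective _ _ (QuotientGroup.mk'_surjective N))) hS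

theorem zemlin {G : Type u} [Group G] [Finite G] (h : SF G) {n : ℕ} (hn : n ∣ Nat.card G)
    (hc : sn G n = n) : ∃ L : Subgroup G, Nat.card L = n := by
  refine H2.card_induction (P := fun G _ _ => SF G → ∀ n : ℕ, n ∣ Nat.card G → sn G n = n →
    ∃ L : Subgroup G, Nat.card L = n) G ?_ h n hn hc
  clear h hn hc n
  intro G _ _ ih h n hn hc
  by_cases hs : ∃ N : Subgroup G, N.Normal ∧ N ≠ ⊥ ∧ N ≠ ⊤
  swap
  · rcases subsingleton_or_nontrivial G with hG | hG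
    · rw [Nat.card_of_subsingleton (1 : G), Nat.dvd_one] at hn
      exact ⟨⊥, by rw [hn, card_bot]⟩
    rcases h ⊤ IsSubnormal.top G (Subgroup.subtype ⊤) (fun g => ⟨⟨g, trivial⟩, rfl⟩) ⟨fun N hN => by
      by_contra h1
      exact hs ⟨N, hN, not_or.1 h1⟩⟩ n hn hc with rfl | rfl
    exacts [⟨⊥, card_bot⟩, ⟨⊤, card_top⟩]
  obtain ⟨N, hN, h0, h1⟩ := hs
  have key : ∀ (K : Subgroup G) [K.Normal], K ≠ ⊥ → ∀ u, u ∣ Nat.card (G ⧸ K) → sn (G ⧸ K) u = u →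
      ∃ H : Subgroup G, K ≤ H ∧ Nat.card H = u * Nat.card K := fun K _ hK u hu hs => by
    obtain ⟨H, hH⟩ := ih _ (H2.card_quotient_lt K hK) (h.quot K) u hu hs
    exact ⟨_, QuotientGroup.le_comap_mk' K H, by rw [H1.card_comap_mk', hH]⟩
  obtain ⟨d, u, v, rfl, hv, huv, hu, h2, h3⟩ := sn_split N hn hc
  by_cases hd : d = 1
  · subst hd
    rw [one_mul] at hv ⊢
    obtain ⟨H, h4, h5⟩ := key N h0 u hu h3
    have h6 : Nat.card (N.subgroupOf H) = Nat.card N := Nat.card_congr (subgroupOfEquivOfLe h4).toEquiv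
    have h7 : (N.subgroupOf H).index = u := by
      have := (N.subgroupOf H).index_mul_card
      rw [h5, h6] at this
      exact Nat.eq_of_mul_eq_mul_right Nat.card_pos this
    obtain ⟨C, hC⟩ := exists_right_complement'_of_coprime (N := N.subgroupOf H)
      (by rw [h6, h7, hv]; exact huv.symm)
    exact ⟨C.map H.subtype, by rw [card_map_of_injective H.subtype_injective, ← h7, hC.symm.index_eq_card]⟩
  obtain ⟨K, hK⟩ := ih N (H2.card_lt_of_ne_top h1) (h.sub N) d ⟨v, hv⟩ h2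
  obtain ⟨K', -, hK'⟩ := S4213.of_subgroup h2 K hK
  have e1 : Nat.card (K'.map N.subtype) = d := by
    rw [card_map_of_injective N.subtype_injective, ← h2]
    exact Nat.card_congr (Equiv.setCongr hK')
  have n1 : (K'.map N.subtype).Normal := ⟨by
    rintro _ ⟨x, hx, rfl⟩ g
    refine ⟨⟨_, hN.conj_mem x x.2 g⟩, ?_, rfl⟩
    have hx' : x ∈ (K' : Set N) := hx
    change _ ∈ (K' : Set N)
    rw [hK'] at hx' ⊢
    refine Subtype.ext ?_
    change (g * x * g⁻¹) ^ d = 1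
    rw [conj_pow, ← coe_pow, show x ^ d = 1 from hx']
    simp⟩
  obtain ⟨d', u', v', e2, e3, h4, h5, h6, h7⟩ := sn_split (K'.map N.subtype) hn hc
  have hd0 : 0 < d' := Nat.pos_of_mul_pos_right (e3 ▸ Nat.card_pos)
  rw [e1] at e3
  rw [e3, mul_assoc] at e2
  have e4 := Nat.eq_of_mul_eq_mul_left hd0 e2
  have e5 : v' = 1 := Nat.eq_one_of_dvd_coprimes h4 ⟨u, e4.symm⟩ dvd_rfl
  obtain ⟨H, -, h8⟩ := key _ (fun e => hd (by rw [← e1, e, card_bot])) u' h5 h7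
  exact ⟨H, by rw [h8, e1, ← e4, e5, one_mul, mul_comm]⟩

end Cfsg.Agent.H31
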