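import Cfsg.Agent.H31.FC1
import Cfsg.Agent.H66.PSL2Cent
import Cfsg.Agent.H14.MClasses
import Cfsg.Agent.H56.Mod.Alt
import Cfsg.Agent.H56.Mod.L33
import Cfsg.Agent.H56.Mod.U33

/-! The Frobenius conjecture for `PSL(2, q)` and four small simple groups. -/

set_option autoImplicit false

namespace Cfsg.Agent.H31

open Subgroup Matrix

open scoped MatrixGroups

variable {G : Type*} [Group G] [Finite G]

theorem sn_eq (n : ℕ) : sn G n = {x : G | x ^ n = 1}.ncard := rfl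

theorem sn_mono {m n : ℕ} (h : m ∣ n) : sn G m ≤ sn G n :=
  Set.ncard_le_ncard (s := {x : G | x ^ m = 1}) (t := {x : G | x ^ n = 1}) fun x hx => by
    obtain ⟨c, rfl⟩ := h
    change x ^ _ = 1
    rw [pow_mul, show x ^ m = 1 from hx, one_pow]

theorem sn_add {u v : ℕ} (h : u.Coprime v) : sn G u + sn G v ≤ sn G (u * v) + 1 := by
  rw [sn_eq, sn_eq, sn_eq, ← Set.ncard_union_add_ncard_inter]
  refine add_le_add (Set.ncard_le_ncard ?_) ((Set.ncard_le_one_iff_subset_singleton).2 ⟨1, ?_⟩)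
  · rintro x (hx | hx) <;> change x ^ _ = 1
    · rw [pow_mul, show x ^ u = 1 from hx, one_pow]
    · rw [mul_comm, pow_mul, show x ^ v = 1 from hx, one_pow]
  · exact fun x hx => orderOf_eq_one_iff.1 (Nat.eq_one_of_dvd_coprimes h
      (orderOf_dvd_of_pow_eq_one hx.1) (orderOf_dvd_of_pow_eq_one hx.2))

theorem ti_count {A B : Set G} {N : Subgroup G} (hA : ∀ a ∈ A, ∀ g, g * a * g⁻¹ ∈ A → g ∈ N)
    (hB : ∀ a ∈ A, ∀ g, g * a * g⁻¹ ∈ B) : N.index * A.ncard ≤ B.ncard := by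
  rw [index, ← Nat.card_coe_set_eq, ← Nat.card_coe_set_eq, ← Nat.card_prod]
  refine Nat.card_le_card_of_injective (fun x => ⟨_, hB _ x.2.2 x.1.out⟩) fun x y e => ?_
  have e1 : x.1.out * x.2 * x.1.out⁻¹ = y.1.out * y.2 * y.1.out⁻¹ := congrArg Subtype.val e
  have e2 : y.1 = x.1 := by
    rw [← y.1.out_eq, ← x.1.out_eq]
    refine QuotientGroup.eq.2 (hA _ x.2.2 _ ?_)
    rw [show y.1.out⁻¹ * x.1.out * x.2 * (y.1.out⁻¹ * x.1.out)⁻¹ =
      y.1.out⁻¹ * (x.1.out * x.2 * x.1.out⁻¹) * y.1.out by group, e1]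
    simp [mul_assoc]
  rw [e2] at e1
  exact Prod.ext e2.symm (Subtype.ext (by simpa using e1))

theorem sn_sub (K : Subgroup G) (m : ℕ) : sn K m = {x : G | x ∈ K ∧ x ^ m = 1}.ncard :=
  Nat.card_congr ⟨fun x => ⟨x.1, x.1.2, congrArg Subtype.val x.2⟩,
    fun x => ⟨⟨x.1, x.2.1⟩, Subtype.ext x.2.2⟩, fun _ => rfl, fun _ => rfl⟩

theorem ti_sn {K N : Subgroup G} (h : ∀ a ∈ K, a ≠ 1 → ∀ g, g * a * g⁻¹ ∈ K → g ∈ N) {m k : ℕ}
    (hk : k ≤ sn K m) : N.index * k + 1 ≤ sn G m + N.index := by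
  have h1 := ti_count (A := {x : G | x ∈ K ∧ x ^ m = 1} \ {1}) (B := {x : G | x ^ m = 1} \ {1})
    (fun a ha g hg => h a ha.1.1 ha.2 g hg.1.1) fun a ha g => ⟨by
      change _ ^ m = 1
      rw [conj_pow, ha.1.2]; group, fun e => ha.2 (conj_eq_one_iff.1 e)⟩
  rw [Set.ncard_sdiff_singleton_of_mem (by simp), Set.ncard_sdiff_singleton_of_mem (by simp), ← sn_sub,
    ← sn_eq] at h1
  have h2 := sn_pos (G := G) m
  have h3 := Nat.mul_le_mul_left N.index hk
  obtain ⟨s, hs⟩ := Nat.exists_eq_add_of_lt (sn_pos (G := K) m)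
  rw [hs] at h1 h3
  simp only [zero_add, Nat.add_sub_cancel, mul_add, mul_one] at h1 h3
  omega

theorem ti_gcd {K N : Subgroup G} (h : ∀ a ∈ K, a ≠ 1 → ∀ g, g * a * g⁻¹ ∈ K → g ∈ N) (n : ℕ) :
    N.index * n.gcd (Nat.card K) + 1 ≤ sn G (n.gcd (Nat.card K)) + N.index :=
  ti_sn h ((Nat.gcd_eq_left (Nat.gcd_dvd_right _ _)).symm.trans_le (gcd_le_sn _))

theorem exists_order {n p : ℕ} (hp : p.Prime) (h : sn G n = n) (hn : p * n ∣ Nat.card G) :
    ∃ g : G, ∀ a, p ^ a ∣ n → p ^ (a + 1) ∣ orderOf g := by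
  have h0 : 0 < n := h ▸ sn_pos n
  have h1 := Nat.le_of_dvd (sn_pos _) (H81.dvd_card_pow_eq_one hn)
  obtain ⟨g, h2, h3⟩ : ∃ g : G, g ^ (p * n) = 1 ∧ g ^ n ≠ 1 := by
    by_contra h2
    push Not at h2
    have h3 : sn G (p * n) ≤ sn G n :=
      Set.ncard_le_ncard (s := {x : G | x ^ (p * n) = 1}) (t := {x : G | x ^ n = 1}) h2
    have := hp.two_le
    nlinarith
  obtain ⟨c, s, hs, rfl⟩ := Nat.exists_eq_pow_mul_and_not_dvd h0.ne' p hp.ne_one
  obtain ⟨j, m, hm, e⟩ := Nat.exists_eq_pow_mul_and_not_dvd (orderOf_pos g).ne' p hp.ne_one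
  have co : ∀ {s} i, ¬ p ∣ s → (p ^ i).Coprime s := fun i hs =>
    ((Nat.Prime.coprime_iff_not_dvd hp).2 hs).pow_left i
  refine ⟨g, fun a ha => e ▸ (pow_dvd_pow p (by_contra fun h4 => h3 ?_)).mul_right m⟩
  have h5 := (Nat.pow_dvd_pow_iff_le_right hp.one_lt).1 ((co a hs).dvd_of_dvd_mul_right ha)
  rw [← orderOf_dvd_iff_pow_eq_one, e] at h2 ⊢
  refine mul_dvd_mul (pow_dvd_pow p (by omega)) ((co (c + 1) hm).symm.dvd_of_dvd_mul_left ?_)
  rw [pow_succ', mul_assoc]
  exact (Dvd.intro_left _ rfl).trans h2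

theorem eq_one_of_le_sn [IsSimpleGroup G] {H : Subgroup G} (hH : H ≠ ⊤) {n : ℕ} (h : sn G n = n)
    (h1 : n ≤ sn H n) : n = 1 := by
  have h2 : {x : G | x ∈ H ∧ x ^ n = 1} = {x : G | x ^ n = 1} :=
    Set.eq_of_subset_of_ncard_le (fun _ hx => hx.2) (by rwa [← sn_sub, ← sn_eq, h])
  have h3 := (H.normalCore_normal.eq_bot_or_eq_top).resolve_right fun e =>
    hH (eq_top_iff.2 (e ▸ H.normalCore_le))
  rw [← h, sn_eq, Set.ncard_eq_one]
  refine ⟨1, Set.eq_singleton_iff_unique_mem.2 ⟨one_pow n, fun x hx => mem_bot.1 (h3 ▸ fun g => ?_)⟩⟩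
  exact (h2.ge (show (g * x * g⁻¹) ^ n = 1 by rw [conj_pow, show x ^ n = 1 from hx]; group)).1

theorem eq_one_of_dvd [IsSimpleGroup G] {H : Subgroup G} (hH : H ≠ ⊤) {n : ℕ} (h : sn G n = n)
    (h1 : n ∣ Nat.card H) : n = 1 :=
  eq_one_of_le_sn hH h (Nat.le_of_dvd (sn_pos n) (H81.dvd_card_pow_eq_one h1))

theorem nofr_of_classList {α : Type*} {n k M : ℕ} {E : H14.Enc α n k M} {K : Subgroup (Equiv.Perm α)}
    {cl : List H14.Cls} (h : E.ClassList K cl) {N fuel : ℕ} (hN : Nat.card K = N)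
    (h1 : ∀ c ∈ cl, H14.ordN k M n c.X fuel ≠ 0)
    (h0 : N < 90 * 90) (h2 : ∀ t < 90, 1 < t → N % t = 0 → ∀ j ∈ [t, N / t],
      ((cl.filter fun d => Nat.beq (j % H14.ordN k M n d.X fuel) 0).map fun d => N / d.c).sum ≠ j) :
    NoFr K := by
  have := E.finite
  intro j h3 h4
  rw [sn_sub, h.ncard_eq (p := fun g => g ^ j = 1) (fun g _ x _ hx => by
    rw [conj_pow, hx]; group) (fun d => Nat.beq (j % H14.ordN k M n d.X fuel) 0) (fun c hc x _ hx => by
    rw [H14.beq_iff, ← orderOf_dvd_iff_pow_eq_one, E.orderOf_eq_ordN x (hx ▸ h1 c hc), hx,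
      Nat.dvd_iff_mod_eq_zero]), hN] at h4
  by_contra h5
  have h6 : 0 < Nat.card K := Nat.card_pos
  rw [hN] at h3 h5 h6
  obtain ⟨t, ht⟩ := h3
  have h7 : 0 < j := Nat.pos_of_mul_pos_right (ht ▸ h6)
  have h8 : 0 < t := Nat.pos_of_mul_pos_left (ht ▸ h6)
  by_cases hj : j < 90
  · exact h2 j hj (by omega) (Nat.mod_eq_zero_of_dvd ⟨t, ht⟩) j (by simp) h4
  · refine h2 t (by nlinarith) (by_contra fun h9 => h5 (Or.inr ?_))
      (Nat.mod_eq_zero_of_dvd ⟨j, mul_comm j t ▸ ht⟩) j (by simp [ht, Nat.mul_div_cancel _ h8]) h4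
    rw [ht, show t = 1 by omega, mul_one]

theorem nofr_A7 : NoFr (alternatingGroup (Fin 7)) :=
  nofr_of_classList H56.Alt.a7_classes H56.Alt.a7_card (fuel := 12) (by decide +kernel) (by decide)
    (by decide +kernel)

theorem nofr_M11 : NoFr Spor.M11 :=
  nofr_of_classList H14.m11_classes H14.card_M11 (fuel := 12) (by decide +kernel) (by decide)
    (by decide +kernel)

theorem nofr_L33 : NoFr H56.L33.K :=
  nofr_of_classList H56.L33.classes H56.L33.card (fuel := 14) (by decide +kernel) (by decide)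
    (by decide +kernel)

theorem nofr_U33 : NoFr H56.U33.K :=
  nofr_of_classList H56.U33.classes H56.U33.card (fuel := 14) (by decide +kernel) (by decide)
    (by decide +kernel)

theorem dvd_gcd_three {n x a b : ℕ} (h : n ∣ x * (a * b)) : n ∣ n.gcd x * (n.gcd a * n.gcd b) :=
  (Nat.gcd_eq_left h).symm.dvd.trans ((gcd_mul_dvd_mul_gcd n x _).trans
    (mul_dvd_mul_left _ (gcd_mul_dvd_mul_gcd n a b)))

section L2

variable {F : Type*} [Field F] [Fintype F]

theorem psl_torus {x : SL(2, F)} (h : H66.tr2 x ^ 2 ≠ 4) : ∃ K N : Subgroup PSL(2, F),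
    (∀ a ∈ K, a ≠ 1 → ∀ g, g * a * g⁻¹ ∈ K → g ∈ N) ∧
      Nat.gcd 2 (Fintype.card F - 1) * Nat.card K = Nat.card (centralizer {x}) ∧
      2 * N.index * Nat.card (centralizer {x}) = Nat.card SL(2, F) := by
  have hk : (H66.toPSL F).ker ≤ centralizer {x} := fun g hg => center_le_centralizer _
    ((H66.sl2_mem_center_iff g).2 ((H66.toPSL_eq_one_iff g).1 hg))
  refine ⟨(centralizer {x}).map (H66.toPSL F), (normalizer (centralizer {x} : Set SL(2, F))).map
    (H66.toPSL F), ?_, ?_, ?_⟩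
  · rintro _ ⟨a, ha, rfl⟩ a1 g hg
    obtain ⟨g, rfl⟩ := H66.toPSL_surjective g
    refine mem_map_of_mem _ ?_
    rw [← map_inv, ← map_mul, ← map_mul, ← mem_comap, comap_map_eq_self hk] at hg
    have h1 : H66.NonSc a.1 := by
      rwa [Ne, H66.toPSL_eq_one_iff, ← H66.not_nonSc_iff, not_not] at a1
    have h2 : H66.NonSc (g * a * g⁻¹).1 := by
      rw [← not_not (a := H66.NonSc _), H66.not_nonSc_iff, ← H66.toPSL_eq_one_iff, map_mul, map_mul,
        map_inv, conj_eq_one_iff]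
      exact a1
    have h3 := H66.centralizer_eq_of_mem (H66.nonSc_of_tr2 h) h2 hg
    rw [H66.centralizer_singleton_conj, H66.centralizer_eq_of_mem (H66.nonSc_of_tr2 h) h1 ha] at h3
    exact mem_normalizer_iff.2 fun u => by
      conv_rhs => rw [← h3]
      simp
  · have h1 := ((centralizer {x}).map (H66.toPSL F)).card_mul_index
    have h2 := (centralizer ({x} : Set SL(2, F))).card_mul_index
    rw [index_map_eq _ H66.toPSL_surjective hk] at h1
    rw [H9.card_sl_two, ← H9.gcd_mul_card_psl_two, ← h1, ← mul_assoc] at h2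
    exact (Nat.eq_of_mul_eq_mul_right (Nat.pos_of_ne_zero index_ne_zero_of_finite) h2).symm
  · rw [index_map_eq _ H66.toPSL_surjective (hk.trans le_normalizer), mul_comm 2, mul_assoc,
      ← H66.card_normalizer_centralizer h, index_mul_card]

theorem sq_le_sn_psl (p : ℕ) [CharP F p] : Fintype.card F ^ 2 ≤ sn PSL(2, F) p := by
  classical
  obtain ⟨M, hM⟩ : ∃ M : F × F → SL(2, F), ∀ x, (x.2 = 0 ∧ (M x).1 = !![1, 0; x.1, 1]) ∨
      (x.2 ≠ 0 ∧ (M x).1 = !![1 + x.1, x.2; -x.1 ^ 2 / x.2, 1 - x.1]) :=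
    ⟨fun x => if h : x.2 = 0 then ⟨!![1, 0; x.1, 1], by simp [det_fin_two]⟩
      else ⟨!![1 + x.1, x.2; -x.1 ^ 2 / x.2, 1 - x.1], by simp [det_fin_two]; field_simp; ring⟩,
      fun x => by
        by_cases h : x.2 = 0
        · exact Or.inl ⟨h, congrArg Subtype.val (dif_pos h)⟩
        · exact Or.inr ⟨h, congrArg Subtype.val (dif_neg h)⟩⟩
  have tr : ∀ x, H66.tr2 (M x) = 2 := fun x => by
    rcases hM x with h | h <;> simp [H66.tr2, h.2] <;> ring
  rw [sq, ← Fintype.card_prod, ← Nat.card_eq_fintype_card]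
  refine Nat.card_le_card_of_injective (fun x => ⟨H66.toPSL F (M x), by
    rw [← map_pow, H66.pow_char_of_tr2_eq_two p (tr x), map_one]⟩) fun x y e => ?_
  have e1 : M x = M y := by
    refine ((H66.toPSL_eq_iff _ _).1 (congrArg Subtype.val e)).elim id fun e1 => ?_
    have e2 := tr x
    rw [e1, H66.tr2_neg, tr] at e2
    have e3 : (2 : F) = 0 := by
      have : (2 : F) ^ 2 = 0 := by linear_combination -e2
      exact pow_eq_zero_iff two_ne_zero |>.1 this
    exact H66.toPSL_injective e3 (congrArg Subtype.val e)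
  have e2 : (M x).1 = (M y).1 := congrArg Subtype.val e1
  rcases hM x with h | h <;> rcases hM y with h' | h' <;> rw [h.2, h'.2] at e2 <;>
    have e3 := congrFun₂ e2 0 0 <;> have e4 := congrFun₂ e2 0 1 <;> have e5 := congrFun₂ e2 1 0
  · exact Prod.ext e5 (h.1.trans h'.1.symm)
  · exact absurd e4.symm h'.1
  · exact absurd e4 h.1
  · exact Prod.ext (add_left_cancel (a := 1) e3) e4

theorem nofr_psl (hq : 4 ≤ Fintype.card F) : NoFr PSL(2, F) := by
  intro n hn h
  obtain ⟨p, hp⟩ := CharP.exists F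
  obtain ⟨f, pp, hf⟩ := FiniteField.card F p
  obtain ⟨x, -, x1, x2⟩ := H66.exists_split_regular hq
  obtain ⟨y, -, y2⟩ := H66.exists_nonsplit (F := F)
  obtain ⟨A, NA, a1, a2, a3⟩ := psl_torus x1
  obtain ⟨B, NB, b1, b2, b3⟩ := psl_torus (H66.tr2_sq_ne_of_not_split y2)
  have hG := H9.gcd_mul_card_psl_two (F := F)
  rw [(H66.centralizer_split x1 x2).2, Nat.card_eq_fintype_card (α := F)] at a2 a3
  rw [(H66.centralizer_nonsplit y2).2, Nat.card_eq_fintype_card (α := F)] at b2 b3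
  rw [H9.card_sl_two, H66.sq_sub_one_eq] at a3 b3
  rw [H66.sq_sub_one_eq] at hG
  have s1 := ti_gcd a1 n
  have s2 := ti_gcd b1 n
  have s3 := sq_le_sn_psl (F := F) p
  have hd : Nat.gcd 2 (Fintype.card F - 1) = 1 ∨ Nat.gcd 2 (Fintype.card F - 1) = 2 :=
    (Nat.dvd_prime Nat.prime_two).1 (Nat.gcd_dvd_left _ _)
  have hd1 : Nat.gcd 2 (Fintype.card F - 1) = 1 → Odd (Fintype.card F - 1) := fun h =>
    Nat.coprime_two_left.1 h
  have iA : 2 * NA.index = Fintype.card F * (Fintype.card F + 1) :=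
    Nat.eq_of_mul_eq_mul_right (show 0 < Fintype.card F - 1 by omega) (by rw [a3]; ring)
  have iB : 2 * NB.index = Fintype.card F * (Fintype.card F - 1) :=
    Nat.eq_of_mul_eq_mul_right (show 0 < Fintype.card F + 1 by omega) (by rw [b3]; ring)
  have pq : ∀ {c}, p ∣ c → c ∣ Fintype.card F - 1 ∨ c ∣ Fintype.card F + 1 → False := fun h1 h2 => by
    have h3 : p ∣ Fintype.card F := hf ▸ dvd_pow_self p f.ne_zero
    refine pp.ne_one (Nat.dvd_one.1 (h2.elim (fun h2 => ?_) fun h2 => ?_))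
    · simpa [Nat.sub_sub_self (show 1 ≤ Fintype.card F by omega)] using Nat.dvd_sub h3 (h1.trans h2)
    · exact (Nat.dvd_add_right h3).1 (h1.trans h2)
  have cq : ¬ p ∣ n → n.Coprime (Fintype.card F) := fun h =>
    hf ▸ ((Nat.Prime.coprime_iff_not_dvd pp).2 h).symm.pow_right _
  generalize Nat.gcd 2 (Fintype.card F - 1) = d at *
  generalize Fintype.card F = q at *
  generalize Nat.card A = a at *
  generalize Nat.card B = b at *
  have e : Nat.card PSL(2, F) = q * d * (a * b) := Nat.eq_of_mul_eq_mul_left (show 0 < d by omega)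
    (by rw [hG, ← a2, ← b2]; ring)
  have cab : a.Coprime b := by
    rcases hd with rfl | rfl
    · rw [show b = 2 + a by omega, Nat.coprime_add_self_right, Nat.coprime_two_right]
      exact (one_mul a ▸ a2) ▸ hd1 rfl
    · rw [show b = 1 + a by omega]; simp
  have h1 := dvd_gcd_three (e ▸ hn)
  have cαβ : (n.gcd a).Coprime (n.gcd b) :=
    Nat.Coprime.coprime_dvd_left (Nat.gcd_dvd_right _ _) (cab.coprime_dvd_right (Nat.gcd_dvd_right _ _))
  have dαβ := cαβ.mul_dvd_of_dvd_of_dvd (Nat.gcd_dvd_left _ _) (Nat.gcd_dvd_left _ _)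
  have s4 := sn_add (G := PSL(2, F)) cαβ
  have a0 : 0 < a := Nat.pos_of_mul_pos_left (a2 ▸ (show 0 < q - 1 by omega))
  have b0 : 0 < b := Nat.pos_of_mul_pos_left (b2 ▸ (show 0 < q + 1 by omega))
  have α0 := Nat.gcd_pos_of_pos_right n a0
  have β0 := Nat.gcd_pos_of_pos_right n b0
  have αa := Nat.gcd_le_right n a0
  have βb := Nat.gcd_le_right n b0
  have d0 : 0 < d := by omega
  have q0 : 0 < q := by omega
  by_cases hp : p ∣ n
  · have cp : p.Coprime (n.gcd a * n.gcd b) := (Nat.Prime.coprime_iff_not_dvd pp).2 fun h =>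
      (pp.dvd_mul.1 h).elim (fun h => pq h (Or.inl ((Nat.gcd_dvd_right _ _).trans ⟨d, by rw [← a2, mul_comm]⟩)))
        fun h => pq h (Or.inr ((Nat.gcd_dvd_right _ _).trans ⟨d, by rw [← b2, mul_comm]⟩))
    have s5 := (sn_add (G := PSL(2, F)) cp).trans
      (Nat.add_le_add_right (sn_mono (cp.mul_dvd_of_dvd_of_dvd hp dαβ)) 1)
    have h2 := Nat.le_of_dvd (by positivity) (h1.trans (mul_dvd_mul_right (Nat.gcd_dvd_right _ _) _))
    have h3 := Nat.le_of_dvd Nat.card_pos hn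
    rw [h] at s5
    generalize n.gcd a = α at *
    generalize n.gcd b = β at *
    have h4 : q * d * (α * b + β * a) ≤ 2 * n := by
      have e1 : q * d * (α * b + β * a) = 2 * NA.index * α + 2 * NB.index * β := by
        rw [iA, iB, ← a2, ← b2]; ring
      have e2 : 2 * NA.index + 2 * NB.index = 2 * q ^ 2 := by
        rw [iA, iB, ← mul_add, show q + 1 + (q - 1) = 2 * q by omega]; ring
      linarith only [e1, e2, s1, s2, s3, s4, s5]
    have h5 : α * b + β * a ≤ 2 * (α * β) := Nat.le_of_mul_le_mul_left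
      (h4.trans (by linarith only [h2])) (show 0 < q * d by positivity)
    have h6 : α = a := le_antisymm αa (Nat.le_of_mul_le_mul_left
      (by linarith only [h5, Nat.mul_le_mul_left α βb]) β0)
    have h7 : β = b := le_antisymm βb (Nat.le_of_mul_le_mul_left
      (by linarith only [h5, Nat.mul_le_mul_left β αa]) α0)
    rw [h6, h7] at h4
    exact Or.inr (by linarith only [h4, h3, e])
  · have h2 : n.gcd (q * d) ∣ d := by
      rw [(cq hp).symm.gcd_mul_left_cancel_right]; exact Nat.gcd_dvd_right _ _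
    have h3 := Nat.le_of_dvd (by positivity) (h1.trans (mul_dvd_mul_right h2 _))
    have s5 := sn_mono (G := PSL(2, F)) dαβ
    rw [h] at s5
    have h4 : n.gcd a = 1 ∧ n.gcd b = 1 := by
      generalize n.gcd a = α at *
      generalize n.gcd b = β at *
      have h5 : q * (d * b) * α + q * (d * a) * β + 2 ≤ 2 * (d * (α * β)) + q * (d * b) + q * (d * a) := by
        rw [a2, b2, ← iA, ← iB]; linarith only [s1, s2, s4, s5, h3]
      have h6 : q * (d * a) ≤ q * (d * a) * β := Nat.le_mul_of_pos_right _ β0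
      have h7 : q * (d * b) ≤ q * (d * b) * α := Nat.le_mul_of_pos_right _ α0
      have h8 : 4 * (d * β) * α ≤ q * (d * b) * α := by gcongr
      have h9 : 4 * (d * α) * β ≤ q * (d * a) * β := by gcongr
      constructor <;> by_contra h10
      · linarith only [h5, h6, h8, Nat.mul_le_mul_left (q * (d * b)) (show 2 ≤ α by omega)]
      · linarith only [h5, h7, h9, Nat.mul_le_mul_left (q * (d * a)) (show 2 ≤ β by omega)]
    rw [h4.1, h4.2, mul_one, mul_one] at h1 h3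
    have h5 : 0 < n := h ▸ sn_pos n
    refine Or.inl (by_contra fun h6 => ?_)
    obtain rfl : n = 2 := by omega
    have h7 := Nat.coprime_two_left.1 h4.1
    have h8 := Nat.coprime_two_left.1 h4.2
    rw [Nat.odd_iff] at h7 h8
    obtain rfl : d = 2 := by omega
    omega

end L2

end Cfsg.Agent.H31
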