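import Cfsg.Agent.H31.FC2
import Cfsg.Agent.H13.SzPart
import Cfsg.Agent.H13.SzSylow
import Cfsg.Agent.H70.Syl
import Cfsg.Agent.H36.Prime

/-! The Frobenius conjecture for `Sz(q)`; Sylow subgroups of prime index. -/

set_option autoImplicit false

namespace Cfsg.Agent.H31

open Subgroup Cfsg.Agent.H92 Cfsg.Agent.H70

variable {G : Type*} [Group G] [Finite G]

theorem nofr_sz {F : Type*} [Field F] [H13.Tits F] [Finite F] (M : H13.Model G F) {m : ℕ}
    (P : H13.Par F m) : NoFr G := by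
  intro n hn h
  haveI := M.isSimpleGroup P.hy
  obtain ⟨B, _, _, TB⟩ := M.exists_torus P (Or.inl rfl)
  obtain ⟨C, _, _, TC⟩ := M.exists_torus P (Or.inr rfl)
  have s1 := ti_gcd (fun a ha a1 g hg => M.isCC_H.mem_normalizer ha a1 hg) n
  have s2 := ti_gcd (fun a ha a1 g hg => TB.isCC.mem_normalizer ha a1 hg) n
  have s3 := ti_gcd (fun a ha a1 g hg => TC.isCC.mem_normalizer ha a1 hg) n
  have s4 := ti_sn (K := M.U) (N := M.B) (fun a ha a1 g hg => M.mem_B_of_conj_mem_B ha a1 (M.U_le_B hg))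
    (m := 4) (k := Nat.card M.U) (Nat.card_le_card_of_injective (fun x => ⟨x, by
      obtain ⟨_, a, b, rfl⟩ := x
      exact Subtype.ext (M.u_pow_four a b)⟩) fun x y e => congrArg Subtype.val e)
  have i1 := (normalizer (M.H : Set G)).index_mul_card
  have i2 := (normalizer (B : Set G)).index_mul_card
  have i3 := (normalizer (C : Set G)).index_mul_card
  have e := M.card_G' P
  have e1 := H13.np_mul_nm m
  have e2 := H13.np_eq m
  have e3 := H13.nm_add m
  have e4 := P.eight_le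
  have e5 := H13.five_le_nm P.hm
  have c1 := H13.Model.coprime_H_np P
  have c2 := H13.Model.coprime_H_nm P
  have c3 := H13.coprime_np_nm m
  have o1 := H13.Model.odd_q_sub_one P
  have o2 := H13.odd_np m
  have o3 := H13.odd_nm m
  have c4 : ¬ 4 ∣ n → n.gcd ((2 ^ (2 * m + 1)) ^ 2) ∣ 2 := fun h4 => by
    obtain ⟨j, -, hj⟩ := (Nat.dvd_prime_pow Nat.prime_two).1
      (pow_mul 2 (2 * m + 1) 2 ▸ Nat.gcd_dvd_right n ((2 ^ (2 * m + 1)) ^ 2))
    rw [← pow_mul, hj]
    refine (pow_dvd_pow 2 (by_contra fun h5 => h4 ?_) : 2 ^ j ∣ 2 ^ 1)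
    exact ((pow_dvd_pow 2 (by omega) : 2 ^ 2 ∣ 2 ^ j).trans (hj ▸ Nat.gcd_dvd_left _ _))
  have hU : M.U ≠ ⊤ := fun e => M.B_ne_top (eq_top_iff.2 (e ▸ M.U_le_B))
  have hU2 : 2 ∣ Nat.card M.U := by rw [M.card_U, P.card, ← pow_mul]; exact dvd_pow_self 2 (by omega)
  rw [M.card_normalizer_H P.hy, P.card] at i1
  rw [TB.card_normalizer] at i2
  rw [TC.card_normalizer] at i3
  rw [M.card_H, P.card] at s1
  rw [TB.card] at s2
  rw [TC.card] at s3
  rw [M.index_B, M.card_U, P.card] at s4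
  rw [P.card] at e4
  rw [pow_succ 2 (m + 1)] at e2
  generalize 2 ^ (2 * m + 1) = q at *
  generalize 2 ^ (m + 1) = r at *
  obtain ⟨a, rfl⟩ : ∃ a, q = a + 1 := ⟨q - 1, by omega⟩
  rw [Nat.add_sub_cancel] at *
  generalize H13.np m = b at *
  generalize H13.nm m = c at *
  have h1 : n ∣ n.gcd ((a + 1) ^ 2) * (n.gcd a * (n.gcd b * n.gcd c)) :=
    (dvd_gcd_three (a := a) (b := b * c) (by rwa [e, mul_assoc, mul_assoc] at hn)).trans
      (mul_dvd_mul_left _ (mul_dvd_mul_left _ (gcd_mul_dvd_mul_gcd n b c)))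
  have g : ∀ {u v : ℕ}, u.Coprime v → (n.gcd u).Coprime (n.gcd v) := fun h =>
    Nat.Coprime.coprime_dvd_left (Nat.gcd_dvd_right _ _) (h.coprime_dvd_right (Nat.gcd_dvd_right _ _))
  have c5 := (g c1).mul_right (g c2)
  have d1 := c5.mul_dvd_of_dvd_of_dvd (Nat.gcd_dvd_left _ _)
    ((g c3).mul_dvd_of_dvd_of_dvd (Nat.gcd_dvd_left _ _) (Nat.gcd_dvd_left _ _))
  have s5 := sn_add (G := G) (g c3)
  have s6 := sn_add (G := G) c5
  have o4 : Odd (n.gcd a * (n.gcd b * n.gcd c)) := (o1.of_dvd_nat (Nat.gcd_dvd_right _ _)).mul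
    ((o2.of_dvd_nat (Nat.gcd_dvd_right _ _)).mul (o3.of_dvd_nat (Nat.gcd_dvd_right _ _)))
  have a0 : 0 < a := by omega
  have b0 : 0 < b := by omega
  have c0 : 0 < c := by omega
  have α0 := Nat.gcd_pos_of_pos_right n a0
  have β0 := Nat.gcd_pos_of_pos_right n b0
  have γ0 := Nat.gcd_pos_of_pos_right n c0
  have αa := Nat.gcd_le_right n a0
  have βb := Nat.gcd_le_right n b0
  have γc := Nat.gcd_le_right n c0
  have j1 : 2 * (normalizer (M.H : Set G)).index = (a + 1) ^ 2 * (b * c) :=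
    Nat.eq_of_mul_eq_mul_left a0 (by linarith only [i1, e])
  have j2 : 4 * (normalizer (B : Set G)).index = (a + 1) ^ 2 * (a * c) :=
    Nat.eq_of_mul_eq_mul_left b0 (by linarith only [i2, e])
  have j3 : 4 * (normalizer (C : Set G)).index = (a + 1) ^ 2 * (a * b) :=
    Nat.eq_of_mul_eq_mul_left c0 (by linarith only [i3, e])
  generalize (normalizer (M.H : Set G)).index = I at *
  generalize (normalizer (B : Set G)).index = J at *
  generalize (normalizer (C : Set G)).index = K at *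
  have u1 : n.gcd b * n.gcd c ≤ b * c := by gcongr
  have u2 : n.gcd a * n.gcd c ≤ a * c := by gcongr
  have u3 : n.gcd a * n.gcd b ≤ a * b := by gcongr
  by_cases h4 : 4 ∣ n
  · have c6 : Nat.Coprime 4 (n.gcd a * (n.gcd b * n.gcd c)) :=
      (Nat.coprime_two_left.2 o4).pow_left 2
    have s7 := (sn_add (G := G) c6).trans
      (Nat.add_le_add_right (sn_mono (c6.mul_dvd_of_dvd_of_dvd h4 d1)) 1)
    have h2 := Nat.le_of_dvd (by positivity) (h1.trans (mul_dvd_mul_right (Nat.gcd_dvd_right _ _) _))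
    have h3 := Nat.le_of_dvd Nat.card_pos hn
    rw [h] at s7
    generalize n.gcd a = α at *
    generalize n.gcd b = β at *
    generalize n.gcd c = γ at *
    have h5 : (a + 1) ^ 2 * (2 * (α * (b * c)) + β * (a * c) + γ * (a * b)) ≤ 4 * n := by
      have e6 : (a + 1) ^ 2 * (2 * (α * (b * c)) + β * (a * c) + γ * (a * b)) =
          2 * (2 * I) * α + 4 * J * β + 4 * K * γ := by rw [j1, j2, j3]; ring
      have e7 : 2 * (2 * I) + 4 * J + 4 * K = 4 * (a + 1) ^ 4 := by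
        rw [j1, j2, j3, e1]
        calc _ = (a + 1) ^ 2 * (2 * ((a + 1) ^ 2 + 1) + a * (b + c)) := by ring
          _ = _ := by rw [show b + c = 2 * a + 4 by omega]; ring
      linarith only [e6, e7, s1, s2, s3, s4, s5, s6, s7]
    have h6 : 2 * (α * (b * c)) + β * (a * c) + γ * (a * b) ≤ 4 * (α * (β * γ)) :=
      Nat.le_of_mul_le_mul_left (h5.trans (by linarith only [h2])) (by positivity)
    have v1 := Nat.mul_le_mul_left α u1
    have v2 := Nat.mul_le_mul_left β u2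
    have v3 := Nat.mul_le_mul_left γ u3
    have w1 : β * γ = b * c := le_antisymm u1 (Nat.le_of_mul_le_mul_left
      (by linarith only [h6, v2, v3]) α0)
    have w2 : α * γ = a * c := le_antisymm u2 (Nat.le_of_mul_le_mul_left
      (by linarith only [h6, v1, v3]) β0)
    have w3 : α = a := le_antisymm αa (Nat.le_of_mul_le_mul_right
      (w2.ge.trans (Nat.mul_le_mul_left α γc)) c0)
    rw [← w3] at w2
    have w4 : γ = c := Nat.eq_of_mul_eq_mul_left α0 w2
    rw [w4] at w1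
    rw [w3, w4, Nat.eq_of_mul_eq_mul_right c0 w1] at h5
    exact Or.inr (by linarith only [h5, h3, e])
  · have h2 := h1.trans (mul_dvd_mul_right (c4 h4) _)
    have h3 := Nat.le_of_dvd (by positivity) h2
    have s7 := sn_mono (G := G) d1
    rw [h] at s7
    have h5 : n.gcd a = 1 ∧ n.gcd b = 1 ∧ n.gcd c = 1 := by
      generalize n.gcd a = α at *
      generalize n.gcd b = β at *
      generalize n.gcd c = γ at *
      have q2 : 64 ≤ (a + 1) ^ 2 := Nat.pow_le_pow_left e4 2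
      have v1 : 64 * (β * γ) * α ≤ 2 * I * α := by rw [j1]; gcongr
      have v2 : 64 * (α * γ) * β ≤ 4 * J * β := by rw [j2]; gcongr
      have v3 : 64 * (α * β) * γ ≤ 4 * K * γ := by rw [j3]; gcongr
      have w1 : I ≤ I * α := Nat.le_mul_of_pos_right _ α0
      have w2 : J ≤ J * β := Nat.le_mul_of_pos_right _ β0
      have w3 : K ≤ K * γ := Nat.le_mul_of_pos_right _ γ0
      refine ⟨?_, ?_, ?_⟩ <;> by_contra h10
      · linarith only [s1, s2, s3, s5, s6, s7, h3, v1, w2, w3,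
          Nat.mul_le_mul_left I (show 2 ≤ α by omega)]
      · linarith only [s1, s2, s3, s5, s6, s7, h3, v2, w1, w3,
          Nat.mul_le_mul_left J (show 2 ≤ β by omega)]
      · linarith only [s1, s2, s3, s5, s6, s7, h3, v3, w1, w2,
          Nat.mul_le_mul_left K (show 2 ≤ γ by omega)]
    rw [h5.1, h5.2.1, h5.2.2] at h2
    exact Or.inl (eq_one_of_dvd hU h (h2.trans hU2))

theorem ti_abs [Group.IsSolvable G] {T : Subgroup G} (hT : IsPGroup 2 T) {r : ℕ} (hr : r.Prime)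
    (hi : T.index = r) (hO : ∀ N : Subgroup G, N.Normal → IsPGroup 2 N → N = ⊥) {g h : G} (hg : g ∈ T)
    (hh : h * g * h⁻¹ ∈ T) : h ∈ T ∨ g = 1 := by
  haveI : Fact (Nat.Prime 2) := ⟨Nat.prime_two⟩
  have hT1 : T ≠ ⊤ := fun e => hr.ne_one (by rw [← hi, e, index_top])
  haveI : Nontrivial G := not_subsingleton_iff_nontrivial.1 fun _ => hT1 (Subsingleton.elim _ _)
  obtain ⟨N, p, hp, hN, h0, -, h1, -⟩ := H2.exists_minimal_normal_of_solvable (G := G)
  haveI := Fact.mk hp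
  have hp2 : p ≠ 2 := fun e => h0 (hO N hN (e ▸ h1))
  have h2 : Disjoint N T := IsPGroup.disjoint_of_ne p 2 hp2 N T h1 hT
  have h3 : Nat.card N = r := by
    have := (IsPGroup.coprime_card_of_ne p 2 hp2 N T h1 hT).dvd_of_dvd_mul_right
      (T.index_mul_card ▸ card_subgroup_dvd_card N)
    exact ((Nat.dvd_prime hr).1 (hi ▸ this)).resolve_left fun e => h0 (card_eq_one.1 e)
  have h4 : N ⊔ T = ⊤ := by
    refine index_eq_one.1 (((Nat.dvd_prime hr).1 (hi ▸ index_dvd_of_le le_sup_right)).resolve_right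
      fun e => h0 (h2.eq_bot_of_le (le_sup_left.trans (relIndex_eq_one.1 (?_ : T.relIndex (N ⊔ T) = 1)))))
    exact Nat.eq_of_mul_eq_mul_right hr.pos (by
      rw [one_mul, ← e, relIndex_mul_index (le_sup_right : T ≤ N ⊔ T), e, hi])
  have dec : ∀ h : G, ∃ n ∈ N, ∃ t ∈ T, n * t = h := fun h => by
    have : h ∈ ((N ⊔ T : Subgroup G) : Set G) := h4 ▸ mem_top h
    rwa [normal_mul] at this
  have h5 : T ⊓ centralizer (N : Set G) = ⊥ := hO _ ⟨fun c hc h => by
    obtain ⟨n, hn, t, ht, rfl⟩ := dec h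
    have h6 := (inferInstance : (centralizer (N : Set G)).Normal).conj_mem c hc.2 t
    rw [show n * t * c * (n * t)⁻¹ = n * (t * c * t⁻¹) * n⁻¹ by group, h6 n hn, mul_inv_cancel_right]
    exact mem_inf.2 ⟨mul_mem (mul_mem ht hc.1) (inv_mem ht), h6⟩⟩ (hT.to_le inf_le_left)
  obtain ⟨n, hn, t, ht, rfl⟩ := dec h
  by_cases n1 : n = 1
  · exact Or.inl (by rwa [n1, one_mul])
  have h6 := mul_mem (mul_mem ht hg) (inv_mem ht)
  have h7 : n * (t * g * t⁻¹ * n⁻¹ * (t * g * t⁻¹)⁻¹) = 1 := disjoint_def.1 h2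
    (mul_mem hn (hN.conj_mem _ (inv_mem hn) _)) (by
      convert mul_mem hh (inv_mem h6) using 1; group)
  haveI := Fact.mk hr
  refine Or.inr (conj_eq_one_iff.1 (mem_bot.1 (h5 ▸ mem_inf.2 ⟨h6, ?_⟩)))
  rw [← H36.zpowers_eq_of_mem_prime h3 hn n1, H36.centralizer_zpowers, mem_centralizer_singleton_iff]
  calc _ = (n * (t * g * t⁻¹ * n⁻¹ * (t * g * t⁻¹)⁻¹)) * (t * g * t⁻¹ * n) := by rw [h7, one_mul]
    _ = _ := by group

/-- Two Sylow 2-subgroups of prime index in a solvable group meet in `O_2`. -/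
theorem ti_amb {T H : Subgroup G} (hs : Group.IsSolvable H) (hT : SylIn 2 T H) {r : ℕ} (hr : r.Prime)
    (hi : T.relIndex H = r) {g h : G} (hg : g ∈ T) (hH : h ∈ H) (hh : h * g * h⁻¹ ∈ T) :
    h ∈ T ∨ g ∈ pCoreOf 2 H := by
  haveI : Fact (Nat.Prime 2) := ⟨Nat.prime_two⟩
  have hk : (QuotientGroup.mk' (pCore 2 H)).ker ≤ T.subgroupOf H := by
    rw [QuotientGroup.ker_mk', ← subgroupOf_pCoreOf]
    exact comap_mono (pCoreOf_le_sylIn hT)
  have := ti_abs (T := (T.subgroupOf H).map (QuotientGroup.mk' (pCore 2 H)))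
    ((H70.isPGroup_subgroupOf hT.pgroup).map _) hr
    ((index_map_eq _ (QuotientGroup.mk'_surjective _) hk).trans hi) (fun N hN h1 => by
      rw [eq_bot_iff, ← map_comap_eq_self_of_surjective (QuotientGroup.mk'_surjective _) N,
        map_le_iff_le_comap, MonoidHom.comap_bot, QuotientGroup.ker_mk']
      exact le_pCore inferInstance (h1.comap_of_ker_isPGroup _ (by
        rw [QuotientGroup.ker_mk']; exact pCore_isPGroup)))
    (g := QuotientGroup.mk' _ ⟨g, hT.le hg⟩) (h := QuotientGroup.mk' _ ⟨h, hH⟩) (mem_map_of_mem _ hg)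
    (by rw [← map_inv, ← map_mul, ← map_mul]; exact mem_map_of_mem _ hh)
  rw [← mem_comap, comap_map_eq_self hk] at this
  exact this.imp id fun e => ⟨_, (QuotientGroup.eq_one_iff _).1 e, rfl⟩

theorem ncard_modEq_fix {p : ℕ} (hp : p.Prime) {u : G} (hu : orderOf u = p) {S : Set G}
    (hS : ∀ s ∈ S, ∀ g ∈ zpowers u, g * s * g⁻¹ ∈ S) :
    S.ncard ≡ (S ∩ centralizer ({u} : Set G)).ncard [MOD p] := by
  haveI := Fact.mk hp
  letI : MulAction (zpowers u) S :=
    { smul := fun g s => ⟨g * s * (g : G)⁻¹, hS s s.2 g g.2⟩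
      one_smul := fun s => Subtype.ext (by change (1 : G) * s * 1⁻¹ = s; group)
      mul_smul := fun g h s => Subtype.ext (by
        change (g : G) * h * s * ((g : G) * h)⁻¹ = g * (h * s * (h : G)⁻¹) * (g : G)⁻¹; group) }
  have := (IsPGroup.of_card (n := 1) (G := zpowers u) (by
    rw [Nat.card_zpowers, hu, pow_one])).card_modEq_card_fixedPoints S
  refine this.trans (Eq.mp (congrArg _ ?_) (Nat.ModEq.refl _))
  refine Nat.card_congr ⟨fun s => ⟨s.1, s.1.2, mem_centralizer_singleton_iff.2 (mul_inv_eq_iff_eq_mul.1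
    (congrArg Subtype.val (s.2 ⟨u, mem_zpowers u⟩))).symm⟩, fun s => ⟨⟨s.1, s.2.1⟩, fun g =>
      Subtype.ext (mul_inv_eq_iff_eq_mul.2 ?_)⟩, fun _ => rfl, fun _ => rfl⟩
  exact (H36.centralizer_zpowers u).ge s.2.2 g g.2

theorem four_mul_ncard_union {T U W : Subgroup G} (hU : U < T) (hW : W < T) :
    4 * ((U : Set G) ∪ W).ncard ≤ 3 * Nat.card T := by
  have h1 := Set.ncard_union_add_ncard_inter (U : Set G) W
  have h2 := H36.relIndex_mul_card hU.le
  have h3 := H36.relIndex_mul_card hW.le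
  have h4 := H36.relIndex_mul_card (inf_le_left.trans hU.le : U ⊓ W ≤ T)
  have h5 := relIndex_inf_le (H := U) (K := W) (L := T)
  have h6 : U.relIndex T ≠ 1 := fun e => hU.not_ge (relIndex_eq_one.1 e)
  have h7 : W.relIndex T ≠ 1 := fun e => hW.not_ge (relIndex_eq_one.1 e)
  have h8 : U.relIndex T ≠ 0 := index_ne_zero_of_finite
  have h9 : W.relIndex T ≠ 0 := index_ne_zero_of_finite
  change _ + Nat.card ↥(U ⊓ W) = Nat.card U + Nat.card W at h1
  obtain ⟨i, hi⟩ : ∃ i, U.relIndex T = i + 2 := ⟨U.relIndex T - 2, by omega⟩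
  obtain ⟨j, hj⟩ : ∃ j, W.relIndex T = j + 2 := ⟨W.relIndex T - 2, by omega⟩
  rw [hi] at h2 h5
  rw [hj] at h3 h5
  have h10 := Nat.mul_le_mul_right (Nat.card ↥(U ⊓ W)) h5
  rw [h4] at h10
  refine Nat.le_of_mul_le_mul_left ?_ (show 0 < (i + 2) * (j + 2) by positivity)
  have e1 := congrArg ((j + 2) * ·) h2
  have e2 := congrArg ((i + 2) * ·) h3
  have e3 := congrArg ((i + 2) * (j + 2) * ·) h1
  nlinarith only [e1, e2, e3, h10, Nat.zero_le (i * Nat.card T), Nat.zero_le (j * Nat.card T),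
    Nat.zero_le (i * j * Nat.card T)]

end Cfsg.Agent.H31
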