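import Cfsg.Agent.H6.FullyRam
import Cfsg.Agent.H88.CG
import Cfsg.Agent.H49.Prod
import Cfsg.Agent.H3.PComplement

/-! Fully ramified characters that are induced from a normal subgroup. -/

set_option autoImplicit false
set_option linter.style.haveILetI false
set_option linter.unusedSectionVars false

namespace Cfsg.Agent.H31

open Cfsg Subgroup Cfsg.Agent.H5 Cfsg.Agent.H6 Cfsg.Agent.H49
open scoped ComplexConjugate

universe u

theorem exists_linear_cover_ind {H : Type u} [Group H] [Fintype H] (Z : Subgroup H) [hZ : Z.Normal]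
    {χ : H → ℂ} (hχ : IsIrrCharacter H χ) {θ : Z → ℂ} (hθ : IsIrrCharacter Z θ) {e : ℕ}
    (he : e ^ 2 = Z.index) (h : ∀ z : Z, χ z = e * θ z) (K : Subgroup H) (hZK : Z ≤ K)
    {φ : K → ℂ} (hφ : IsCharacter K φ) (hind : indFun K φ = χ) :
    ∃ (Γ : Type u) (_ : Group Γ) (_ : Finite Γ) (π : Γ →* H) (μ : Z.comap π →* ℂˣ) (β : Γ → ℂ)
      (ζ : K.comap π → ℂ), Function.Surjective π ∧ IsIrrCharacter Γ β ∧
      LOver (Z.comap π).subtype μ β ∧ LInv (Z.comap π).subtype μ ∧
      Nat.card (Z.comap π) * charDegree β ^ 2 = Nat.card Γ ∧ IsIrrCharacter (K.comap π) ζ ∧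
      LOver (inclusion (comap_mono hZK)) μ ζ ∧ charDegree β = K.index * charDegree ζ := by
  letI := Fintype.ofFinite Z
  letI := Fintype.ofFinite K
  have he0 : (e : ℂ) ≠ 0 := by
    intro h0
    have : e = 0 := by exact_mod_cast h0
    rw [this] at he
    exact Subgroup.index_ne_zero_of_finite (H := Z) (by simpa using he.symm)
  have hinv : ∀ (g : H) (n : Z), θ ⟨g * n * g⁻¹, hZ.conj_mem (n : H) n.2 g⟩ = θ n := by
    intro g n
    apply mul_left_cancel₀ he0
    rw [← h, ← h]
    exact isClassFunction_of_isIrr hχ _ _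
  obtain ⟨Γ, _, _, ⟨C⟩⟩ := H30.exists_cover Z hθ hinv
  have hres : (fun n : Z => χ n) = (e : ℂ) • θ := funext h
  have hne : classInner (fun n : Z => χ n) θ ≠ 0 := by
    rw [hres, classInner_smul_left, classInner_irr_self hθ, mul_one]
    exact he0
  obtain ⟨β, hβ, h1, h2⟩ := C.exists_factor hθ hχ hne
  have hθ1 : C.θ 1 = θ 1 := by rw [← C.θ_ν, map_one]
  have hθ0 := degree_ne_zero hθ
  have hβ1 : β 1 = e := by
    apply mul_right_cancel₀ hθ0
    have := h2 1
    rw [map_one, hθ1] at this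
    rw [← this, ← h 1]; rfl
  -- the character `φ`
  have hφi : IsIrrCharacter K φ := H88.isIrr_of_isIrr_indFun K hφ (hind ▸ hχ)
  have hφθ : classInner (fun n : Z => φ ⟨n, hZK n.2⟩) θ ≠ 0 := by
    obtain ⟨η, hη, hne'⟩ := exists_irr_constituent (isCharacter_comp hφ (inclusion hZK))
      fun e0 => degree_ne_zero hφi (congrFun e0 1)
    have h3 := H88.over_trans hZK (isCharacter_of_isIrr hχ) hφi (by
      rw [← H88.classInner_indFun_ne_zero_iff K φ (isClassFunction_of_isIrr hχ), hind,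
        classInner_irr_self hχ]
      exact one_ne_zero) (isCharacter_of_isIrr hη) hne'
    rw [hres, classInner_smul_left] at h3
    rw [eq_of_classInner_irr_ne_zero hθ hη (right_ne_zero_of_mul h3)]
    exact hne'
  let K' := K.comap C.π
  have hνK : C.ν.range ≤ K' := by
    rintro _ ⟨n, rfl⟩
    exact show C.π (C.ν n) ∈ K from C.π_ν n ▸ hZK n.2
  let f : K' →* K := (C.π.comp K'.subtype).codRestrict K fun k => k.2
  have hf : Function.Surjective f := fun k => by
    obtain ⟨g, hg⟩ := C.π_surj k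
    exact ⟨⟨g, show C.π g ∈ K from hg ▸ k.2⟩, Subtype.ext hg⟩
  letI := Fintype.ofFinite K'
  letI := Fintype.ofFinite (C.ν.range.subgroupOf K')
  obtain ⟨ζ, hζ, h3, h4⟩ := H30.exists_eq_mul_of_over (C.ν.range.subgroupOf K')
    (ϑ := fun n => C.θ (n : K'))
    (isIrrCharacter_comp_equiv (C.isIrr_res_θ hθ) (subgroupOfEquivOfLe hνK))
    (isCharacter_comp (isCharacter_of_isIrr C.θ_irr) K'.subtype) (fun _ => rfl)
    (isIrrCharacter_comp hφi f hf) (by
      rw [← classInner_comp_equiv (C.νEquiv.trans (subgroupOfEquivOfLe hνK).symm)]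
      convert hφθ using 3 with n n
      · exact congrArg φ (Subtype.ext (C.π_ν n))
      · exact C.θ_ν n)
  have h4' : ∀ k : K', φ (f k) = ζ k * C.θ k := congrFun h4
  have hle : Z.comap C.π ≤ charCenter (isCharacter_of_isIrr hβ) := by
    rw [C.comap_eq_sup]
    refine sup_le (fun z hz => ?_) ?_
    · exact (mem_charCenter _).2 (norm_apply_of_mem_center hβ (C.ker_le hz))
    · rintro _ ⟨n, rfl⟩
      exact (mem_charCenter _).2 (by rw [h1])
  obtain ⟨μ, hμ⟩ := exists_lOver_of_norm_eq (j := (Z.comap C.π).subtype) hβ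
    fun a => (mem_charCenter _).1 (hle a.2)
  have hβ0 := degree_ne_zero hβ
  have hζ0 := degree_ne_zero hζ
  have hval : ∀ a : Z.comap C.π, ζ (inclusion (comap_mono hZK) a) = μ a * ζ 1 := fun a => by
    obtain ⟨z, n, e1⟩ := C.mem_comap_iff.1 a.2
    have hzK : (z : Γ) ∈ K' := show C.π z ∈ K from z.2.symm ▸ K.one_mem
    have e2 : inclusion (comap_mono hZK) a = ⟨z, hzK⟩ * ⟨C.ν n, hνK ⟨n, rfl⟩⟩ := Subtype.ext e1
    have e3 := hμ.apply_j a
    rw [coe_subtype, e1, apply_mul_of_apply_eq_degree' (isCharacter_of_isIrr hβ) (h1 n)] at e3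
    have e4 := h2 z
    have e5 := h4' ⟨z, hzK⟩
    have e6 := h2 1
    have e7 := h4' 1
    have e8 := C.θ_mul z 1
    rw [show f ⟨z, hzK⟩ = 1 from Subtype.ext z.2] at e5
    rw [show C.π z = 1 from z.2] at e4
    rw [map_one] at e6 e7
    rw [mul_one] at e8
    rw [e2, apply_mul_of_apply_eq_degree' (isCharacter_of_isIrr hζ) (h3 _ ⟨n, rfl⟩)]
    change φ 1 = _ * C.θ z at e5
    change φ 1 = _ * C.θ 1 at e7
    rw [e8, hθ1] at e4 e5
    rw [hθ1] at e6 e7
    have e9 : (μ a : ℂ) * C.lam z = 1 := by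
      apply mul_right_cancel₀ (mul_ne_zero hβ0 hθ0)
      rw [e3] at e4
      linear_combination e6 - e4
    apply mul_right_cancel₀ (mul_ne_zero (Units.ne_zero (C.lam z)) hθ0)
    rw [← e5, e7]
    linear_combination (-(ζ 1 * θ 1)) * e9
  obtain ⟨μ', hμ'⟩ := exists_lOver_of_norm_eq (j := inclusion (comap_mono (f := C.π) hZK)) hζ
    fun a => by rw [hval, norm_mul, norm_monoidHom, one_mul]
  obtain rfl : μ' = μ := MonoidHom.ext fun a => Units.ext (mul_right_cancel₀ hζ0 (by
    rw [← hμ'.apply_j, hval]))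
  refine ⟨Γ, inferInstance, inferInstance, C.π, μ', β, ζ, C.π_surj, hβ, hμ,
    hμ.lInv hβ (by rw [Subgroup.range_subtype]; infer_instance), ?_, hζ, hμ', ?_⟩
  · rw [H88.charDegree_eq_of_eq hβ1, he, ← Subgroup.index_comap_of_surjective _ C.π_surj,
      Subgroup.card_mul_index]
  · have e1 := indFun_apply_one K φ
    have e2 := h4' 1
    have e3 := h2 1
    rw [map_one] at e2 e3
    change φ 1 = _ * C.θ 1 at e2
    rw [hind, e2, e3, hθ1, ← mul_assoc] at e1
    have : (charDegree β : ℂ) = K.index * charDegree ζ := by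
      rw [H88.charDegree_cast (isCharacter_of_isIrr hβ), H88.charDegree_cast (isCharacter_of_isIrr hζ)]
      exact mul_right_cancel₀ hθ0 e1
    exact_mod_cast this

section
variable {N A : Type*} [Group N] [Finite N] [Group A] {μ : A →* ℂˣ} {D S : Subgroup N} [D.Normal]

/-- If `μ` is fully ramified in `S ≥ D`, then `S` is transitive on the characters of `D` over
`μ`. -/
theorem trans_of_fullyRamified (hDS : D ≤ S) {i : A →* D} (hi : Function.Injective i)
    {b : S → ℂ} (hb : IsIrrCharacter S b) (h1 : LOver ((inclusion hDS).comp i) μ b)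
    (hv : ∀ g, g ∉ ((inclusion hDS).comp i).range → b g = 0) {τ : D → ℂ}
    (hτ : IsIrrCharacter D τ) (hτ' : LOver i μ τ) :
    (∀ ψ : D → ℂ, IsIrrCharacter D ψ → LOver i μ ψ → ∃ s ∈ S, conjChar D s τ = ψ) ∧
      Nat.card D = Nat.card A * ((inertia D τ).relIndex S * charDegree τ ^ 2) := by
  classical
  letI := Fintype.ofFinite S
  letI := Fintype.ofFinite D
  letI := Fintype.ofFinite (D.subgroupOf S)
  let ε := subgroupOfEquivOfLe hDS
  have hb0 := degree_ne_zero hb
  have hA0 : (Nat.card A : ℂ) ≠ 0 := by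
    haveI := Finite.of_injective i hi
    haveI : Nonempty A := ⟨1⟩
    exact_mod_cast (Nat.card_pos (α := A)).ne'
  have key : ∀ ψ : D → ℂ, LOver i μ ψ → (Nat.card D : ℂ) *
      classInner (fun n : D.subgroupOf S => b n) (fun n => ψ (ε n)) =
        Nat.card A * (b 1 * conj (ψ 1)) := fun ψ hψ => by
    have h2 := (h1.comp (f := inclusion hDS) (i := i) fun _ => rfl).card_mul_classInner_of_vanish
      hi hψ fun g hg => hv _ fun ⟨a, e⟩ => hg ⟨a, inclusion_injective hDS e⟩
    rw [map_one] at h2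
    rw [← h2, ← classInner_comp_equiv ε]
    rfl
  have key' : ∀ ψ : D → ℂ, IsIrrCharacter D ψ → LOver i μ ψ →
      classInner (fun n : D.subgroupOf S => b n) (fun n => ψ (ε n)) ≠ 0 := fun ψ hψ hψ' e0 => by
    have h2 := key ψ hψ'
    rw [e0, mul_zero] at h2
    exact mul_ne_zero hA0 (mul_ne_zero hb0 (by simpa using degree_ne_zero hψ)) h2.symm
  have hτε := isIrrCharacter_comp_equiv hτ ε
  constructor
  · intro ψ hψ hψ'
    obtain ⟨s, hs⟩ := exists_conjChar_eq_of_constituent (D.subgroupOf S) hb hτε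
      (isIrrCharacter_comp_equiv hψ ε) (key' τ hτ hτ') (key' ψ hψ hψ')
    exact ⟨s, s.2, funext fun d => congrFun hs (ε.symm d)⟩
  · have h2 := clifford_degree (D.subgroupOf S) hb hτε (key' τ hτ hτ')
    have h3 : inertia (D.subgroupOf S) (fun n => τ (ε n)) = (inertia D τ).subgroupOf S := by
      ext s
      rw [mem_subgroupOf, mem_inertia_iff, mem_inertia_iff]
      exact ⟨fun h d => h (ε.symm d), fun h n => h (ε n)⟩
    have h4 := key τ hτ'
    have h5 := key' τ hτ hτ'
    rw [h3, map_one] at h2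
    rw [← H88.charDegree_cast (isCharacter_of_isIrr hτ)] at h2 h4
    generalize classInner (fun n : D.subgroupOf S => b n) (fun n => τ (ε n)) = c at h2 h4 h5
    rw [h2, Complex.conj_natCast] at h4
    have : (Nat.card D : ℂ) = Nat.card A * ((inertia D τ).relIndex S * charDegree τ ^ 2) := by
      apply mul_right_cancel₀ h5
      rw [h4, relIndex]; ring
    exact_mod_cast this

end

end Cfsg.Agent.H31
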