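import Cfsg.Agent.H31.FI1
import Cfsg.Agent.S0006

/-! If a fully ramified character is induced from a normal subgroup `K`, then the quotient by `K`
has a `q`-complement for each prime `q`. -/

set_option autoImplicit false
set_option linter.style.haveILetI false
set_option linter.unusedSectionVars false

namespace Cfsg.Agent.H31

open Cfsg Subgroup Cfsg.Agent.H5 Cfsg.Agent.H6 Cfsg.Agent.H49

theorem exists_complement_of_ind {Γ Q : Type*} [Group Γ] [Finite Γ] [Group Q] [Finite Q]
    (A : Subgroup Γ) [A.Normal] {μ : A →* ℂˣ} {β : Γ → ℂ} (hβ : IsIrrCharacter Γ β)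
    (h1 : LOver A.subtype μ β) (hinv : LInv A.subtype μ)
    (hd : Nat.card A * charDegree β ^ 2 = Nat.card Γ) (ρ : Γ →* Q) (hρ : Function.Surjective ρ)
    {K : Subgroup Γ} (hK : ρ.ker = K) (hA : A ≤ K) {ζ : K → ℂ} (hζ : IsIrrCharacter K ζ)
    (hζ' : LOver (inclusion hA) μ ζ) (hdeg : charDegree β = K.index * charDegree ζ) (q : ℕ)
    (hq : q.Prime) : ∃ W : Subgroup Q, W.index = q ^ (Nat.card Q).factorization q := by
  classical
  subst hK
  haveI := Fact.mk hq
  have hj : Function.Injective A.subtype := Subtype.val_injective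
  obtain ⟨S₀⟩ : Nonempty (Sylow q Γ) := inferInstance
  let S : Subgroup Γ := (S₀ : Subgroup Γ) ⊔ A
  let D : Subgroup Γ := S ⊓ ρ.ker
  have hD : D = ((S₀ : Subgroup Γ) ⊓ ρ.ker) ⊔ A :=
    modular_right (Or.inl (by rw [normalizer_eq_top]; exact le_top)) hA
  have hAS : A ≤ S := le_sup_right
  have hAD : A ≤ D := le_inf hAS hA
  let N := 𝒩(D)
  have hSN : S ≤ N := norm_inf le_normalizer (by rw [normalizer_eq_top]; exact le_top)
  have hDN : D ≤ N := le_normalizer
  have hfr : N ⊔ ρ.ker = ⊤ := by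
    have h2 := Sylow.normalizer_sup_eq_top (H3.sylowInf S₀ ρ.ker)
    rw [H3.coe_sylowInf, subgroupOf_map_subtype] at h2
    rw [eq_top_iff, ← h2]
    refine sup_le_sup_right ?_ _
    change _ ≤ 𝒩(D)
    rw [hD]
    exact norm_sup le_rfl (by rw [normalizer_eq_top A]; exact le_top)
  have hSq : ¬ q ∣ S.index := fun h => S₀.not_dvd_index (h.trans (index_dvd_of_le le_sup_left))
  obtain ⟨k, hk⟩ : ∃ k, A.relIndex S = q ^ k := by
    obtain ⟨k, hk⟩ := IsPGroup.iff_card.1 S₀.isPGroup'
    have h2 : A.relIndex S ∣ q ^ k := by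
      rw [relIndex_sup_right, ← hk]; exact relIndex_dvd_card _ _
    obtain ⟨l, -, hl⟩ := (Nat.dvd_prime_pow hq).1 h2
    exact ⟨l, hl⟩
  let D' := D.subgroupOf N
  let S' := S.subgroupOf N
  haveI : D'.Normal := normal_in_normalizer
  have hDS : D' ≤ S' := subgroupOf_mono N inf_le_left
  let i : A →* D' := (inclusion (hAD.trans hDN)).codRestrict D' fun a => hAD a.2
  let f : S' →* Γ := N.subtype.comp S'.subtype
  have hf : Function.Injective f := Subtype.val_injective.comp Subtype.val_injective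
  have hfi : ∀ a, f ((inclusion hDS).comp i a) = A.subtype a := fun _ => rfl
  have hcS : Nat.card S' = Nat.card S := card_subgroupOf_of_le hSN
  have hcD : Nat.card D' = Nat.card D := card_subgroupOf_of_le hDN
  obtain ⟨b, hb, hb1, hbv, -⟩ := exists_fullyRamified_of_not_lGood (hinv.of_comp hf hfi)
    (injective_of_comp hj hfi) fun s hs => not_lGood_of_hall hinv hj hβ h1 hd hf hfi
      (hcS.trans (card_mul_relIndex hAS).symm) (hcS ▸ S.card_mul_index.symm)
      (hk ▸ ((Nat.Prime.coprime_iff_not_dvd hq).2 hSq).pow_left k) hs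
  let g : D' →* ρ.ker := (N.subtype.comp D'.subtype).codRestrict _ fun d => d.2.2
  have hg : Function.Injective g := fun a b e =>
    Subtype.ext (Subtype.ext (congrArg (fun x : ρ.ker => (x : Γ)) e))
  have hgi : ∀ a, g (i a) = inclusion hA a := fun _ => rfl
  have hinvK : LInv (inclusion hA) μ :=
    hinv.of_comp (f := ρ.ker.subtype) Subtype.val_injective fun _ => rfl
  have hinvD : LInv i μ := hinvK.of_comp hg hgi
  have hi : Function.Injective i := injective_of_comp (inclusion_injective hA) hgi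
  obtain ⟨τ, hτ, hτ'⟩ := exists_lOver hinvD hi
  obtain ⟨htr, hcard⟩ := trans_of_fullyRamified hDS hi hb hb1 hbv hτ hτ'
  set T := inertia D' τ with hT
  have hDT : D' ≤ T := le_inertia D' (isClassFunction_of_isIrr hτ)
  -- `N = T S`
  have hprod : IsProd S' T ⊤ := by
    refine IsProd.symm ⟨le_top, le_top, fun x _ => ?_⟩
    obtain ⟨s, hs, e⟩ := htr (conjChar D' x τ) (isIrr_conjChar D' hτ x) fun a d => by
      obtain ⟨a', e1, e2⟩ := hinv x a
      rw [conjChar_apply, conjChar_apply, ← e2, ← hτ']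
      congr 1
      apply Subtype.ext
      apply Subtype.ext
      change (x : Γ) * (a * d) * (x : Γ)⁻¹ = A.subtype a' * (x * d * (x : Γ)⁻¹)
      rw [e1, coe_subtype]
      group
    exact ⟨x * s⁻¹, (conjChar_eq_iff D').1 e.symm, s, hs, by group⟩
  -- the degree of `τ` divides that of `ζ`
  obtain ⟨c, hc⟩ : charDegree τ ∣ charDegree ζ := by
    letI := Fintype.ofFinite D'
    rw [← H88.charDegree_comp g ζ]
    refine H88.dvd_charDegree_of_forall_constituent
      (isCharacter_comp (isCharacter_of_isIrr hζ) g) fun ψ hψ hne => ?_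
    obtain ⟨s, -, rfl⟩ := htr ψ hψ ((hζ'.comp hgi).of_constituent hinvD hi hψ hne)
    rw [H88.charDegree_congr (conjChar_apply_one D' s τ)]
  have hs1 : D'.relIndex S' = ρ.ker.relIndex S := by
    rw [relIndex_subgroupOf hSN]
    exact inf_relIndex_left _ _
  obtain ⟨l, hl⟩ : ∃ l, ρ.ker.relIndex S = q ^ l := by
    obtain ⟨l, -, hl⟩ := (Nat.dvd_prime_pow hq).1 (hk ▸ relIndex_dvd_of_le_left S hA)
    exact ⟨l, hl⟩
  have hTS : T.relIndex S' = D'.relIndex S' := by
    refine Nat.dvd_antisymm (relIndex_dvd_of_le_left S' hDT) ?_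
    have hr : ¬ q ∣ D.relIndex ρ.ker := by
      rw [inf_relIndex_right]
      exact fun h => H3.not_dvd_relIndex_sylow_of_normal S₀ ρ.ker
        (h.trans (relIndex_dvd_of_le_left _ le_sup_left))
    have h2 := card_mul_relIndex (inf_le_right : D ≤ ρ.ker)
    have h3 := ρ.ker.card_mul_index
    have h4 : ρ.ker.relIndex S ∣ ρ.ker.index := relIndex_dvd_index_of_normal _ _
    have h5 : T.relIndex S' * D.relIndex ρ.ker = ρ.ker.index * c ^ 2 := by
      have h6 : 0 < Nat.card A * charDegree τ ^ 2 * ρ.ker.index := Nat.mul_pos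
        (Nat.mul_pos Nat.card_pos (pow_pos (H88.charDegree_pos hτ) 2))
        (Nat.pos_of_ne_zero index_ne_zero_of_finite)
      apply Nat.eq_of_mul_eq_mul_left h6
      rw [← h3, ← h2, ← hcD, hcard, hdeg, hc] at hd
      linarith
    rw [hs1, hl] at *
    exact (((Nat.Prime.coprime_iff_not_dvd hq).2 hr).pow_left l).dvd_of_dvd_mul_right
      (h5 ▸ h4.mul_right _)
  have hTi : T.index = D'.relIndex S' := by rw [← hTS, hprod.relIndex_eq, relIndex_top_right]
  have hDT' : D'.relIndex T = S'.index := by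
    have h2 := (relIndex_mul_index hDT).trans (relIndex_mul_index hDS).symm
    rw [hTi, mul_comm] at h2
    exact Nat.eq_of_mul_eq_mul_left (relIndex_pos _ _) h2
  let σ : N →* Q := ρ.comp N.subtype
  have hσ : Function.Surjective σ := fun y => by
    obtain ⟨x, rfl⟩ := hρ y
    have : x ∈ ((N ⊔ ρ.ker : Subgroup Γ) : Set Γ) := hfr ▸ mem_top x
    rw [mul_normal] at this
    obtain ⟨n, hn, z, hz, rfl⟩ := this
    exact ⟨⟨n, hn⟩, by rw [map_mul, show ρ z = 1 from hz, mul_one]; rfl⟩
  refine ⟨T.map σ, ?_⟩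
  obtain ⟨a, -, ha⟩ := (Nat.dvd_prime_pow hq).1
    (hl ▸ hs1 ▸ hTi ▸ index_map_dvd T hσ : (T.map σ).index ∣ q ^ l)
  have h2 : ¬ q ∣ Nat.card (T.map σ) := fun h => hSq (by
    rw [← relIndex_ker] at h
    refine (h.trans (relIndex_dvd_of_le_left T (show D' ≤ σ.ker from fun d hd => hd.2))).trans ?_
    rw [hDT']
    exact relIndex_dvd_index_of_le hSN)
  rw [← (T.map σ).index_mul_card, ha, Nat.factorization_mul (pow_ne_zero _ hq.ne_zero)
    Nat.card_pos.ne', Finsupp.add_apply, Nat.factorization_eq_zero_of_not_dvd h2,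
    Nat.factorization_pow_self hq, add_zero]

end Cfsg.Agent.H31
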