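import Cfsg.Agent.H6.FullyRam
import Cfsg.Agent.H6.CliffordCorr

/-! Fully ramified characters: reduction to groups of central type, and the two reductions over
an abelian normal section. -/

set_option autoImplicit false
set_option linter.style.haveILetI false
set_option linter.unusedSectionVars false

namespace Cfsg.Agent.H31

open Cfsg Subgroup
open scoped ComplexConjugate

universe u

/-- Some irreducible character is fully ramified over `N`. -/
def FR {Γ : Type*} [Group Γ] (N : Subgroup Γ) : Prop :=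
  ∃ (χ : Γ → ℂ) (θ : N → ℂ) (e : ℕ), IsIrrCharacter Γ χ ∧ IsIrrCharacter N θ ∧
    e ^ 2 = N.index ∧ ∀ z : N, χ z = e * θ z

/-- `β` is fully ramified over the faithful linear character `μ` of the central subgroup `Z`. -/
structure CT {Γ : Type*} [Group Γ] (Z : Subgroup Γ) (μ : Z →* ℂˣ) (β : Γ → ℂ) : Prop where
  cen : ∀ z ∈ Z, ∀ g, g * z = z * g
  inj : Function.Injective μ
  irr : IsIrrCharacter Γ β
  lov : H6.LOver Z.subtype μ β
  deg : charDegree β ^ 2 = Z.index

theorem FR.exists_ct {Γ : Type u} [Group Γ] [Finite Γ] {Q : Type*} [Group Q] (ρ : Γ →* Q)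
    (hρ : Function.Surjective ρ) (h : FR ρ.ker) :
    ∃ (Γ' : Type u) (_ : Group Γ') (_ : Finite Γ') (ρ' : Γ' →* Q) (μ : ρ'.ker →* ℂˣ)
      (β : Γ' → ℂ), Function.Surjective ρ' ∧ CT ρ'.ker μ β := by
  obtain ⟨χ, θ, e, hχ, hθ, he, h⟩ := h
  obtain ⟨Γ₁, _, _, π, μ, β, hπ, hβ, h1, hinv, hd⟩ := H6.exists_linear_cover ρ.ker hχ hθ he h
  let A := ρ.ker.comap π
  let K : Subgroup Γ₁ := μ.ker.map A.subtype
  haveI hK : K.Normal := ⟨by
    rintro _ ⟨a, ha, rfl⟩ g
    obtain ⟨a', e1, e2⟩ := hinv g a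
    exact ⟨a', e2.trans ha, e1⟩⟩
  obtain ⟨φ, hφ, hβφ⟩ := H5.exists_isIrr_quotient K hβ (by
    rintro _ ⟨a, ha, rfl⟩
    rw [h1.apply_j, show μ a = 1 from ha, Units.val_one, one_mul])
  have hφβ : ∀ g : Γ₁, φ (g : Γ₁ ⧸ K) = β g := fun g => by rw [hβφ]
  let ρ' : Γ₁ ⧸ K →* Q := QuotientGroup.lift K (ρ.comp π) (by
    rintro _ ⟨a, -, rfl⟩
    exact a.2)
  have hρ' : Function.Surjective ρ' := fun q => by
    obtain ⟨g, rfl⟩ := hρ q
    obtain ⟨g, rfl⟩ := hπ g
    exact ⟨(g : Γ₁ ⧸ K), rfl⟩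
  have hker : ∀ z ∈ ρ'.ker, ∃ a : A, z = ((a : Γ₁) : Γ₁ ⧸ K) := fun z hz => by
    obtain ⟨g, rfl⟩ := QuotientGroup.mk_surjective z
    exact ⟨⟨g, hz⟩, rfl⟩
  have hφ1 : φ 1 = β 1 := hφβ 1
  obtain ⟨μ', hμ'⟩ := H6.exists_lOver_of_norm_eq (j := ρ'.ker.subtype) hφ (fun z => by
    obtain ⟨a, ha⟩ := hker z z.2
    have := h1.apply_j a
    rw [coe_subtype] at this ⊢
    rw [ha, hφβ, this, hφ1, norm_mul, H5.norm_monoidHom, one_mul])
  have hμμ : ∀ (z : ρ'.ker) (a : A), (z : Γ₁ ⧸ K) = (a : Γ₁) → μ' z = μ a := fun z a e => by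
    have h2 := hμ'.apply_j z
    have h3 := h1.apply_j a
    rw [coe_subtype] at h2 h3
    rw [e, hφβ, h3, hφ1] at h2
    exact Units.ext (mul_right_cancel₀ (H5.degree_ne_zero hβ) h2).symm
  refine ⟨Γ₁ ⧸ K, inferInstance, inferInstance, ρ', μ', φ, hρ', ?_, ?_, hφ, hμ', ?_⟩
  · intro z hz g
    obtain ⟨a, rfl⟩ := hker z hz
    obtain ⟨g, rfl⟩ := QuotientGroup.mk_surjective g
    obtain ⟨a', e1, e2⟩ := hinv g⁻¹ a
    rw [← QuotientGroup.mk_mul, ← QuotientGroup.mk_mul, QuotientGroup.eq]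
    refine ⟨a⁻¹ * a', show μ _ = 1 by rw [map_mul, map_inv, e2, inv_mul_cancel], ?_⟩
    rw [map_mul, map_inv, e1, coe_subtype]
    group
  · rw [injective_iff_map_eq_one]
    intro z hz
    obtain ⟨a, ha⟩ := hker z z.2
    rw [hμμ z a ha] at hz
    exact Subtype.ext (ha.trans ((QuotientGroup.eq_one_iff _).2 ⟨a, hz, rfl⟩))
  · have h2 : charDegree φ = charDegree β := by unfold charDegree; rw [hφ1]
    have h3 : A.index = Nat.card Q := by
      change (ρ.comp π).ker.index = _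
      rw [index_ker, MonoidHom.range_eq_top.2 (show Function.Surjective (ρ.comp π) from hρ.comp hπ),
        card_top]
    rw [h2, index_ker, MonoidHom.range_eq_top.2 hρ', card_top, ← h3]
    exact Nat.eq_of_mul_eq_mul_left Nat.card_pos (hd.trans A.card_mul_index.symm)

variable {Γ : Type*} [Group Γ] [Finite Γ] {Z : Subgroup Γ} {μ : Z →* ℂˣ} {β : Γ → ℂ}

theorem CT.lInv (h : CT Z μ β) : H6.LInv Z.subtype μ :=
  H6.lInv_of_central fun a => mem_center_iff.2 (h.cen a a.2)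

theorem CT.deg' (h : CT Z μ β) : Nat.card Z * charDegree β ^ 2 = Nat.card Γ := by
  rw [h.deg, card_mul_index]

theorem CT.vanish (h : CT Z μ β) {g : Γ} (hg : g ∉ Z) : β g = 0 :=
  h.lov.vanish_of_fullyRamified Subtype.val_injective h.irr h.deg'.ge (by simpa using hg)

/-- DeMeyer and Janusz for a subgroup `S ≥ Z` with `S / Z` a Hall subgroup. -/
theorem CT.exists_comm_hall (h : CT Z μ β) {S : Subgroup Γ} (hS : Z ≤ S)
    (hc : (Z.relIndex S).Coprime S.index) {x : Γ} (hx : x ∈ S) (hxZ : x ∉ Z) :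
    ∃ y ∈ S, y * x * y⁻¹ * x⁻¹ ∈ Z ∧ y * x ≠ x * y := by
  have h1 : ¬ H6.LGood (inclusion hS) μ ⟨x, hx⟩ := by
    refine H6.not_lGood_of_hall h.lInv Subtype.val_injective h.irr h.lov h.deg'
      (f := S.subtype) Subtype.val_injective (fun _ => rfl)
      (n := Z.relIndex S) ?_ S.card_mul_index.symm hc ?_
    · rw [relIndex, ← card_mul_index (Z.subgroupOf S),
        Nat.card_congr (subgroupOfEquivOfLe hS).toEquiv]
    · rintro ⟨a, e⟩
      have e' : (a : Γ) = x := congrArg Subtype.val e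
      exact hxZ (e' ▸ a.2)
  simp only [H6.LGood, not_forall] at h1
  obtain ⟨y, a, e1, e2⟩ := h1
  have e3 : (y : Γ) * x * (y : Γ)⁻¹ = a * x := congrArg Subtype.val e1
  refine ⟨y, y.2, by rw [e3, mul_inv_cancel_right]; exact a.2, fun e => e2 ?_⟩
  rw [e, mul_inv_cancel_right, eq_comm, mul_eq_right] at e3
  rw [show a = 1 from Subtype.ext e3, map_one]

theorem CT.exists_comm (h : CT Z μ β) {x : Γ} (hxZ : x ∉ Z) :
    ∃ y, y * x * y⁻¹ * x⁻¹ ∈ Z ∧ y * x ≠ x * y := by
  obtain ⟨y, -, hy⟩ := h.exists_comm_hall le_top (by rw [index_top]; exact Nat.coprime_one_right _)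
    (mem_top x) hxZ
  exact ⟨y, hy⟩

/-- A normal subgroup `M` with `M / Z` abelian and centre `Z`. -/
theorem CT.fr_of_center (h : CT Z μ β) {M : Subgroup Γ} (hZM : Z ≤ M)
    (hc : ∀ x ∈ M, ∀ y ∈ M, y * x * y⁻¹ * x⁻¹ ∈ Z)
    (hn : ∀ x ∈ M, x ∉ Z → ∃ y ∈ M, y * x ≠ x * y) : FR M := by
  classical
  letI := Fintype.ofFinite M
  have hj : Function.Injective (inclusion hZM) := inclusion_injective hZM
  have hinv : H6.LInv (inclusion hZM) μ :=
    h.lInv.of_comp (f := M.subtype) Subtype.val_injective fun _ => rfl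
  have hr : ∀ g : M, g ∈ (inclusion hZM).range ↔ (g : Γ) ∈ Z := fun g =>
    ⟨by rintro ⟨a, rfl⟩; exact a.2, fun hg => ⟨⟨g, hg⟩, rfl⟩⟩
  obtain ⟨φ, hφ, h1, hv, hd⟩ := H6.exists_fullyRamified_of_not_lGood hinv hj (fun g hg hgood => by
    obtain ⟨y, hy, hne⟩ := hn g g.2 (by rwa [← hr])
    have h2 := hgood ⟨y, hy⟩ ⟨_, hc g g.2 y hy⟩ (Subtype.ext (by simp))
    rw [← map_one μ] at h2
    have h3 := congrArg Subtype.val (h.inj h2)
    exact hne (by simpa [mul_inv_eq_iff_eq_mul] using h3))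
  have hφ0 := H5.degree_ne_zero hφ
  have hres : ∀ m : M, β m = β 1 / φ 1 * φ m := fun m => by
    by_cases hm : (m : Γ) ∈ Z
    · have h2 := h.lov.apply_j ⟨m, hm⟩
      have h3 := h1.apply_j ⟨m, hm⟩
      change β m = _ at h2
      change φ m = _ at h3
      rw [h2, h3]
      field_simp
    · rw [h.vanish hm, hv m (by rwa [hr]), mul_zero]
  obtain ⟨e, he⟩ := H5.exists_nat_classInner
    (H5.isCharacter_comp (H5.isCharacter_of_isIrr h.irr) M.subtype) (H5.isCharacter_of_isIrr hφ)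
  have he' : β 1 / φ 1 = e := by
    rw [← he]
    have : (fun m : M => β (M.subtype m)) = (β 1 / φ 1) • φ := funext hres
    rw [this, H5.classInner_smul_left, H5.classInner_irr_self hφ, mul_one]
  refine ⟨β, φ, e, h.irr, hφ, ?_, fun m => by rw [hres, he']⟩
  have h2 : charDegree β = e * charDegree φ := by
    have : (charDegree β : ℂ) = e * charDegree φ := by
      rw [H88.charDegree_cast (H5.isCharacter_of_isIrr h.irr),
        H88.charDegree_cast (H5.isCharacter_of_isIrr hφ), ← he']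
      field_simp
    exact_mod_cast this
  have h3 := h.deg'
  rw [h2, ← M.card_mul_index, ← hd, mul_pow, mul_comm (e ^ 2), ← mul_assoc] at h3
  exact Nat.eq_of_mul_eq_mul_left (hd ▸ Nat.card_pos) h3

/-- An abelian normal subgroup `M ≥ Z`: pass to the inertia group of a linear constituent. -/
theorem CT.exists_inertia (h : CT Z μ β) {M : Subgroup Γ} [hM : M.Normal] (hZM : Z ≤ M)
    (hc : ∀ x ∈ M, ∀ y ∈ M, x * y = y * x) :
    ∃ T : Subgroup Γ, M ≤ T ∧ T.index = Z.relIndex M ∧ FR (M.subgroupOf T) ∧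
      (∀ g, (∀ m ∈ M, g * m = m * g) → g ∈ T) ∧
      ∀ g ∈ T, ∀ m ∈ M, g * m * g⁻¹ * m⁻¹ ∈ Z → g * m = m * g := by
  classical
  letI := Fintype.ofFinite Γ
  letI := Fintype.ofFinite M
  have hj : Function.Injective (inclusion hZM) := inclusion_injective hZM
  have hinv : H6.LInv (inclusion hZM) μ :=
    h.lInv.of_comp (f := M.subtype) Subtype.val_injective fun _ => rfl
  have hβ := H5.isCharacter_of_isIrr h.irr
  have hβ0 := H5.degree_ne_zero h.irr
  have hres : IsCharacter M (fun m : M => β m) := H5.isCharacter_comp hβ M.subtype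
  obtain ⟨φ, hφ, hne⟩ := H5.exists_irr_constituent hres (fun e => hβ0 (congrFun e 1))
  obtain ⟨lam, rfl⟩ := H5.exists_monoidHom_of_comm (fun a b => Subtype.ext (hc a a.2 b b.2)) hφ
  have h1 : H6.LOver (inclusion hZM) μ (fun m : M => β m) :=
    h.lov.comp (f := M.subtype) fun _ => rfl
  have h2 := h1.of_constituent hinv hj hφ hne
  have h3 := h1.card_mul_classInner_of_vanish hj h2 (fun g hg => h.vanish fun hgZ =>
    hg ⟨⟨g, hgZ⟩, rfl⟩)
  have h4 := H6.clifford_degree M h.irr hφ hne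
  obtain ⟨e, he⟩ := H5.exists_nat_classInner hres (H5.isCharacter_of_isIrr hφ)
  have hMT := H6.le_inertia M (H5.isClassFunction_of_isIrr hφ)
  generalize hT : H6.inertia M (fun g => (lam g : ℂ)) = T at h4 hMT
  letI := Fintype.ofFinite T
  obtain ⟨ψ, hψ, -, -, h5⟩ := H6.exists_clifford_correspondent M hφ T hT.symm hMT h.irr hne
  rw [he] at h3 h4 h5
  simp only [map_one, Units.val_one, mul_one, OneMemClass.coe_one] at h3 h4
  have h6 : charDegree β = e * T.index := by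
    have : (charDegree β : ℂ) = e * T.index := by rw [H88.charDegree_cast hβ, h4]
    exact_mod_cast this
  have he0 : 0 < e := Nat.pos_of_ne_zero fun e0 => hne (by rw [he, e0, Nat.cast_zero])
  have h7 : T.index = Z.relIndex M := by
    have h8 : Nat.card M * e = Nat.card Z * (e * T.index) := by
      rw [h4] at h3
      exact_mod_cast h3
    have h9 : Nat.card M = Nat.card Z * Z.relIndex M := by
      rw [relIndex, ← card_mul_index (Z.subgroupOf M),
        Nat.card_congr (subgroupOfEquivOfLe hZM).toEquiv]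
    rw [h9, mul_assoc, mul_comm _ e] at h8
    exact (Nat.eq_of_mul_eq_mul_left he0 (Nat.eq_of_mul_eq_mul_left Nat.card_pos h8)).symm
  refine ⟨T, hMT, h7, ⟨ψ, fun n => lam ⟨(n : T), n.2⟩, e, hψ, ?_, ?_, fun n => ?_⟩, ?_, ?_⟩
  · exact H5.isIrrCharacter_monoidHom (lam.comp (subgroupOfEquivOfLe hMT).toMonoidHom)
  · have h8 := h.deg
    have h0 : 0 < T.index := Nat.pos_of_ne_zero index_ne_zero_of_finite
    rw [h6, ← relIndex_mul_index hZM, ← relIndex_mul_index hMT, ← h7] at h8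
    change _ = M.relIndex T
    apply Nat.eq_of_mul_eq_mul_left (Nat.mul_pos h0 h0)
    linarith
  · exact congrFun h5 ⟨(n : T), n.2⟩
  · intro g hg
    rw [← hT, H6.mem_inertia_iff]
    intro n
    congr 2
    exact Subtype.ext (by simp [hg n n.2])
  · intro g hg m hm hz
    rw [← hT, H6.mem_inertia_iff] at hg
    have h8 := hg ⟨m, hm⟩
    have h9 := h2 ⟨_, hz⟩ ⟨m, hm⟩
    have e1 : inclusion hZM ⟨_, hz⟩ * ⟨m, hm⟩ = ⟨g * m * g⁻¹, hM.conj_mem m hm g⟩ :=
      Subtype.ext (by simp)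
    simp only [e1] at h9
    rw [h8, eq_comm, mul_eq_right₀ (Units.ne_zero _), Units.val_eq_one, ← map_one μ] at h9
    have h10 := congrArg Subtype.val (h.inj h9)
    simpa [mul_inv_eq_iff_eq_mul] using h10

end Cfsg.Agent.H31
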