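import Cfsg.Agent.H31.FR1
import Cfsg.Agent.H50.PGroup
import Cfsg.Agent.H2.MinNormal

/-! Groups of central type: the inductive step over an abelian minimal normal subgroup. -/

set_option autoImplicit false
set_option linter.style.haveILetI false
set_option linter.unusedSectionVars false

namespace Cfsg.Agent.H31

open Cfsg Subgroup Cfsg.Agent.H49
open scoped commutatorElement

universe u v

/-- The Sylow `p`-subgroups are abelian whenever `p ^ 6` divides the order. -/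
def Hyp6 (Q : Type*) [Group Q] : Prop :=
  ∀ p : ℕ, p.Prime → p ^ 6 ∣ Nat.card Q → ∀ P : Subgroup Q, IsPGroup p P →
    ∀ a ∈ P, ∀ b ∈ P, a * b = b * a

section
variable {Q K : Type*} [Group Q] [Finite Q] [Group K]

theorem Hyp6.subgroup (h : Hyp6 Q) (T : Subgroup Q) : Hyp6 T := fun p hp hd P hP a ha b hb =>
  Subtype.ext (h p hp (hd.trans T.card_subgroup_dvd_card) _ (hP.map T.subtype) _ ⟨a, ha, rfl⟩ _
    ⟨b, hb, rfl⟩)

theorem Hyp6.of_surjective (h : Hyp6 Q) (f : Q →* K) (hf : Function.Surjective f) : Hyp6 K := by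
  intro p hp hd P hP a ha b hb
  haveI := Fact.mk hp
  haveI := Finite.of_surjective f hf
  obtain ⟨S, hS⟩ := hP.exists_le_sylow
  obtain ⟨S₀, rfl⟩ := Sylow.mapSurjective_surjective hf p S
  obtain ⟨x, hx, rfl⟩ := hS ha
  obtain ⟨y, hy, rfl⟩ := hS hb
  rw [← map_mul, ← map_mul, h p hp (hd.trans (card_dvd_of_surjective f hf)) _ S₀.isPGroup' x hx y hy]

theorem Hyp6.not_dvd_index_cent (h : Hyp6 Q) {p : ℕ} [hp : Fact p.Prime] {N : Subgroup Q}
    [hN : N.Normal] (hpN : IsPGroup p N) (h1 : N ≠ ⊥) (hc : N ≤ 𝒞(N)) :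
    ¬ Nat.card N ∣ (𝒞(N)).index := by
  intro hd
  obtain ⟨P, hP⟩ := hpN.exists_le_sylow
  obtain ⟨k, hk⟩ := IsPGroup.iff_card.1 hpN
  have hk0 : k ≠ 0 := fun e => h1 (card_eq_one.1 (by rw [hk, e, pow_zero]))
  have h2 : p ^ k ∣ (𝒞(N)).relIndex P := by
    rw [hk, ← relIndex_mul_index (le_sup_right : 𝒞(N) ≤ (P : Subgroup Q) ⊔ 𝒞(N)),
      relIndex_sup_right] at hd
    refine Nat.Coprime.dvd_of_dvd_mul_right (Nat.Coprime.pow_left k ?_) hd
    exact (Nat.Prime.coprime_iff_not_dvd hp.out).2 fun e =>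
      P.not_dvd_index (e.trans (index_dvd_of_le le_sup_left))
  have h3 : ¬ (P : Subgroup Q) ≤ 𝒞(N) := fun e => by
    rw [relIndex_eq_one.2 e, Nat.dvd_one] at h2
    exact (Nat.one_lt_pow hk0 hp.out.one_lt).ne' h2
  have hn : (P : Subgroup Q) ≤ 𝒩(N) := by rw [normalizer_eq_top]; exact le_top
  have h4 : p ^ (k + k) ∣ Nat.card Q := by
    refine Dvd.dvd.trans ?_ (P : Subgroup Q).card_subgroup_dvd_card
    rw [← card_inf_mul_relIndex 𝒞(N) P, pow_add]
    exact mul_dvd_mul (hk ▸ card_dvd_of_le (le_inf hc hP)) h2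
  have h5 : k ≤ 2 := by
    by_contra hlt
    refine h3 fun x hx n hn => h p hp.out ((pow_dvd_pow p (by omega)).trans h4) _ P.isPGroup' _
      (hP hn) _ hx
  have h6 := H50.relIndex_cent_le_of_p2 P.isPGroup' hpN hn
    (hk ▸ Nat.pow_le_pow_right hp.out.pos h5)
  have h7 := (Nat.le_of_dvd (Nat.pos_of_ne_zero index_ne_zero_of_finite) h2).trans h6
  refine h3 (H50.cent_of_card_le_p P.isPGroup' hpN hn (hk ▸ h7))

theorem solvable_of_sup_comm {C T : Subgroup K} [C.Normal] (hT : Group.IsSolvable T)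
    (h1 : T ⊔ C = ⊤) (h2 : ∀ a ∈ C, ∀ b ∈ C, ⁅a, b⁆ ∈ T) : Group.IsSolvable K := by
  rw [Group.isSolvable_iff_subgroup_quotient C]
  constructor
  · haveI : Group.IsSolvable (T.subgroupOf C) :=
      Group.isSolvable_of_isSolvable_injective
        (f := (C.subtype.comp (T.subgroupOf C).subtype).codRestrict T fun x => x.2)
        fun a b e => Subtype.ext (Subtype.ext (congrArg (fun x : T => (x : K)) e))
    refine Group.isSolvable_of_ker_le_range (T.subgroupOf C).subtype Abelianization.of ?_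
    rw [Abelianization.ker_of, range_subtype, commutator_def, commutator_le]
    exact fun a _ b _ => h2 a a.2 b b.2
  · refine Group.isSolvable_of_surjective (f := (QuotientGroup.mk' C).comp T.subtype) fun q => ?_
    obtain ⟨g, rfl⟩ := QuotientGroup.mk_surjective q
    have : g ∈ ((T ⊔ C : Subgroup K) : Set K) := h1 ▸ mem_top g
    rw [mul_normal] at this
    obtain ⟨t, ht, c, hc, rfl⟩ := this
    exact ⟨⟨t, ht⟩, by simp [(QuotientGroup.eq_one_iff c).2 hc]⟩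

end

section
variable {Γ : Type*} [Group Γ] [Finite Γ] {Z : Subgroup Γ} {μ : Z →* ℂˣ} {β : Γ → ℂ}

theorem CT.exists_pair (h : CT Z μ β) {C : Subgroup Γ} {m : Γ}
    (hc : ∀ c ∈ C, c * m * c⁻¹ * m⁻¹ ∈ Z) :
    ∃ f : C →* ℂˣ, ∀ c : C, f c = μ ⟨_, hc c c.2⟩ := by
  refine ⟨MonoidHom.mk' (fun c => μ ⟨_, hc c c.2⟩) fun c d => ?_, fun _ => rfl⟩
  rw [mul_comm, ← map_mul]
  congr 1
  apply Subtype.ext
  have := h.cen _ (hc d d.2) c
  change (c : Γ) * d * m * ((c : Γ) * d)⁻¹ * m⁻¹ = (d * m * (d : Γ)⁻¹ * m⁻¹) * (c * m * (c : Γ)⁻¹ * m⁻¹)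
  calc _ = (c * (d * m * (d : Γ)⁻¹ * m⁻¹)) * (m * (c : Γ)⁻¹ * m⁻¹) := by group
    _ = _ := by rw [this]; group

theorem CT.comm_of_pair (h : CT Z μ β) {c m : Γ} (hc : c * m * c⁻¹ * m⁻¹ ∈ Z)
    (e : μ ⟨_, hc⟩ = 1) : c * m = m * c := by
  rw [← map_one μ] at e
  simpa [mul_inv_eq_iff_eq_mul] using congrArg Subtype.val (h.inj e)

theorem CT.relIndex_le (h : CT Z μ β) {C M : Subgroup Γ} [M.Normal]
    (hc : ∀ m ∈ M, ∀ c ∈ C, c * m * c⁻¹ * m⁻¹ ∈ Z)
    (hn : ∀ m ∈ M, (∀ c ∈ C, c * m = m * c) → m ∈ Z) :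
    Z.relIndex M ≤ (𝒞(M)).relIndex C := by
  choose f hf using fun m : M => h.exists_pair (hc m m.2)
  let F : M → (C ⧸ (𝒞(M)).subgroupOf C →* ℂˣ) := fun m =>
    QuotientGroup.lift _ (f m) fun c hc' => by
      rw [MonoidHom.mem_ker, hf, ← map_one μ]
      congr 1
      have e : (m : Γ) * c = c * m := hc' m m.2
      exact Subtype.ext (by simp [← e])
  have h1 := H5.card_monoidHom_eq_index_commutator (G := C ⧸ (𝒞(M)).subgroupOf C)
  haveI : Finite (C ⧸ (𝒞(M)).subgroupOf C →* ℂˣ) :=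
    Nat.finite_of_card_ne_zero (h1 ▸ index_ne_zero_of_finite)
  refine le_trans ?_ (h1.le.trans (Nat.le_of_dvd Nat.card_pos (index_dvd_card _)))
  refine Nat.card_le_card_of_injective (fun q : M ⧸ Z.subgroupOf M => F q.out) fun a b e => ?_
  rw [← a.out_eq, ← b.out_eq, QuotientGroup.eq]
  refine hn _ (a.out⁻¹ * b.out).2 fun c hc' => ?_
  have h2 : f a.out ⟨c⁻¹, C.inv_mem hc'⟩ = f b.out ⟨c⁻¹, C.inv_mem hc'⟩ :=
    DFunLike.congr_fun e ((⟨c⁻¹, C.inv_mem hc'⟩ : C) : C ⧸ (𝒞(M)).subgroupOf C)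
  rw [hf, hf] at h2
  have h3 := congrArg Subtype.val (h.inj h2)
  change c⁻¹ * a.out * c⁻¹⁻¹ * (a.out : Γ)⁻¹ = c⁻¹ * b.out * c⁻¹⁻¹ * (b.out : Γ)⁻¹ at h3
  change c * ((a.out : Γ)⁻¹ * b.out) = (a.out : Γ)⁻¹ * b.out * c
  calc _ = (a.out : Γ)⁻¹ * c * (c⁻¹ * a.out * c⁻¹⁻¹ * (a.out : Γ)⁻¹) * b.out := by group
    _ = _ := by rw [h3]; group

end

/-- The induction hypothesis below `n`. -/
def IH6 (n : ℕ) : Prop :=
  ∀ (Γ : Type u) [Group Γ] [Finite Γ] (Q : Type v) [Group Q] [Finite Q] (ρ : Γ →* Q),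
    Function.Surjective ρ → Nat.card Q < n → Hyp6 Q → FR ρ.ker → Group.IsSolvable Q

variable {Γ : Type u} [Group Γ] [Finite Γ] {Q : Type v} [Group Q] [Finite Q] {ρ : Γ →* Q}
  {μ : ρ.ker →* ℂˣ} {β : Γ → ℂ}

theorem CT.solvable_of_abelian (h : CT ρ.ker μ β) (hρ : Function.Surjective ρ) (hQ : Hyp6 Q)
    (ih : IH6.{u, v} (Nat.card Q)) {N₀ : Subgroup Q} (hN₀ : N₀.Normal) (hs : Group.IsSolvable N₀)
    (h0 : N₀ ≠ ⊥) : Group.IsSolvable Q := by
  obtain ⟨N, p, hp, hN, h1, -, hab, hpN, -, hmin⟩ :=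
    H2.exists_minimal_normal_le_of_solvable N₀ hN₀ hs h0
  haveI := Fact.mk hp
  have hcm : ∀ a ∈ N, ∀ b ∈ N, a * b = b * a := fun a ha b hb => H2.mul_comm_of_mem hab ha hb
  haveI hNs : Group.IsSolvable N :=
    Group.isSolvable_of_comm fun a b => Subtype.ext (hcm a a.2 b b.2)
  let M := N.comap ρ
  have hZM : ρ.ker ≤ M := ker_le_comap ρ N
  have hN1 : 1 < Nat.card N := (one_lt_card_iff_ne_bot N).2 h1
  -- a normal subgroup `C` either is centralized by `M` or centralizes only `Z`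
  have dich : ∀ C : Subgroup Γ, C.Normal →
      (∀ m ∈ M, (∀ c ∈ C, c * m = m * c) → m ∈ ρ.ker) ∨ ∀ m ∈ M, ∀ c ∈ C, c * m = m * c := by
    intro C hC
    haveI : ((M ⊓ 𝒞(C)).map ρ).Normal := Normal.map inferInstance ρ hρ
    rcases hmin ((M ⊓ 𝒞(C)).map ρ) this (map_le_iff_le_comap.2 inf_le_left) with e | e
    · exact Or.inl fun m hm hc => (Subgroup.map_eq_bot_iff _).1 e ⟨hm, hc⟩
    · refine Or.inr fun m hm c hc => ?_
      obtain ⟨a, ha, e1⟩ : ρ m ∈ (M ⊓ 𝒞(C)).map ρ := e.symm ▸ hm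
      have h2 := h.cen (a⁻¹ * m) (by rw [MonoidHom.mem_ker, map_mul, map_inv, e1]; simp) c
      calc c * m = (c * a) * (a⁻¹ * m) := by group
        _ = a * (c * (a⁻¹ * m)) := by rw [ha.2 c hc]; group
        _ = m * c := by rw [h2]; group
  have hcomm : ∀ {x y : Γ}, ρ y * ρ x = ρ x * ρ y → y * x * y⁻¹ * x⁻¹ ∈ ρ.ker := fun {x y} e => by
    rw [MonoidHom.mem_ker, map_mul, map_mul, map_mul, map_inv, map_inv, e]; group
  rcases dich M inferInstance with hM | hM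
  · have h2 := h.fr_of_center hZM (fun x hx y hy => hcomm (hcm _ hy _ hx)) fun x hx hxZ => by
      by_contra hc
      push Not at hc
      exact hxZ (hM x hx hc)
    rw [Group.isSolvable_iff_subgroup_quotient N]
    refine ⟨hNs, ih Γ (Q ⧸ N) ((QuotientGroup.mk' N).comp ρ)
      ((QuotientGroup.mk'_surjective N).comp hρ) ?_
      (hQ.of_surjective _ (QuotientGroup.mk'_surjective N)) ?_⟩
    · rw [card_eq_card_quotient_mul_card_subgroup N]
      exact lt_mul_of_one_lt_right Nat.card_pos hN1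
    · rwa [← MonoidHom.comap_ker, QuotientGroup.ker_mk']
  obtain ⟨T, hMT, hTi, hfr, hD1, hD2⟩ := h.exists_inertia hZM fun x hx y hy => hM y hy x hx
  have hZi : ρ.ker.relIndex M = Nat.card N := by
    rw [relIndex_ker, map_comap_eq_self_of_surjective hρ]
  have hNT : N ≤ T.map ρ := by
    rw [← map_comap_eq_self_of_surjective hρ N]; exact map_mono hMT
  have hTs : Group.IsSolvable (T.map ρ) := by
    rw [Group.isSolvable_iff_subgroup_quotient (N.subgroupOf (T.map ρ))]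
    refine ⟨Group.isSolvable_of_isSolvable_injective (f := (subgroupOfEquivOfLe hNT).toMonoidHom)
      (subgroupOfEquivOfLe hNT).injective, ih T _
      ((QuotientGroup.mk' _).comp (ρ.subgroupMap T))
      ((QuotientGroup.mk'_surjective _).comp (ρ.subgroupMap_surjective T)) ?_
      ((hQ.subgroup _).of_surjective _ (QuotientGroup.mk'_surjective _)) ?_⟩
    · refine lt_of_lt_of_le ?_ (card_le_card_group (T.map ρ))
      rw [card_eq_card_quotient_mul_card_subgroup (N.subgroupOf (T.map ρ)),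
        Nat.card_congr (subgroupOfEquivOfLe hNT).toEquiv]
      exact lt_mul_of_one_lt_right Nat.card_pos hN1
    · rw [← MonoidHom.comap_ker, QuotientGroup.ker_mk']
      exact hfr
  let C := (𝒞(N)).comap ρ
  have hC : ∀ m ∈ M, ∀ c ∈ C, c * m * c⁻¹ * m⁻¹ ∈ ρ.ker := fun m hm c hc => hcomm (hc _ hm).symm
  rcases dich C inferInstance with hA | hA
  · have h2 := h.relIndex_le hC hA
    have h3 : (𝒞(M)).relIndex C = T.relIndex C := by
      rw [← inf_relIndex_right, ← inf_relIndex_right T]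
      congr 1
      ext g
      exact and_congr_left fun hg => ⟨fun h' => hD1 g fun m hm => (h' m hm).symm,
        fun h' m hm => (hD2 g h' m hm (hC m hm g hg)).symm⟩
    have h4 : T ⊔ C = ⊤ := by
      have h5 := relIndex_le_of_le_right (H := T) (le_sup_right : C ≤ T ⊔ C)
        index_ne_zero_of_finite
      have h6 := relIndex_mul_index (le_sup_left : T ≤ T ⊔ C)
      have h7 : 0 < (T ⊔ C).index := Nat.pos_of_ne_zero index_ne_zero_of_finite
      have h8 : 0 < T.index := Nat.pos_of_ne_zero index_ne_zero_of_finite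
      rw [← index_eq_one]
      rw [h3, ← hTi] at h2
      nlinarith
    refine solvable_of_sup_comm (C := 𝒞(N)) hTs ?_ fun a ha b hb => ?_
    · rw [← map_comap_eq_self_of_surjective hρ 𝒞(N), ← Subgroup.map_sup, h4, map_top_of_surjective _ hρ]
    · obtain ⟨a, rfl⟩ := hρ a
      obtain ⟨b, rfl⟩ := hρ b
      refine ⟨⁅a, b⁆, hD1 _ fun m hm => ?_, map_commutatorElement ρ a b⟩
      obtain ⟨f, hf⟩ := h.exists_pair (hC m hm)
      have h5 := hf ⁅(⟨a, ha⟩ : C), ⟨b, hb⟩⁆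
      rw [map_commutatorElement, commutatorElement_eq_one_iff_mul_comm.2 (mul_comm _ _)] at h5
      exact h.comm_of_pair _ h5.symm
  · exfalso
    refine hQ.not_dvd_index_cent hpN h1 (fun a ha b hb => hcm b hb a ha) ?_
    rw [← hZi, ← hTi, ← index_map_eq T hρ (hZM.trans hMT)]
    refine index_dvd_of_le fun c hc => ?_
    obtain ⟨c, rfl⟩ := hρ c
    exact ⟨c, hD1 c fun m hm => hA m hm c hc, rfl⟩

end Cfsg.Agent.H31
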