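import Cfsg.Agent.H35.B43
import Cfsg.Agent.H6.FrobSchur
import Cfsg.Agent.H16.CharTools

/-! Groups with a self-centralizing Sylow subgroup of prime order `p` and normalizer of order `2p`:
the principal block, and the case where the non-exceptional character has degree `p - 1`. -/

set_option autoImplicit false
set_option linter.unusedSectionVars false

namespace Cfsg.Agent.H31

open Subgroup Cfsg Cfsg.Agent.H35
open scoped ComplexConjugate

variable {G : Type*} [Group G] [Finite G] {p : ℕ} [hp : Fact p.Prime]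

/-- The principal block when `|N(P)| = 2p`, `C(P) = P`. -/
structure I2 (S : Setup G p) where
  /-- the block -/
  B : S.Blk fun _ => 1
  /-- the non-principal non-exceptional character -/
  χ : IrrCharacter G
  hV : Nat.card S.V = 1
  he : S.V.index = 2
  tr : triv G ∈ B.X
  mem : χ ∈ B.X
  ne : χ ≠ triv G

theorem exists_I2 (S : Setup G p) (hV : Nat.card S.V = 1) (he : S.V.index = 2) :
    Nonempty (I2 S) := by
  obtain ⟨B, hB⟩ := S.exists_principal
  obtain ⟨χ, h1, h2⟩ := Finset.exists_mem_ne (s := B.X) (by rw [B.cardX', he]; norm_num) (triv G)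
  exact ⟨⟨B, χ, hV, he, hB, h1, h2⟩⟩

theorem eq_sum_of_degree [Fintype G] {A : G → ℂ} (hA : IsCharacter G A)
    (T : Finset (IrrCharacter G)) (h : ∀ χ ∈ T, classInner A χ ≠ 0)
    (hd : A 1 = ∑ χ ∈ T, (χ : G → ℂ) 1) : A = ∑ χ ∈ T, (χ : G → ℂ) := by
  classical
  induction T using Finset.induction_on generalizing A with
  | empty => simpa using H5.eq_zero_of_degree_eq_zero hA (by simpa using hd)
  | insert ψ T hψ ih =>
    rw [Finset.sum_insert hψ] at hd ⊢
    have h1 := H5.isCharacter_sub_of_constituent hA ψ.2 (h ψ (Finset.mem_insert_self _ _))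
    rw [← ih h1 (fun χ hχ => ?_) (by rw [Pi.sub_apply, hd]; ring)]
    · ring
    · rw [H5.classInner_sub_left, H5.classInner_irrCharacter, if_neg (by rintro rfl; exact hψ hχ),
        sub_zero]
      exact h χ (Finset.mem_insert_of_mem hχ)

namespace I2

variable {S : Setup G p} (I : I2 S)

theorem X_eq [DecidableEq (IrrCharacter G)] : I.B.X = {triv G, I.χ} := by
  symm
  refine Finset.eq_of_subset_of_card_le ?_ ?_
  · intro ψ hψ
    rcases Finset.mem_insert.1 hψ with rfl | h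
    · exact I.tr
    · rw [Finset.mem_singleton.1 h]; exact I.mem
  · rw [I.B.cardX', I.he, Finset.card_pair I.ne.symm]

theorem mem_X {ψ : IrrCharacter G} (h : ψ ∈ I.B.X) : ψ = triv G ∨ ψ = I.χ := by
  classical
  rw [I.X_eq] at h
  simpa using h

include I in
theorem ne_two : p ≠ 2 := by
  rintro rfl
  have := S.index_dvd_pred
  rw [I.he] at this
  omega

theorem cardY : I.B.Y.card * 2 = p - 1 := I.he ▸ I.B.cardY'

theorem reg {φ : IrrCharacter G} (hφ : φ ∈ I.B.Y) {g : G} (hg : ¬ p ∣ orderOf g) :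
    I.B.ε * (φ : G → ℂ) g = 1 + I.B.δ I.χ * (I.χ : G → ℂ) g := by
  classical
  rw [I.B.reg φ hφ g hg, I.X_eq, Finset.sum_pair I.ne.symm, I.B.δ_triv I.tr, triv_apply]
  simp

theorem valχ {i : ZMod p} (hi : i ≠ 0) : (I.χ : G → ℂ) (S.xp i) = I.B.δ I.χ :=
  I.B.valX' I.mem hi

include I in
theorem mem_autH {h : (ZMod p)ˣ} : h ∈ S.autH (fun _ => 1) ↔ h = 1 ∨ h = -1 := by
  have hc : Nat.card (S.autH fun _ => 1) = 2 := S.card_autH_one.trans I.he
  have h1 : ∀ k ∈ S.autH (fun _ => 1), k = 1 ∨ k = -1 := fun k hk => by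
    have : k ^ 2 = 1 := by
      have := pow_card_eq_one' (x := (⟨k, hk⟩ : S.autH fun _ => 1))
      rw [hc] at this
      exact congrArg Subtype.val this
    have h2 : (k : ZMod p) ^ 2 = 1 := by rw [← Units.val_pow_eq_pow_val, this, Units.val_one]
    rcases mul_self_eq_one_iff.1 ((pow_two _).symm.trans h2) with e | e
    · exact Or.inl (Units.ext e)
    · exact Or.inr (Units.ext e)
  refine ⟨h1 h, ?_⟩
  rintro (rfl | rfl)
  · exact one_mem _
  · obtain ⟨k, hk, hk1⟩ := (S.autH fun _ => 1).bot_or_exists_ne_one.resolve_left (by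
      intro e; rw [e, card_bot] at hc; omega)
    exact (h1 k hk).resolve_left hk1 ▸ hk

theorem valY {φ : IrrCharacter G} (hφ : φ ∈ I.B.Y) {i : ZMod p} (hi : i ≠ 0) :
    (φ : G → ℂ) (S.xp i) =
      I.B.ε * (ech p (I.B.α φ * i) + ech p (-(I.B.α φ * i))) := by
  classical
  rw [I.B.valY' hφ hi]
  congr 1
  have hne : (1 : (ZMod p)ˣ) ≠ -1 := fun e => by
    have h1 : (1 : ZMod p) = -1 := by simpa using congrArg Units.val e
    have h2 : ((2 : ℕ) : ZMod p) = 0 := by
      rw [Nat.cast_ofNat, ← one_add_one_eq_two]; nth_rewrite 1 [h1]; ring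
    rw [ZMod.natCast_eq_zero_iff] at h2
    exact I.ne_two ((Nat.prime_dvd_prime_iff_eq hp.out Nat.prime_two).1 h2)
  rw [← Finset.sum_subtype (s := {1, -1}) (p := (· ∈ S.autH fun _ => 1))
    (fun h => by rw [I.mem_autH]; simp) (fun h : (ZMod p)ˣ => ech p (I.B.α φ * h * i)),
    Finset.sum_pair hne]
  simp

include I in
theorem inner_zero [Fintype G] {F f : G → ℂ} (hF : IsClassFunction G F) (hf : IsClassFunction G f)
    (h1 : ∀ i, i ≠ 0 → F (S.xp i) = 0) (h2 : ∀ g, ¬ p ∣ orderOf g → f g = 0) :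
    classInner F f = 0 := by
  apply mul_left_cancel₀ S.cardN_ne_zero
  rw [S.classInner_singular hF hf fun g hg => Or.inr (h2 g hg), mul_zero]
  refine Finset.sum_eq_zero fun i hi => Finset.sum_eq_zero fun v _ => ?_
  have hv : (v : S.K) = 1 := mem_bot.1 (S.V_eq_bot I.hV ▸ v.2)
  rw [hv, OneMemClass.coe_one, mul_one, h1 i (Finset.ne_of_mem_erase hi), zero_mul]

theorem inner_Y [Fintype G] {F : G → ℂ} (hF : IsClassFunction G F)
    (h1 : ∀ i, i ≠ 0 → F (S.xp i) = 0) {φ ψ : IrrCharacter G} (hφ : φ ∈ I.B.Y) (hψ : ψ ∈ I.B.Y) :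
    classInner F φ = classInner F ψ := by
  rw [← sub_eq_zero, ← H5.classInner_sub_right]
  refine I.inner_zero hF (fun g k => ?_) h1 fun g hg => ?_
  · simp [H5.isClassFunction_of_isIrr φ.2 g k, H5.isClassFunction_of_isIrr ψ.2 g k]
  · rw [Pi.sub_apply, I.B.eq_on_regular hφ hψ hg, sub_self]

theorem inner_rel [Fintype G] {F : G → ℂ} (hF : IsClassFunction G F)
    (h1 : ∀ i, i ≠ 0 → F (S.xp i) = 0) {φ : IrrCharacter G} (hφ : φ ∈ I.B.Y) :
    I.B.ε * classInner F φ = classInner F (triv G) + I.B.δ I.χ * classInner F I.χ := by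
  have := I.inner_zero hF (f := I.B.ε • (φ : G → ℂ) - ((triv G : G → ℂ) + I.B.δ I.χ • (I.χ : G → ℂ)))
    (fun g k => by
      simp [H5.isClassFunction_of_isIrr φ.2 g k, H5.isClassFunction_of_isIrr I.χ.2 g k, triv_apply])
    h1 fun g hg => by
      have := I.reg hφ hg
      simp only [Pi.sub_apply, Pi.add_apply, zsmul_eq_mul, triv_apply, Pi.mul_apply,
        Pi.intCast_apply]
      rw [this, sub_self]
  rwa [H5.classInner_sub_right, H5.classInner_add_right, H5.classInner_zsmul_right,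
    H5.classInner_zsmul_right, sub_eq_zero] at this

theorem degree_eq {φ : IrrCharacter G} (hφ : φ ∈ I.B.Y) :
    I.B.ε * (charDegree (φ : G → ℂ) : ℤ) = 1 + I.B.δ I.χ * charDegree (I.χ : G → ℂ) := by
  have := I.reg hφ (g := 1) (by simpa using hp.out.ne_one)
  rw [cast_degree_irr, cast_degree_irr] at this
  exact_mod_cast this

theorem deg_mod : (p : ℤ) ∣ I.B.δ I.χ - charDegree (I.χ : G → ℂ) := (I.B.degX' I.mem).dvd

/-- exceptional characters are rational on regular elements -/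
theorem exists_int {φ : IrrCharacter G} (hφ : φ ∈ I.B.Y) (h1 : charDegree (φ : G → ℂ) ≠ 1)
    {g : G} (hg : ¬ p ∣ orderOf g) : ∃ a : ℤ, (φ : G → ℂ) g = a := by
  refine H16.exists_int_of_gal φ g fun τ => ?_
  have hd : charDegree (H16.gal τ φ : G → ℂ) = charDegree (φ : G → ℂ) := H16.dg_gal τ φ
  have he := I.degree_eq hφ
  have hm := (I.B.degY' hφ).dvd
  rw [I.he] at hm
  have hnd : ¬ p ∣ charDegree (φ : G → ℂ) := fun h => by
    have h2 : (p : ℤ) ∣ I.B.ε * (2 : ℕ) := by
      simpa using dvd_add hm (Int.natCast_dvd_natCast.2 h)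
    have h3 : (p : ℤ) ∣ (2 : ℕ) := by
      rcases I.B.ε_sign with e | e <;> simpa [e] using h2
    exact I.ne_two ((Nat.prime_dvd_prime_iff_eq hp.out Nat.prime_two).1
      (Int.natCast_dvd_natCast.1 h3))
  rcases I.B.mem_of_not_dvd I.hV (hd ▸ hnd) with h | h
  · exfalso
    rcases I.mem_X h with e | e
    · rw [e, degree_triv] at hd; exact h1 hd.symm
    · rw [e] at hd
      rw [hd] at he
      have := degree_pos φ
      rcases I.B.ε_sign with e1 | e1 <;> rcases I.B.δ_sign _ I.mem with e2 | e2 <;>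
        rw [e1, e2] at he <;> omega
  · exact I.B.eq_on_regular h hφ hg

/-- `Λ² φ` is the sum of all exceptional characters but one. -/
theorem alt_sq (hd : charDegree (I.χ : G → ℂ) = p - 1) (h3 : 3 < p) {φ : IrrCharacter G}
    (hφ : φ ∈ I.B.Y) : I.B.δ I.χ = -1 ∧ I.B.ε = -1 ∧ charDegree (φ : G → ℂ) = p - 2 ∧
      ∀ g, ¬ p ∣ orderOf g → (φ : G → ℂ) g ^ 2 - (φ : G → ℂ) (g * g) = (p - 3) * (φ : G → ℂ) g := by
  classical
  have := Fintype.ofFinite G
  have hδ : I.B.δ I.χ = -1 := by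
    refine (I.B.δ_sign _ I.mem).resolve_left fun e => ?_
    have := I.deg_mod
    rw [e, hd] at this
    have h2 : (p : ℤ) ∣ (2 : ℕ) := by
      have h4 := dvd_add this (dvd_refl (p : ℤ))
      rwa [show (1 : ℤ) - (p - 1 : ℕ) + p = (2 : ℕ) by push_cast [Nat.cast_sub hp.out.one_le]; ring]
        at h4
    have := Nat.le_of_dvd two_pos (Int.natCast_dvd_natCast.1 h2)
    omega
  have hdeg : ∀ ψ ∈ I.B.Y, I.B.ε = -1 ∧ charDegree (ψ : G → ℂ) = p - 2 := fun ψ hψ => by
    have := I.degree_eq hψ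
    rw [hδ, hd] at this
    rcases I.B.ε_sign with e | e <;> rw [e] at this ⊢ <;> omega
  obtain ⟨hε, hφd⟩ := hdeg φ hφ
  refine ⟨hδ, hε, hφd, fun g hg => ?_⟩
  have h2 : (2 : ZMod p) ≠ 0 := fun e => by
    have : ((2 : ℕ) : ZMod p) = 0 := by simpa using e
    rw [ZMod.natCast_eq_zero_iff] at this
    have := Nat.le_of_dvd two_pos this
    omega
  obtain ⟨φ', ⟨hφ', h, hh, e⟩, -⟩ := I.B.orb (Units.mk0 2 h2 * I.B.α φ)
  have e' : (2 : ZMod p) * I.B.α φ = I.B.α φ' * h := by simpa using congrArg Units.val e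
  have hval : ∀ i, i ≠ 0 → (φ' : G → ℂ) (S.xp i) =
      -(ech p (2 * I.B.α φ * i) + ech p (-(2 * I.B.α φ * i))) := fun i hi => by
    rw [I.valY hφ' hi, hε, e']
    rcases I.mem_autH.1 hh with rfl | rfl <;> simp [add_comm]
  have hA := H6.isCharacter_altSq (H5.isCharacter_of_isIrr φ.2)
  have hF : ∀ i : ZMod p, i ≠ 0 → ((fun g => ((φ : G → ℂ) g ^ 2 - (φ : G → ℂ) (g * g)) / 2) -
      (triv G : G → ℂ) + (φ' : G → ℂ) : G → ℂ) (S.xp i) = 0 := fun i hi => by
    have hi2 : i + i ≠ 0 := by rw [← two_mul]; exact mul_ne_zero h2 hi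
    simp only [Pi.add_apply, Pi.sub_apply, triv_apply]
    rw [← S.xp_add, hval i hi, I.valY hφ hi, I.valY hφ hi2, hε]
    have k1 : ech p (I.B.α φ * i) * ech p (-(I.B.α φ * i)) = 1 := by
      rw [← AddChar.map_add_eq_mul, add_neg_cancel, AddChar.map_zero_eq_one]
    have k2 : ech p (2 * I.B.α φ * i) = ech p (I.B.α φ * i) ^ 2 := by
      rw [ech_pow]; congr 1; push_cast; ring
    have k3 : ech p (-(2 * I.B.α φ * i)) = ech p (-(I.B.α φ * i)) ^ 2 := by
      rw [ech_pow]; congr 1; push_cast; ring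
    rw [show (I.B.α φ : ZMod p) * (i + i) = 2 * I.B.α φ * i by ring, k2, k3]
    push_cast
    linear_combination k1
  have hcl : IsClassFunction G ((fun g => ((φ : G → ℂ) g ^ 2 - (φ : G → ℂ) (g * g)) / 2) -
      (triv G : G → ℂ) + (φ' : G → ℂ)) := fun g k => by
    have := H5.isClassFunction_of_isCharacter hA g k
    simp only [Pi.add_apply, Pi.sub_apply, triv_apply, H5.isClassFunction_of_isIrr φ'.2 g k]
    rw [this]
  have hsum := eq_sum_of_degree hA (I.B.Y.erase φ') (fun ψ hψ => by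
    have k := I.inner_Y hcl hF (Finset.mem_of_mem_erase hψ) hφ'
    obtain ⟨n, hn⟩ := H5.exists_nat_classInner hA (H5.isCharacter_of_isIrr φ'.2)
    simp only [H5.classInner_add_left, H5.classInner_sub_left, H5.classInner_irrCharacter] at k
    rw [if_neg (I.B.ne_triv_of_mem_Y I.tr (Finset.mem_of_mem_erase hψ)).symm,
      if_neg (Finset.ne_of_mem_erase hψ).symm, if_neg (I.B.ne_triv_of_mem_Y I.tr hφ').symm,
      if_pos trivial, hn] at k
    rw [show classInner _ _ = ((n + 1 : ℕ) : ℂ) by push_cast; linear_combination k]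
    exact Nat.cast_ne_zero.2 n.succ_ne_zero) (by
    rw [Finset.sum_congr rfl fun ψ hψ => by
      rw [cast_degree_irr, (hdeg ψ (Finset.mem_of_mem_erase hψ)).2], Finset.sum_const,
      Finset.card_erase_of_mem hφ', mul_one, cast_degree_irr, hφd, nsmul_eq_mul]
    have k1 := I.cardY
    obtain ⟨c, hc⟩ : ∃ c, I.B.Y.card = c + 1 := ⟨I.B.Y.card - 1, by omega⟩
    rw [hc, Nat.add_sub_cancel, show p - 2 = 2 * c + 1 by omega]
    push_cast; ring)
  have k := congrFun hsum g
  rw [Finset.sum_apply, Finset.sum_congr rfl fun ψ hψ =>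
    I.B.eq_on_regular (Finset.mem_of_mem_erase hψ) hφ hg, Finset.sum_const,
    Finset.card_erase_of_mem hφ', nsmul_eq_mul] at k
  have k1 := I.cardY
  obtain ⟨c, hc⟩ : ∃ c, I.B.Y.card = c + 1 := ⟨I.B.Y.card - 1, by omega⟩
  rw [hc, Nat.add_sub_cancel] at k
  rw [show p = 2 * c + 3 by omega]
  push_cast
  linear_combination 2 * k

end I2

end Cfsg.Agent.H31
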