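import Cfsg.Agent.H31.Idx2
import Cfsg.Agent.S0494
import Cfsg.Agent.S0252

/-! `|N(P)| = 2p`, `C(P) = P`, a character of degree `p - 1` in the principal block:
`G ≅ PSL₂(p - 1)`. -/

set_option autoImplicit false
set_option linter.unusedSectionVars false

namespace Cfsg.Agent.H31

open Subgroup Cfsg Cfsg.Agent.H35
open scoped MatrixGroups

variable {G : Type*} [Group G] [Finite G] {p : ℕ} [hp : Fact p.Prime]

theorem card_dvd_of_const (Q : Subgroup G) {A : G → ℂ} (hA : IsCharacter G A) {c : ℤ} {n : ℕ}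
    (hn : A 1 = n) (h : ∀ g ∈ Q, g ≠ 1 → A g = c) : (Nat.card Q : ℤ) ∣ n - c := by
  have := card_dvd_of_vanish Q (Finset.univ : Finset Bool) (fun b => if b then 1 else -c)
    (fun b => if b then A else fun _ => 1)
    (fun b _ => by cases b <;> simp [hA, H5.isCharacter_one]) (fun g hg h1 => by simp [h g hg h1])
  simpa [charDegree_eq hn, charDegree_eq (χ := fun _ : G => (1 : ℂ)) (n := 1) (by simp),
    sub_eq_add_neg] using this

theorem orderOf_of_card_pow {Q : Subgroup G} {r k : ℕ} (hr : r.Prime) (hQ : Nat.card Q = r ^ k)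
    {g : G} (hg : g ∈ Q) (h1 : g ≠ 1) : ∃ j, orderOf g = r ^ (j + 1) := by
  obtain ⟨j, -, hj⟩ := (Nat.dvd_prime_pow hr).1 (hQ ▸ Q.orderOf_dvd_natCard hg)
  cases j with
  | zero => exact absurd (orderOf_eq_one_iff.1 hj) h1
  | succ j => exact ⟨j, hj⟩

namespace I2

variable {S : Setup G p} (I : I2 S) (hd : charDegree (I.χ : G → ℂ) = p - 1) (h3 : 3 < p)
  (hO : ∀ H : Subgroup G, H.Normal → ¬ p ∣ Nat.card H → H = ⊥) {φ : IrrCharacter G}
  (hφ : φ ∈ I.B.Y)

include hd h3 hO hφ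

theorem faith {g : G} (hg : ¬ p ∣ orderOf g) (h : (φ : G → ℂ) g = p - 2) : g = 1 := by
  obtain ⟨hδ, hε, -, -⟩ := I.alt_sq hd h3 hφ
  have h1 : (I.χ : G → ℂ) 1 = p - 1 := by
    rw [cast_degree_irr, hd, Nat.cast_sub hp.out.one_le, Nat.cast_one]
  refine S.faithful_of hO (H5.isCharacter_of_isIrr I.χ.2) ?_ g ?_
  · rw [← S.xp_one, I.valχ one_ne_zero, hδ, h1]
    intro e
    have : (p : ℂ) = 0 := by push_cast at e; linear_combination -e
    exact natCast_prime_ne_zero this
  · have := I.reg hφ hg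
    rw [hε, hδ, h] at this
    rw [h1]
    push_cast at this
    linear_combination this

theorem val_odd {g : G} (hg : ¬ p ∣ orderOf g) (ho : Odd (orderOf g)) (h1 : g ≠ 1) :
    (φ : G → ℂ) g = 0 := by
  obtain ⟨-, -, hφd, h⟩ := I.alt_sq hd h3 hφ
  obtain ⟨a, ha⟩ := I.exists_int hφ (by omega) hg
  have h2 := H7.character_pow_eq_of_rat (H5.isCharacter_of_isIrr φ.2) (q := a) (by simpa using ha)
    (m := 2) (Nat.coprime_two_left.2 ho)
  have h4 := h g hg
  rw [← pow_two g, h2] at h4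
  have h5 : (φ : G → ℂ) g * ((φ : G → ℂ) g - (p - 2)) = 0 := by linear_combination h4
  exact (mul_eq_zero.1 h5).resolve_right fun e => h1 (I.faith hd h3 hO hφ hg (sub_eq_zero.1 e))

theorem val_two {j : ℕ} {g : G} (hg : orderOf g = 2 ^ (j + 1)) :
    (φ : G → ℂ) g = -1 ∨ (p = 5 ∧ (φ : G → ℂ) g = 1) := by
  obtain ⟨-, -, hφd, h⟩ := I.alt_sq hd h3 hφ
  induction j generalizing g with
  | zero =>
    have hr : ¬ p ∣ orderOf g := fun e => by
      have := Nat.le_of_dvd (by rw [hg]; positivity) e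
      omega
    have h4 := h g hr
    rw [← pow_two g, show g ^ 2 = 1 by rw [← pow_orderOf_eq_one g, hg]; rfl, cast_degree_irr, hφd,
      Nat.cast_sub (by omega)] at h4
    have h5 : ((φ : G → ℂ) g + 1) * ((φ : G → ℂ) g - (p - 2)) = 0 := by
      push_cast at h4; linear_combination h4
    refine Or.inl (eq_neg_of_add_eq_zero_left ((mul_eq_zero.1 h5).resolve_right fun e => ?_))
    rw [I.faith hd h3 hO hφ hr (sub_eq_zero.1 e), orderOf_one] at hg
    omega
  | succ j ih =>
    have hr : ¬ p ∣ orderOf g := fun e => by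
      have := Nat.le_of_dvd two_pos (hp.out.dvd_of_dvd_pow (hg ▸ e))
      omega
    have h4 := h g hr
    have hg2 : orderOf (g * g) = 2 ^ (j + 1) := by
      rw [← pow_two, orderOf_pow' g two_ne_zero, hg, pow_succ 2 (j + 1), Nat.gcd_mul_left_left,
        Nat.mul_div_cancel _ two_pos]
    obtain ⟨a, ha⟩ := I.exists_int hφ (by omega) hr
    rw [ha] at h4 ⊢
    rcases ih hg2 with e | ⟨e, e'⟩
    · rw [e] at h4
      have h5 : a * (p - 3 - a) = 1 := by exact_mod_cast (by linear_combination -h4 :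
        (a : ℂ) * (p - 3 - a) = 1)
      rcases Int.eq_one_or_neg_one_of_mul_eq_one' h5 with ⟨k1, k2⟩ | ⟨k1, k2⟩
      · exact Or.inr ⟨by omega, by simp [k1]⟩
      · omega
    · exfalso
      rw [e', e] at h4
      have h5 : a * (a - 2) = 1 := by exact_mod_cast (by push_cast at h4; linear_combination h4 :
        (a : ℂ) * (a - 2) = 1)
      rcases Int.eq_one_or_neg_one_of_mul_eq_one' h5 with ⟨k1, k2⟩ | ⟨k1, k2⟩ <;> omega

theorem card_lt : Nat.card G < p ^ 3 := by
  obtain ⟨-, -, hφd, -⟩ := I.alt_sq hd h3 hφ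
  have hφc := H5.isCharacter_of_isIrr φ.2
  have h1 : (φ : G → ℂ) 1 = (p - 2 : ℕ) := by rw [cast_degree_irr, hφd]
  have key : ∀ n, (∀ Q : Subgroup G, (∃ k, Nat.card Q = 2 ^ k) → Nat.card Q ∣ n) →
      Nat.card G ∣ p * n * (p - 2) := fun n hn => by
    rw [Nat.dvd_iff_prime_pow_dvd_dvd]
    intro r k hr hk
    haveI := Fact.mk hr
    obtain ⟨Q, hQ⟩ := Sylow.exists_subgroup_card_pow_prime r hk
    by_cases hrp : r = p
    · subst hrp
      have : k ≤ 1 := by
        by_contra! hk2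
        exact S.hsq ((pow_dvd_pow _ hk2).trans hk)
      exact ((pow_dvd_pow _ this).trans (by simp)).trans
        ((dvd_mul_right r n).trans (dvd_mul_right _ _))
    by_cases hr2 : r = 2
    · subst hr2
      exact ((hQ ▸ hn Q ⟨k, hQ⟩).trans (dvd_mul_left n p)).trans (dvd_mul_right _ _)
    refine Dvd.dvd.trans ?_ (dvd_mul_left _ _)
    have := card_dvd_of_const Q hφc h1 (c := 0) fun g hg hg1 => by
      obtain ⟨j, hj⟩ := orderOf_of_card_pow hr hQ hg hg1
      rw [I.val_odd hd h3 hO hφ (fun e => hrp ((Nat.prime_dvd_prime_iff_eq hp.out hr).1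
        (hp.out.dvd_of_dvd_pow (hj ▸ e))).symm) (hj ▸ (hr.odd_of_ne_two hr2).pow) hg1]
      simp
    rw [sub_zero, hQ] at this
    exact Int.natCast_dvd_natCast.1 this
  by_cases h5 : p = 5
  · have := key 8 (by
      rintro Q ⟨k, hQ⟩
      have := card_dvd_of_const Q (H5.isCharacter_mul hφc hφc) (n := 9) (c := 1)
        (by rw [Pi.mul_apply, h1, h5]; norm_num) fun g hg hg1 => by
          obtain ⟨j, hj⟩ := orderOf_of_card_pow Nat.prime_two hQ hg hg1
          rcases I.val_two hd h3 hO hφ hj with e | ⟨-, e⟩ <;> simp [e]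
      exact Int.natCast_dvd_natCast.1 this)
    have := Nat.le_of_dvd (by rw [h5]; norm_num) this
    rw [h5] at this ⊢
    omega
  · have := key (p - 1) (by
      rintro Q ⟨k, hQ⟩
      have := card_dvd_of_const Q hφc h1 (c := -1) fun g hg hg1 => by
        obtain ⟨j, hj⟩ := orderOf_of_card_pow Nat.prime_two hQ hg hg1
        rw [(I.val_two hd h3 hO hφ hj).resolve_right fun e => h5 e.1]
        simp
      rw [show ((p - 2 : ℕ) : ℤ) - -1 = (p - 1 : ℕ) by omega] at this
      exact Int.natCast_dvd_natCast.1 this)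
    obtain ⟨q, rfl⟩ : ∃ q, p = q + 2 := ⟨p - 2, by omega⟩
    have := Nat.le_of_dvd (Nat.mul_pos (Nat.mul_pos (by omega) (by omega)) (by omega)) this
    simp only [show q + 2 - 1 = q + 1 from rfl, Nat.add_sub_cancel] at this
    nlinarith [Nat.zero_le (q ^ 2), Nat.zero_le (q ^ 3)]

end I2

/-- The identification. -/
theorem I2.psl2 {S : Setup G p} (I : I2 S) (hd : charDegree (I.χ : G → ℂ) = p - 1) (h3 : 3 < p)
    [IsSimpleGroup G] (hG : commutator G = ⊤) :
    Nat.card G = p * (p - 1) * (p - 2) ∧ ∃ (m : ℕ) (F : Type) (_ : Field F) (_ : Fintype F),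
      Fintype.card F = 2 ^ m ∧ p = 2 ^ m + 1 ∧ Nonempty (G ≃* PSL(2, F)) := by
  have hpG : p ∣ Nat.card G := S.hx ▸ orderOf_dvd_natCard S.x
  have hO : ∀ H : Subgroup G, H.Normal → ¬ p ∣ Nat.card H → H = ⊥ := fun H hH h =>
    (hH.eq_bot_or_eq_top).resolve_right fun e => h (by rw [e, card_top]; exact hpG)
  obtain ⟨φ, hφ⟩ := I.B.nonempty_Y
  obtain ⟨-, h | h⟩ := S.brauer43_core hG (hO _ inferInstance Setup.not_dvd_core)
    (S.not_bForm_of_lt_cube hG (I.card_lt hd h3 hO hφ))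
  · obtain ⟨-, -, hφd, -⟩ := I.alt_sq hd h3 hφ
    have h1 : p - 2 ∣ 2 * Nat.card G := 
      (hφd.symm.dvd.trans (H16.dg_dvd φ)).trans (dvd_mul_left _ _)
    rw [h.1] at h1
    obtain ⟨q, rfl⟩ : ∃ q, p = q + 2 := ⟨p - 2, by omega⟩
    simp only [show q + 2 - 1 = q + 1 from rfl, Nat.add_sub_cancel] at h1 h ⊢
    have h2 : q ∣ 6 := by
      rw [show (q + 2) * (q + 1) * (q + 2 + 1) = q * (q ^ 2 + 6 * q + 11) + 6 by ring] at h1
      exact (Nat.dvd_add_right (dvd_mul_right _ _)).1 h1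
    have h4 : q = 3 := by
      have := Nat.le_of_dvd (by norm_num) h2
      have h5 := hp.out
      interval_cases q <;> first | omega | exact absurd h5 (by norm_num)
    subst h4
    have hc : Nat.card G = 60 := by omega
    obtain ⟨e⟩ := S0494.result hc
    haveI : Fact (Nat.Prime 2) := ⟨Nat.prime_two⟩
    haveI : Fintype (GaloisField 2 2) := Fintype.ofFinite _
    have hF : Fintype.card (GaloisField 2 2) = 4 := by
      rw [← Nat.card_eq_fintype_card, GaloisField.card 2 2 two_ne_zero]; rfl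
    obtain ⟨e'⟩ := S0252.result hF
    exact ⟨hc, 2, GaloisField 2 2, inferInstance, inferInstance, hF, rfl, ⟨e.trans e'.symm⟩⟩
  · exact h

end Cfsg.Agent.H31
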