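import Cfsg.Agent.H31.Idx2b
import Cfsg.Agent.H76.SelfCent
import Cfsg.Agent.H25.PermMod

/-! `|N(P)| = 2p`: set-up and decomposition of permutation characters. -/

set_option autoImplicit false
set_option linter.unusedSectionVars false

namespace Cfsg.Agent.H31

open Subgroup Cfsg Cfsg.Agent.H35 Cfsg.Agent.H49

variable {G : Type*} [Group G] [Finite G] {p : ℕ} [hp : Fact p.Prime]

theorem card_sylow_of_norm (h2 : 2 < p) (P : Sylow p G) (hd : p ∣ Nat.card G)
    (hN : Nat.card 𝒩((P : Subgroup G)) = 2 * p) : Nat.card (P : Subgroup G) = p := by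
  obtain ⟨k, hk⟩ := P.isPGroup'.exists_card_eq
  have h1 : p ^ k ∣ 2 * p := hk ▸ hN ▸ card_dvd_of_le le_normalizer
  have h3 : p ∣ p ^ k := hk ▸ (sylowOf_top hp.out P).dvd_card hp.out rfl (by rwa [card_top])
  rw [hk]
  rcases k with _ | _ | k
  · exact absurd (Nat.le_of_dvd one_pos h3) (by omega)
  · simp
  · rw [pow_succ] at h1
    have h4 := (dvd_pow_self p k.succ_ne_zero).trans (Nat.dvd_of_mul_dvd_mul_right hp.out.pos h1)
    exact absurd (Nat.le_of_dvd two_pos h4) (by omega)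

theorem simple_of_norm (h2 : 2 < p) (P : Sylow p G) (hd : p ∣ Nat.card G)
    (hN : Nat.card 𝒩((P : Subgroup G)) = 2 * p)
    (h : ∀ M : Subgroup G, M.Normal → M ≠ ⊥ → p ∣ Nat.card M ∧ Nat.card M ≠ p) :
    IsSimpleGroup G := by
  have hP := card_sylow_of_norm h2 P hd hN
  have hS := sylowOf_top hp.out P
  haveI : Nontrivial G := Finite.one_lt_card_iff_nontrivial.1
    (lt_of_lt_of_le hp.out.one_lt (Nat.le_of_dvd Nat.card_pos hd))
  refine ⟨fun M hM => ?_⟩
  by_contra! hne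
  have hMn : ⊤ ≤ 𝒩(M) := normal_iff_top_le_norm.1 hM
  have h1 := hS.inf_normal le_top hMn
  have hPM : (P : Subgroup G) ≤ M := by
    rcases inf_eq_bot_or_le_of_prime_card (hP ▸ hp.out) M with e | e
    · exact absurd e (h1.ne_bot hp.out rfl (h M hM hne.1).1)
    · exact e
  rw [inf_eq_left.2 hPM] at h1
  have hfr := frattini_arg le_top hMn h1
  have h3 : M ⊓ 𝒩((P : Subgroup G)) = P := by
    have k1 : (P : Subgroup G) ≤ M ⊓ 𝒩((P : Subgroup G)) := le_inf hPM le_normalizer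
    have k2 : Nat.card ↥(M ⊓ 𝒩((P : Subgroup G))) ∣ 2 * p := hN ▸ card_dvd_of_le inf_le_right
    obtain ⟨c, hc⟩ := card_dvd_of_le k1
    rw [hc, hP, mul_comm] at k2
    rcases (Nat.dvd_prime Nat.prime_two).1 (Nat.dvd_of_mul_dvd_mul_right hp.out.pos k2) with e | e
    · exact (eq_of_le_of_card_eq k1 (by rw [hc, e, mul_one])).symm
    · exfalso
      have k3 := eq_of_le_of_card_eq (inf_le_right : M ⊓ 𝒩((P : Subgroup G)) ≤ _)
        (by rw [hc, e, hP, hN, mul_comm])
      exact hne.2 (top_le_iff.1 (hfr.sup_eq.ge.trans (sup_le le_rfl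
        (inf_le_right.trans (k3.ge.trans inf_le_left)))))
  haveI : IsCyclic (P : Subgroup G) := isCyclic_of_prime_card hP
  obtain ⟨K, k1, k2, k3, k4⟩ := H76.exists_compl_of_burnside hp.out h1
    (h3.le.trans (abelian_iff.1 (abelian_of_cyclic inferInstance)))
  have hK : IsPiHallOf {p}ᶜ K M := hall_mk k1 ((isPi_compl_singleton hp.out).2 k4) (by
    have := card_mul_relIndex k1
    rw [← k3, hP] at this
    rw [Nat.eq_of_mul_eq_mul_left (card_pos' K) this, compl_compl]
    exact (isPiNat_prime hp.out).2 rfl)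
  by_cases hK0 : K = ⊥
  · rw [hK0, card_bot, one_mul, hP] at k3
    exact (h M hM hne.1).2 k3.symm
  · exact k4 (h K (normal_iff_top_le_norm.2 (hMn.trans (hK.norm_of_normal k2))) hK0).1

theorem exists_I2_of_simple [IsSimpleGroup G] (h2 : 2 < p) (P : Sylow p G) (hd : p ∣ Nat.card G)
    (hN : Nat.card 𝒩((P : Subgroup G)) = 2 * p) :
    commutator G = ⊤ ∧ ∃ S : Setup G p, Nonempty (I2 S) := by
  have hP := card_sylow_of_norm h2 P hd hN
  have h2d : 2 * p ∣ Nat.card G := hN ▸ card_subgroup_dvd_card _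
  have hnp : ¬ (Nat.card G).Prime := fun h =>
    Nat.not_prime_mul (by norm_num) hp.out.ne_one
      (((Nat.dvd_prime h).1 h2d).resolve_left (by omega) ▸ h)
  have hG := (simple_perfect hnp).1
  obtain ⟨x, hx, e⟩ := exists_zpowers_eq_of_card hp.out hP
  obtain ⟨S, rfl⟩ := exists_setup hx (not_sq_dvd_of_sylow P hP)
  have h1 := S.card_normalizer
  rw [← e, hN, mul_comm, S.card_K] at h1
  have h3 := Nat.eq_of_mul_eq_mul_left hp.out.pos h1
  obtain ⟨B, hB⟩ := S.exists_principal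
  have h4 := B.index_ne_one hB hG
  have h5 : S.V.index = 2 :=
    ((Nat.dvd_prime Nat.prime_two).1 (h3 ▸ dvd_mul_left _ _)).resolve_left h4
  exact ⟨hG, S, exists_I2 S (by rw [h5] at h3; omega) h5⟩

namespace I2

variable {S : Setup G p} (I : I2 S)

theorem decomp [Fintype G] {A : G → ℂ} (hA : IsCharacter G A) (h0 : ∀ i, i ≠ 0 → A (S.xp i) = 0)
    (h1 : classInner A (triv G) = 1) {φ : IrrCharacter G} (hφ : φ ∈ I.B.Y) :
    ∃ a b : ℕ, classInner A I.χ = a ∧ (∀ ψ ∈ I.B.Y, classInner A ψ = b) ∧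
      I.B.ε * b = 1 + I.B.δ I.χ * a ∧
      1 + a * charDegree (I.χ : G → ℂ) + I.B.Y.card * (b * charDegree (φ : G → ℂ)) ≤
        charDegree A := by
  classical
  obtain ⟨a, ha⟩ := H5.exists_nat_classInner hA (H5.isCharacter_of_isIrr I.χ.2)
  obtain ⟨b, hb⟩ := H5.exists_nat_classInner hA (H5.isCharacter_of_isIrr φ.2)
  have hcl := H5.isClassFunction_of_isCharacter hA
  have hb' : ∀ ψ ∈ I.B.Y, classInner A ψ = b := fun ψ hψ => (I.inner_Y hcl h0 hψ hφ).trans hb
  have hr := I.inner_rel hcl h0 hφ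
  rw [ha, hb, h1] at hr
  refine ⟨a, b, ha, hb', by exact_mod_cast hr, ?_⟩
  have hχY : I.χ ∉ I.B.Y := Finset.disjoint_left.1 I.B.disj I.mem
  have htY : triv G ∉ insert I.χ I.B.Y := by
    rw [Finset.mem_insert, not_or]
    exact ⟨I.ne.symm, Finset.disjoint_left.1 I.B.disj I.tr⟩
  have := sum_mul_degree_le hA (insert (triv G) (insert I.χ I.B.Y))
    (fun ψ => if ψ = triv G then 1 else if ψ = I.χ then a else b) (fun ψ hψ m hm => by
      split_ifs with e1 e2
      · rw [e1, h1] at hm; exact (by exact_mod_cast hm : 1 = m).le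
      · rw [e2, ha] at hm; exact (by exact_mod_cast hm : a = m).le
      · rw [hb' ψ (by simpa [e1, e2] using hψ)] at hm; exact (by exact_mod_cast hm : b = m).le)
  rw [Finset.sum_insert htY, Finset.sum_insert hχY, if_pos rfl, if_neg I.ne, if_pos rfl,
    degree_triv, Finset.sum_congr (g := fun _ => b * charDegree (φ : G → ℂ)) rfl fun ψ hψ => by
      rw [if_neg (I.B.ne_triv_of_mem_Y I.tr hψ), if_neg (by rintro rfl; exact hχY hψ),
        I.B.degree_Y hψ hφ], Finset.sum_const, smul_eq_mul] at this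
  omega

/-- The two possible shapes of the block. -/
theorem shape (hG : commutator G = ⊤) {φ : IrrCharacter G} (hφ : φ ∈ I.B.Y) :
    (I.B.δ I.χ = -1 ∧ I.B.ε = -1 ∧ charDegree (φ : G → ℂ) + 1 = charDegree (I.χ : G → ℂ) ∧
      ∃ k, charDegree (I.χ : G → ℂ) + 1 = (k + 1) * p) ∨
    (I.B.δ I.χ = 1 ∧ I.B.ε = 1 ∧ charDegree (φ : G → ℂ) = charDegree (I.χ : G → ℂ) + 1 ∧
      ∃ k, charDegree (I.χ : G → ℂ) = (k + 1) * p + 1) := by
  have h1 := I.degree_eq hφ
  have h2 := I.deg_mod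
  have h3 := two_le_degree hG I.ne
  rcases I.B.δ_sign _ I.mem with e | e <;> rw [e] at h1 h2
  · refine Or.inr ⟨e, ?_⟩
    have h4 : p ∣ charDegree (I.χ : G → ℂ) - 1 := (Nat.modEq_iff_dvd' (by omega)).1
      ((Nat.modEq_iff_dvd.2 (by simpa using h2)).symm)
    obtain ⟨k, hk⟩ := h4
    rcases I.B.ε_sign with e' | e' <;> rw [e'] at h1
    · refine ⟨e', by omega, k - 1, ?_⟩
      rcases k with _ | k
      · omega
      · rw [Nat.add_sub_cancel, mul_comm, ← hk]; omega
    · omega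
  · refine Or.inl ⟨e, ?_⟩
    have h4 : p ∣ charDegree (I.χ : G → ℂ) + 1 := Int.natCast_dvd_natCast.1 (by
      have := (dvd_neg).2 h2
      rwa [show -(-1 - (charDegree (I.χ : G → ℂ) : ℤ)) = (charDegree (I.χ : G → ℂ) + 1 : ℕ) by
        push_cast; ring] at this)
    obtain ⟨k, hk⟩ := h4
    rcases I.B.ε_sign with e' | e' <;> rw [e'] at h1
    · omega
    · refine ⟨e', by omega, k - 1, ?_⟩
      rcases k with _ | k
      · omega
      · rw [Nat.add_sub_cancel, mul_comm, ← hk]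

end I2

/-- The permutation character vanishes on the elements of order `p` if `p` divides the degree. -/
theorem perm_vanish (S : Setup G p) {Ω : Type*} [Fintype Ω] [MulAction G Ω]
    [MulAction.IsPretransitive G Ω] (hΩ : p ∣ Fintype.card Ω) {i : ZMod p} (hi : i ≠ 0) :
    (Nat.card (MulAction.fixedBy Ω (S.xp i)) : ℂ) = 0 := by
  rw [Nat.cast_eq_zero, Nat.card_eq_zero]
  refine Or.inl ⟨fun a => S.hsq ?_⟩
  have h1 : p ∣ Nat.card (MulAction.stabilizer G (a : Ω)) := by
    exact (orderOf_eq_of_mem_zpowers hp.out S.hx (S.xp_mem i) (S.xp_ne_one hi)).symm.dvd.trans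
      (Subgroup.orderOf_dvd_natCard _ a.2)
  rw [← H25.card_mul_card_stabilizer (G := G) (a : Ω), pow_two]
  exact mul_dvd_mul hΩ h1

theorem perm_degree {Ω : Type*} [Fintype Ω] [MulAction G Ω] :
    charDegree (fun g : G => (Nat.card (MulAction.fixedBy Ω g) : ℂ)) = Fintype.card Ω :=
  charDegree_eq (by simp)

end Cfsg.Agent.H31
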