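import Cfsg.Agent.H31.Idx2c
import Cfsg.Agent.H35.AltSq
import Cfsg.Agent.H88.Count

/-! `|N(P)| = 2p`: involutions and the order formula. -/

set_option autoImplicit false
set_option linter.unusedSectionVars false

namespace Cfsg.Agent.H31

open Subgroup Cfsg Cfsg.Agent.H35

variable {G : Type*} [Group G] [Finite G] {p : ℕ} [hp : Fact p.Prime]

theorem orderOf_of_isConj {a b : G} {n : ℕ} (h : IsConj a b) (ha : orderOf a = n) :
    orderOf b = n := by
  obtain ⟨g, rfl⟩ := isConj_iff.1 h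
  exact ((MulAut.conj g).orderOf_eq a).trans ha

namespace I2

variable {S : Setup G p} (I : I2 S)

theorem sumY {i : ZMod p} (hi : i ≠ 0) : ∑ ψ ∈ I.B.Y, (ψ : G → ℂ) (S.xp i) = -I.B.ε := by
  rw [Finset.sum_congr rfl fun ψ hψ => I.B.valY' hψ hi, ← Finset.mul_sum,
    I.B.sum_orbits fun a => ech p (a * i), Finset.sum_erase_eq_sub (Finset.mem_univ _), sum_ech,
    if_neg hi]
  simp

include I in
theorem exists_t : ∃ t : S.K, t ≠ 1 ∧ orderOf (t : G) = 2 ∧ (∀ k : S.K, k = 1 ∨ k = t) ∧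
    S.κ t = -1 := by
  have hc : Nat.card S.K = 2 := by rw [S.card_K, I.hV, I.he]
  obtain ⟨t, ht, hu⟩ := (Nat.card_eq_two_iff' (1 : S.K)).1 hc
  have h2 : t ^ 2 = 1 := hc ▸ pow_card_eq_one'
  refine ⟨t, ht, by rw [orderOf_coe]; exact orderOf_eq_prime h2 ht,
    fun k => (em _).imp_right (hu k), ?_⟩
  have h3 : (S.κ t : ZMod p) * S.κ t = 1 := by
    rw [← Units.val_mul, ← map_mul, ← sq, h2, map_one, Units.val_one]
  rcases mul_self_eq_one_iff.1 h3 with e | e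
  · exact absurd (S.κ_injective I.hV ((Units.ext e).trans (map_one _).symm)) ht
  · exact Units.ext e

theorem inv_formula (hδ : I.B.δ I.χ = -1) (hε : I.B.ε = -1) {s : G} (hs : ¬ p ∣ orderOf s)
    {d : ℕ} (hd : charDegree (I.χ : G → ℂ) = d + 1) (hd0 : d ≠ 0) :
    (Nat.card G : ℂ) * Nat.card {q : G × G // IsConj s q.1 ∧ IsConj s q.2 ∧ q.1 * q.2 = S.x} *
      ((d + 1) * d) =
      ((centralizer ({s} : Set G)).index : ℂ) ^ 2 * (d + 1 - (I.χ : G → ℂ) s) ^ 2 := by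
  classical
  have hx : S.x⁻¹ = S.xp (-1) := by rw [S.xp_neg, S.xp_one]
  have h1 : (-1 : ZMod p) ≠ 0 := neg_ne_zero.2 one_ne_zero
  have hY : ∀ ψ ∈ I.B.Y, (ψ : G → ℂ) s = (I.χ : G → ℂ) s - 1 ∧ (ψ : G → ℂ) 1 = d := fun ψ hψ => by
    have k1 := I.reg hψ hs
    have k2 := I.reg hψ (g := 1) (by simpa using hp.out.ne_one)
    rw [hδ, hε] at k1 k2
    rw [cast_degree_irr I.χ, hd] at k2
    push_cast at k1 k2
    exact ⟨by linear_combination -k1, by linear_combination -k2⟩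
  have h2 := I.sumY h1
  rw [H88.card_class_mul, H5.card_isConj_eq_index, hx, I.B.sum_univ, I.X_eq,
    Finset.sum_pair I.ne.symm, Finset.sum_eq_zero (s := (_ : Finset _)ᶜ) fun ψ hψ => by
      rw [Finset.mem_compl, ← I.X_eq, Finset.mem_union, not_or] at hψ
      rw [I.B.vanish_out I.hV hψ.1 hψ.2 h1, mul_zero, zero_div],
    Finset.sum_congr rfl fun ψ hψ => by rw [(hY ψ hψ).1, (hY ψ hψ).2],
    ← Finset.sum_div, ← Finset.mul_sum, h2, I.valχ h1, hδ, hε, cast_degree_irr I.χ, hd]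
  have k1 : (d : ℂ) ≠ 0 := Nat.cast_ne_zero.2 hd0
  have k2 : (d : ℂ) + 1 ≠ 0 := by exact_mod_cast d.succ_ne_zero
  simp only [triv_apply]
  push_cast
  field_simp
  ring

end I2

section

variable {S : Setup G p} {t : S.K} (ht : orderOf (t : G) = 2) (hK : ∀ k : S.K, k = 1 ∨ k = t)
  (hκ : S.κ t = -1) (hV : Nat.card S.V = 1) (h2 : p ≠ 2)

include ht hK hV h2 in
theorem exists_eq_of_pair {a b : G} (ha : orderOf a = 2) (hb : orderOf b = 2) (h : a * b = S.x) :
    IsConj (t : G) a ∧ ∃ j, a = S.xp j * t := by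
  have ha2 : a * a = 1 := by rw [← sq, ← ha, pow_orderOf_eq_one]
  have hb2 : b * b = 1 := by rw [← sq, ← hb, pow_orderOf_eq_one]
  obtain ⟨j, k, e⟩ := S.exists_decomp (n := a) (mem_normalizer_zpowers_iff.2 (by
    rw [show a * S.x * a⁻¹ = S.x⁻¹ by
      rw [← h, ← mul_assoc, ha2, one_mul, mul_inv_rev, inv_eq_of_mul_eq_one_left hb2]]
    exact inv_mem (mem_zpowers _)))
  rcases hK k with rfl | rfl
  · exfalso
    rw [OneMemClass.coe_one, mul_one] at e
    by_cases hj : j = 0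
    · rw [e, hj, S.xp_zero, orderOf_one] at ha; omega
    · rw [e, orderOf_eq_of_mem_zpowers hp.out S.hx (S.xp_mem j) (S.xp_ne_one hj)] at ha
      exact h2 ha
  · obtain ⟨l, hl⟩ := S.exists_conj_xp_mul_K (S.not_mem_V hV (k := k) (by
      rintro rfl; simp at ht)) j
    exact ⟨isConj_iff.2 ⟨_, (e.trans hl).symm⟩, j, e⟩

include ht hK hV h2 hκ in
theorem card_pairs : Nat.card {q : G × G //
    IsConj (t : G) q.1 ∧ IsConj (t : G) q.2 ∧ q.1 * q.2 = S.x} = p := by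
  have ht1 : t ∉ S.V := S.not_mem_V hV (by rintro rfl; simp at ht)
  have htt : t * t = 1 := Subtype.ext (by rw [coe_mul, ← sq, ← ht, pow_orderOf_eq_one]; rfl)
  have hc : ∀ j, IsConj (t : G) (S.xp j * t) := fun j => by
    obtain ⟨l, hl⟩ := S.exists_conj_xp_mul_K ht1 j
    exact isConj_iff.2 ⟨_, hl.symm⟩
  have hm : ∀ j, S.xp j * t * (S.xp (j - 1) * t) = S.x := fun j => by
    rw [S.xp_mul_mul, htt, hκ, ← S.xp_one]
    simp
  refine (Nat.card_congr (Equiv.ofBijective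
    (fun j => ⟨(S.xp j * t, S.xp (j - 1) * t), hc _, hc _, hm j⟩) ⟨fun i j e => ?_, ?_⟩)).symm.trans
    (Nat.card_zmod p)
  · exact (S.eq_of_xp_mul_eq (congrArg (·.1.1) e)).1
  · rintro ⟨⟨a, b⟩, h1, h3, h4⟩
    obtain ⟨-, j, rfl⟩ := exists_eq_of_pair ht hK hV h2 (orderOf_of_isConj h1 ht)
      (orderOf_of_isConj h3 ht) h4
    exact ⟨j, Subtype.ext (Prod.ext rfl (mul_left_cancel ((hm j).trans h4.symm)))⟩

end

namespace I2

variable {S : Setup G p} (I : I2 S) {t : S.K} (ht : orderOf (t : G) = 2)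
  (hK : ∀ k : S.K, k = 1 ∨ k = t) (hκ : S.κ t = -1)

include ht hK in
theorem one_class [IsSimpleGroup G] (hG : commutator G = ⊤) (hδ : I.B.δ I.χ = -1)
    (hε : I.B.ε = -1) {s : G} (hs : orderOf s = 2) : IsConj (t : G) s := by
  by_contra hc
  obtain ⟨d, hd⟩ : ∃ d, charDegree (I.χ : G → ℂ) = d + 1 + 1 :=
    ⟨_, (Nat.sub_add_cancel (two_le_degree hG I.ne)).symm⟩
  have h1 := I.inv_formula hδ hε (s := s) (fun h => I.ne_two
    ((Nat.prime_dvd_prime_iff_eq hp.out Nat.prime_two).1 (hs ▸ h))) hd d.succ_ne_zero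
  haveI : IsEmpty {q : G × G // IsConj s q.1 ∧ IsConj s q.2 ∧ q.1 * q.2 = S.x} :=
    ⟨fun q => hc ((exists_eq_of_pair ht hK I.hV I.ne_two (orderOf_of_isConj q.2.1 hs)
      (orderOf_of_isConj q.2.2.1 hs) q.2.2.2).1.trans q.2.1.symm)⟩
  rw [Nat.card_of_isEmpty (α := Subtype _), Nat.cast_zero, mul_zero, zero_mul, eq_comm, mul_eq_zero,
    pow_eq_zero_iff two_ne_zero, pow_eq_zero_iff two_ne_zero, Nat.cast_eq_zero, sub_eq_zero] at h1
  refine H16.norm_ne_of_simple hG I.ne (g := s) (by rintro rfl; simp at hs) ?_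
  rw [← h1.resolve_left index_ne_zero_of_finite, show H16.dg I.χ = d + 1 + 1 from hd]
  exact_mod_cast Complex.norm_natCast (d + 1 + 1)

include ht hK hκ in
theorem order_formula (hδ : I.B.δ I.χ = -1) (hε : I.B.ε = -1) {d : ℕ}
    (hd : charDegree (I.χ : G → ℂ) = d + 1) (hd0 : d ≠ 0) {y : ℕ} (hy : (I.χ : G → ℂ) t = y)
    {e : ℕ} (he : d + 1 = y + e) : Nat.card G * e ^ 2 =
      p * Nat.card (centralizer ({(t : G)} : Set G)) ^ 2 * ((d + 1) * d) := by
  have h1 := I.inv_formula hδ hε (S.not_dvd_orderOf t) hd hd0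
  have h2 : ((d : ℂ) + 1) = y + e := by exact_mod_cast he
  rw [card_pairs ht hK hκ I.hV I.ne_two, hy, show (d : ℂ) + 1 - y = e by rw [h2]; ring] at h1
  have h3 : Nat.card G * p * ((d + 1) * d) =
      (centralizer ({(t : G)} : Set G)).index ^ 2 * e ^ 2 := by exact_mod_cast h1
  have h4 := (centralizer ({(t : G)} : Set G)).card_mul_index
  refine Nat.eq_of_mul_eq_mul_left (Nat.card_pos (α := G)) ?_
  calc Nat.card G * (Nat.card G * e ^ 2) = Nat.card (centralizer ({(t : G)} : Set G)) ^ 2 *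
        ((centralizer ({(t : G)} : Set G)).index ^ 2 * e ^ 2) := by rw [← h4]; ring
    _ = _ := by rw [← h3]; ring

include I ht in
/-- the value at the inverting involution -/
theorem val_t (hG : commutator G = ⊤) {A : G → ℂ} (hA : IsCharacter G A) {n m : ℕ} (hn : A 1 = n)
    (h : A 1 + ∑ i ∈ Finset.univ.erase 0, A (S.xp i) = p * m) :
    ∃ y : ℤ, A t = y ∧ |y| ≤ m ∧ (4 : ℤ) ∣ n - y := by
  obtain ⟨y, hy, h4⟩ := H16.invol_val hG hA hn (ht ▸ pow_orderOf_eq_one (t : G))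
  refine ⟨y, hy, ?_, h4⟩
  have h1 := H5.norm_apply_le_degree (S.isCharacter_fixK hA) t
  have h2 := S.fixK_one A
  rw [h] at h2
  rw [mul_left_cancel₀ natCast_prime_ne_zero h2, S.fixK_apply (H5.isClassFunction_of_isCharacter hA)
    (S.not_mem_V I.hV (by rintro rfl; simp at ht)), hy, Complex.norm_intCast,
    Complex.norm_natCast] at h1
  exact_mod_cast h1

end I2

end Cfsg.Agent.H31
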